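import Cfsg.Agent.Lib.SyF.Grp

/-! SYF package CNT: counting.  Proofs: docstrings / plans/SYF.md. -/

set_option autoImplicit false

namespace CfsgLib.SyF

open MulAction
open scoped Pointwise

variable {H : Type*} [Group H] [Finite H] {p : ℕ} [Fact p.Prime]
variable {α β : Type*} [MulAction H α] [MulAction H β]

omit [Group H] [Finite H] [Fact p.Prime] [MulAction H α] [MulAction H β] in
/-- Double counting, inequality form. -/
theorem dcount_le [Finite α] [Finite β] (A : Set α) (B : Set β) (R : α → β → Prop) (m n : ℕ)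
    (hA : ∀ a ∈ A, m ≤ {b | b ∈ B ∧ R a b}.ncard) (hB : ∀ b ∈ B, {a | a ∈ A ∧ R a b}.ncard ≤ n) :
    A.ncard * m ≤ B.ncard * n := by
  classical
  rw [Set.ncard_eq_toFinset_card A, Set.ncard_eq_toFinset_card B]
  refine Finset.card_mul_le_card_mul R (fun a ha => (hA a (by simpa using ha)).trans_eq ?_)
    fun b hb => le_of_eq_of_le ?_ (hB b (by simpa using hb))
  · rw [← Set.ncard_coe_finset]
    congr 1
    ext b
    simp [Finset.bipartiteAbove]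
  · rw [← Set.ncard_coe_finset]
    congr 1
    ext a
    simp [Finset.bipartiteBelow]

omit [Group H] [Finite H] [Fact p.Prime] [MulAction H α] [MulAction H β] in
/-- Double counting. -/
theorem dcount [Finite α] [Finite β] (A : Set α) (B : Set β) (R : α → β → Prop) (m n : ℕ)
    (hA : ∀ a ∈ A, {b | b ∈ B ∧ R a b}.ncard = m) (hB : ∀ b ∈ B, {a | a ∈ A ∧ R a b}.ncard = n) :
    A.ncard * m = B.ncard * n := by
  exact (dcount_le A B R m n (fun a ha => (hA a ha).ge) fun b hb => (hB b hb).le).antisymm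
    (dcount_le B A (fun b a => R a b) n m (fun b hb => (hB b hb).ge) fun a ha => (hA a ha).le)

omit [Group H] [Finite H] [Fact p.Prime] [MulAction H α] [MulAction H β] in
/-- Fibres of constant size. -/
theorem card_fib [Finite α] [Finite β] (A : Set α) (B : Set β) (π : α → β) (n : ℕ)
    (hA : ∀ a ∈ A, π a ∈ B) (hB : ∀ b ∈ B, {a | a ∈ A ∧ π a = b}.ncard = n) :
    A.ncard = n * B.ncard := by
  have := dcount A B (fun a b => π a = b) 1 n (fun a ha => Set.ncard_eq_one.2 ⟨π a, by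
    ext b
    exact ⟨fun h => h.2.symm, fun h => ⟨h ▸ hA a ha, h.symm⟩⟩⟩) hB
  rwa [mul_one, mul_comm] at this

omit [Group H] [Finite H] [Fact p.Prime] [MulAction H α] [MulAction H β] in
/-- Induction over a partition: `B y` is the part containing `y`. -/
theorem part_ind [Finite α] (P : Set α → Prop) (h0 : P ∅)
    (hu : ∀ A B, Disjoint A B → P A → P B → P (A ∪ B)) (B : α → Set α) (Y : Set α)
    (hB : ∀ y ∈ Y, y ∈ B y ∧ B y ⊆ Y ∧ P (B y) ∧ ∀ z ∈ B y, B z = B y) : P Y := by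
  induction hn : Y.ncard using Nat.strong_induction_on generalizing Y with
  | _ n ih =>
    rcases Y.eq_empty_or_nonempty with rfl | ⟨y, hy⟩
    · exact h0
    obtain ⟨h1, h2, h3, h4⟩ := hB y hy
    rw [← Set.union_diff_cancel h2]
    refine hu _ _ Set.disjoint_sdiff_right h3 (ih _ (hn ▸ Set.ncard_lt_ncard
      ⟨Set.diff_subset, fun k => (k hy).2 h1⟩) _ (fun z hz => ?_) rfl)
    obtain ⟨k1, k2, k3, k4⟩ := hB z hz.1
    exact ⟨k1, fun x hx => ⟨k2 hx, fun hx' => hz.2 ((h4 x hx').symm.trans (k4 x hx) ▸ k1)⟩, k3, k4⟩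

omit [Finite H] [Fact p.Prime] [MulAction H β] in
/-- Induction over the orbits of `X`. -/
theorem orb_ind [Finite α] (P : Set α → Prop) (h0 : P ∅)
    (hu : ∀ A B, Disjoint A B → P A → P B → P (A ∪ B)) {X : Subgroup H} {Y : Set α} (hY : Iv X Y)
    (h : ∀ y ∈ Y, P (orb X y)) : P Y :=
  part_ind P h0 hu (orb X) Y fun y hy =>
    ⟨mem_orb_self X y, hY.orb_subset hy, h y hy, fun _ hz => orb_eq_of_mem hz⟩

variable [Finite α]

theorem cnt_dvd {Q : Sylow p H} {Y : Set α} (h : Iv (Q : Subgroup H) Y) :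
    p ∣ (Y \ ln Y (Q : Subgroup H)).ncard := by
  refine orb_ind (fun Z => p ∣ Z.ncard) (by simp) (fun A B hd hA hB => ?_) (h.diff (iv_ln _ _))
    fun y hy => ?_
  · rw [Set.ncard_union_eq hd]
    exact dvd_add hA hB
  · obtain ⟨k, hk⟩ := orb_syl_card Q y
    rcases k with _ | k
    · obtain ⟨z, hz⟩ := Set.ncard_eq_one.1 hk
      refine absurd ⟨hy.1, fun g hg => ?_⟩ hy.2
      exact (hz.le (smul_mem_orb hg y)).trans (hz.le (mem_orb_self _ y)).symm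
    · rw [hk]
      exact dvd_pow_self p k.succ_ne_zero

/-- `|Y| = f + p t`. -/
theorem card_eq {Q : Sylow p H} {Y : Set α} (h : Iv (Q : Subgroup H) Y) :
    Y.ncard = ff (Q : Subgroup H) Y + p * tt p (Q : Subgroup H) Y := by
  rw [tt, Nat.mul_div_cancel' (cnt_dvd h), ff, add_comm]
  exact (Set.ncard_diff_add_ncard_of_subset (ln_subset _ _)).symm

omit [Finite H] [Fact p.Prime] in
theorem ff_union (Q : Subgroup H) {A B : Set α} (h : Disjoint A B) :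
    ff Q (A ∪ B) = ff Q A + ff Q B := by
  rw [ff, ff, ff, ← Set.ncard_union_eq (h.mono (ln_subset _ _) (ln_subset _ _))]
  congr 1
  ext x
  simp only [ln, Set.mem_union, Set.mem_ofPred_eq, or_and_right]

theorem tt_union {Q : Sylow p H} {A B : Set α} (h : Disjoint A B) (hA : Iv (Q : Subgroup H) A)
    (hB : Iv (Q : Subgroup H) B) :
    tt p (Q : Subgroup H) (A ∪ B) = tt p (Q : Subgroup H) A + tt p (Q : Subgroup H) B := by
  have h1 := card_eq (hA.union hB)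
  rw [Set.ncard_union_eq h, card_eq hA, card_eq hB, ff_union _ h] at h1
  refine Nat.eq_of_mul_eq_mul_left (Fact.out : p.Prime).pos ?_
  rw [mul_add]
  omega

theorem ex_union {Q : Sylow p H} {A B : Set α} (h : Disjoint A B) (hA : Iv (Q : Subgroup H) A)
    (hB : Iv (Q : Subgroup H) B) :
    ex p (Q : Subgroup H) (A ∪ B) = ex p (Q : Subgroup H) A + ex p (Q : Subgroup H) B := by
  rw [ex, ex, ex, tt_union h hA hB, ff_union _ h]
  push_cast
  ring

theorem ex_diff {Q : Sylow p H} {A B : Set α} (h : B ⊆ A) (hA : Iv (Q : Subgroup H) A)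
    (hB : Iv (Q : Subgroup H) B) :
    ex p (Q : Subgroup H) A = ex p (Q : Subgroup H) B + ex p (Q : Subgroup H) (A \ B) := by
  rw [← ex_union Set.disjoint_sdiff_right hB (hA.diff hB), Set.union_diff_cancel h]

omit [Finite H] [Fact p.Prime] [Finite α] in
theorem ex_empty (Q : Subgroup H) : ex p Q (∅ : Set α) = 0 := by
  simp [ex, tt, ff, ln]

omit [Finite H] [Fact p.Prime] [Finite α] in
theorem ff_of_fx {Q : Subgroup H} {A : Set α} (h : ∀ a ∈ A, Fx Q a) :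
    ff Q A = A.ncard ∧ tt p Q A = 0 ∧ ex p Q A = -(A.ncard : ℤ) := by
  have e : ln A Q = A := Set.ext fun a => ⟨fun k => k.1, fun k => ⟨k, h a k⟩⟩
  simp [ex, tt, ff, e]

omit [Finite H] [Fact p.Prime] in
theorem ff_pos_iff {Q : Subgroup H} {A : Set α} : 1 ≤ ff Q A ↔ ∃ a ∈ A, Fx Q a := by
  exact Set.ncard_pos

omit [Finite H] [Fact p.Prime] in
theorem two_le_ff_iff {Q : Subgroup H} {A : Set α} :
    2 ≤ ff Q A ↔ ∃ a ∈ A, ∃ b ∈ A, a ≠ b ∧ Fx Q a ∧ Fx Q b := by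
  refine (Set.one_lt_ncard (s := ln A Q)).trans ⟨?_, ?_⟩
  · rintro ⟨a, ha, b, hb, h⟩
    exact ⟨a, ha.1, b, hb.1, h, ha.2, hb.2⟩
  · rintro ⟨a, ha, b, hb, h, h1, h2⟩
    exact ⟨a, ⟨ha, h1⟩, b, ⟨hb, h2⟩, h⟩

omit [Finite H] [Fact p.Prime] in
/-- Removing a fixed point. -/
theorem del_fx {Q : Subgroup H} {Y : Set α} {s : α} (hs : s ∈ Y) (fs : Fx Q s) :
    ff Q (Y \ {s}) + 1 = ff Q Y ∧ tt p Q (Y \ {s}) = tt p Q Y ∧
      ex p Q (Y \ {s}) = ex p Q Y + 1 ∧ (Y \ {s}).ncard + 1 = Y.ncard := by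
  have e : ln (Y \ {s}) Q = ln Y Q \ {s} := Set.ext fun a =>
    ⟨fun k => ⟨⟨k.1.1, k.2⟩, k.1.2⟩, fun k => ⟨⟨k.1.1, k.2⟩, k.1.2⟩⟩
  have e' : (Y \ {s}) \ ln (Y \ {s}) Q = Y \ ln Y Q := Set.ext fun a =>
    ⟨fun k => ⟨k.1.1, fun k' => k.2 ⟨k.1, k'.2⟩⟩,
      fun k => ⟨⟨k.1, fun k' => k.2 ⟨k.1, (show a = s from k') ▸ fs⟩⟩, fun k' => k.2 ⟨k.1, k'.2⟩⟩⟩
  have h1 : ff Q (Y \ {s}) + 1 = ff Q Y := by
    rw [ff, e]
    exact Set.ncard_diff_singleton_add_one ⟨hs, fs⟩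
  have h2 : tt p Q (Y \ {s}) = tt p Q Y := by rw [tt, e', tt]
  refine ⟨h1, h2, ?_, Set.ncard_diff_singleton_add_one hs⟩
  rw [ex, ex, h2, ← h1]
  push_cast
  ring

omit [Finite H] [Fact p.Prime] in
theorem tt_mono (Q : Subgroup H) {A B : Set α} (h : A ⊆ B) : tt p Q A ≤ tt p Q B := by
  exact Nat.div_le_div_right (Set.ncard_le_ncard fun a k => ⟨h k.1, fun k' => k.2 ⟨k.1, k'.2⟩⟩)

omit [Finite α] in
/-- `ff`, `tt`, `ex` do not depend on the Sylow.  (`conj_in'`, `ff_smul`, `Iv.smul_eq`.) -/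
theorem indep {X : Subgroup H} {Y : Set α} (hY : Iv X Y) {Q Q' : Sylow p H}
    (hQ : (Q : Subgroup H) ≤ X) (hQ' : (Q' : Subgroup H) ≤ X) :
    ff (Q : Subgroup H) Y = ff (Q' : Subgroup H) Y ∧
      tt p (Q : Subgroup H) Y = tt p (Q' : Subgroup H) Y ∧
      ex p (Q : Subgroup H) Y = ex p (Q' : Subgroup H) Y := by
  obtain ⟨g, hg, rfl⟩ := conj_in' hQ hQ'
  rw [syl_smul]
  nth_rewrite 2 4 6 [← hY.smul_eq hg]
  rw [ff_smul, tt_smul, ex_smul]
  exact ⟨rfl, rfl, rfl⟩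

/-- If `t = 0` then `Q` fixes `Y`. -/
theorem fx_of_tt_zero {Q : Sylow p H} {Y : Set α} (h : Iv (Q : Subgroup H) Y)
    (h0 : tt p (Q : Subgroup H) Y = 0) : ∀ y ∈ Y, Fx (Q : Subgroup H) y := by
  have h1 := Nat.mul_div_cancel' (cnt_dvd h)
  rw [← tt, h0, mul_zero, eq_comm, Set.ncard_eq_zero, Set.diff_eq_empty] at h1
  exact fun y hy => (h1 hy).2

/-- A non-empty invariant set without fixed points has `t ≥ 1` (else all Sylows in `X` fix it). -/
theorem tt_pos {X : Subgroup H} (hX : Gn p X) {Q : Sylow p H} (hQ : (Q : Subgroup H) ≤ X)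
    {Y : Set α} (hY : Iv X Y) (hn : NF X Y) (hne : Y.Nonempty) : 1 ≤ tt p (Q : Subgroup H) Y := by
  by_contra h0
  obtain ⟨y, hy⟩ := hne
  exact hn y hy (hX.fx_iff.2 fun Q' hQ' => fx_of_tt_zero (hY.mono hQ')
    (by rw [← (indep hY hQ hQ').2.1]; omega) y hy)

/-- In an orbit with `f ≥ 1` every point is fixed by a Sylow of `X`. -/
theorem IsOrb.sy_LL {X : Subgroup H} {Y : Set α} (hY : IsOrb X Y) {Q : Sylow p H}
    (hQ : (Q : Subgroup H) ≤ X) (hf : 1 ≤ ff (Q : Subgroup H) Y) {b : α} (hb : b ∈ Y) :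
    Sy p (LL p X b) := by
  obtain ⟨a, ha, fa⟩ := ff_pos_iff.1 hf
  obtain ⟨g, hg, rfl⟩ := hY.tr ha hb
  exact ⟨g • Q, le_LL.2 ⟨smul_le_of_le hg hQ, fx_smul.2 fa⟩⟩

/-- If `f ≥ 1` on an invariant set then every Sylow of `X` fixes a point. -/
theorem exists_fx {X : Subgroup H} {Y : Set α} (hY : Iv X Y) {Q Q' : Sylow p H}
    (hQ : (Q : Subgroup H) ≤ X) (hQ' : (Q' : Subgroup H) ≤ X) (hf : 1 ≤ ff (Q : Subgroup H) Y) :
    ∃ b ∈ Y, Fx (Q' : Subgroup H) b :=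
  ff_pos_iff.1 ((indep hY hQ hQ').1 ▸ hf)

/-- The excess is non-negative if it is so on every part. -/
theorem ex_nonneg_of_parts {Q : Sylow p H} (B : α → Set α) (Y : Set α)
    (hB : ∀ y ∈ Y, y ∈ B y ∧ B y ⊆ Y ∧ (Iv (Q : Subgroup H) (B y) ∧
      0 ≤ ex p (Q : Subgroup H) (B y)) ∧ ∀ z ∈ B y, B z = B y) :
    0 ≤ ex p (Q : Subgroup H) Y := by
  exact (part_ind (fun Z => Iv (Q : Subgroup H) Z ∧ 0 ≤ ex p (Q : Subgroup H) Z)
    ⟨fun _ _ _ h => h, (ex_empty _).ge⟩ (fun A B h hA hB =>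
      ⟨hA.1.union hB.1, ex_union h hA.1 hB.1 ▸ add_nonneg hA.2 hB.2⟩) B Y hB).2

theorem ex_nonneg_of_orb {X : Subgroup H} {Q : Sylow p H} (hQ : (Q : Subgroup H) ≤ X) {Y : Set α}
    (hY : Iv X Y) (h : ∀ y ∈ Y, 0 ≤ ex p (Q : Subgroup H) (orb X y)) :
    0 ≤ ex p (Q : Subgroup H) Y :=
  ex_nonneg_of_parts (orb X) Y fun y hy =>
    ⟨mem_orb_self X y, hY.orb_subset hy, ⟨(iv_orb X y).mono hQ, h y hy⟩,
      fun _ hz => orb_eq_of_mem hz⟩

/-- FIB: constant fibres that respect fixed points multiply `card`, `ff`, `tt`, `ex`. -/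
theorem fib [Finite β] {Q : Sylow p H} {A : Set α} {B : Set β} (hA : Iv (Q : Subgroup H) A)
    (hB : Iv (Q : Subgroup H) B) (π : α → β) (n : ℕ) (hπ : ∀ a ∈ A, π a ∈ B)
    (hn : ∀ b ∈ B, {a | a ∈ A ∧ π a = b}.ncard = n)
    (hf : ∀ a ∈ A, Fx (Q : Subgroup H) a ↔ Fx (Q : Subgroup H) (π a)) :
    A.ncard = n * B.ncard ∧ ff (Q : Subgroup H) A = n * ff (Q : Subgroup H) B ∧
      tt p (Q : Subgroup H) A = n * tt p (Q : Subgroup H) B ∧
      ex p (Q : Subgroup H) A = n * ex p (Q : Subgroup H) B := by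
  have h1 := card_fib A B π n hπ hn
  have h2 : ff (Q : Subgroup H) A = n * ff (Q : Subgroup H) B :=
    card_fib _ _ π n (fun a ha => ⟨hπ a ha.1, (hf a ha.1).1 ha.2⟩) fun b hb => by
      rw [← hn b hb.1]
      congr 1
      ext a
      exact ⟨fun k => ⟨k.1.1, k.2⟩, fun k => ⟨⟨k.1, (hf a k.1).2 (k.2 ▸ hb.2)⟩, k.2⟩⟩
  have h3 : tt p (Q : Subgroup H) A = n * tt p (Q : Subgroup H) B := by
    rw [card_eq hA, card_eq hB, h2, mul_add, mul_left_comm] at h1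
    exact Nat.eq_of_mul_eq_mul_left (Fact.out : p.Prime).pos (Nat.add_left_cancel h1)
  refine ⟨h1, h2, h3, ?_⟩
  rw [ex, ex, h2, h3]
  push_cast
  ring

/-- RATIO: count the pairs (Sylow `Q' ≤ Z`, point of the orbit fixed by `Q'`). -/
theorem ratio {Z : Subgroup H} {Q : Sylow p H} (hQ : (Q : Subgroup H) ≤ Z) (b : α) :
    (orb Z b).ncard * nu p (LL p Z b) = nu p Z * ff (Q : Subgroup H) (orb Z b) := by
  refine dcount (orb Z b) {Q' : Sylow p H | (Q' : Subgroup H) ≤ Z}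
    (fun c Q' => Fx (Q' : Subgroup H) c) _ _ ?_ fun Q' hQ' => (indep (iv_orb Z b) hQ' hQ).1
  rintro _ ⟨g, hg, rfl⟩
  rw [← nu_smul g, smul_LL hg, nu]
  congr 1
  ext Q'
  exact le_LL.symm

omit [Finite H] [Fact p.Prime] in
/-- REL: out-degree = in-degree for an invariant relation on a set `A` on which the invariance
group `N` is transitive. -/
theorem rel_deg (N : Subgroup H) (A : Set α) (R : α → α → Prop) (hA : Iv N A)
    (htr : ∀ a ∈ A, ∀ b ∈ A, ∃ g ∈ N, g • a = b)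
    (hR : ∀ g ∈ N, ∀ a ∈ A, ∀ b ∈ A, R a b → R (g • a) (g • b)) {s : α} (hs : s ∈ A) :
    {c | c ∈ A ∧ R s c}.ncard = {c | c ∈ A ∧ R c s}.ncard := by
  have k : ∀ (R : α → α → Prop), (∀ g ∈ N, ∀ a ∈ A, ∀ b ∈ A, R a b → R (g • a) (g • b)) →
      ∀ a ∈ A, {c | c ∈ A ∧ R a c}.ncard = {c | c ∈ A ∧ R s c}.ncard := fun R hR => by
    have l : ∀ a ∈ A, ∀ b ∈ A, {c | c ∈ A ∧ R a c}.ncard ≤ {c | c ∈ A ∧ R b c}.ncard := fun a ha b hb => by
      obtain ⟨g, hg, rfl⟩ := htr a ha b hb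
      exact Set.ncard_le_ncard_of_injOn (g • ·) (fun c hc => ⟨hA g hg c hc.1, hR g hg a ha c hc.1 hc.2⟩)
        fun _ _ _ _ e => smul_left_cancel g e
    exact fun a ha => (l a ha s hs).antisymm (l s hs a ha)
  exact Nat.eq_of_mul_eq_mul_left ((Set.ncard_pos (Set.toFinite A)).2 ⟨s, hs⟩)
    (dcount A A R _ _ (k R hR) (k (fun a b => R b a) fun g hg a ha b hb => hR g hg b hb a ha))

end CfsgLib.SyF
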