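import Cfsg.Agent.Lib.SyF.One

/-! SYF package CX: the situation of Lemma S, small pairs give lines (S1).  Proofs: docstrings / plans/SYF.md. -/

set_option autoImplicit false

namespace CfsgLib.SyF

open MulAction
open scoped Pointwise

variable {H : Type*} [Group H] [Finite H] {p : ℕ} [Fact p.Prime]
variable {α β : Type*} [MulAction H α] [MulAction H β]

variable [Finite α] {X : Subgroup H} {S : Set α}

theorem Cx.mm (h : Cx p X S) : MM H p α S.ncard := h.th.mh.mm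

omit [Finite H] [Finite α] in
theorem Cx.three (h : Cx p X S) : 3 ≤ p := by
  have := (Fact.out : p.Prime).two_le
  have := h.odd
  omega

/-- `f = (p-1) t - E ≥ 2`. -/
theorem Cx.two_le_ff (h : Cx p X S) {Q : Sylow p H} (hQ : (Q : Subgroup H) ≤ X) :
    2 ≤ ff (Q : Subgroup H) S := by
  have h1 := h.t2 Q hQ
  have h2 := h.e Q hQ
  have h3 := h.three
  rw [ex] at h2
  zify at *
  nlinarith

theorem Cx.sy_LL (h : Cx p X S) {s : α} (hs : s ∈ S) : Sy p (LL p X s) := by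
  obtain ⟨Q, hQ⟩ := h.sy
  exact h.orb.sy_LL hQ (by have := h.two_le_ff hQ; omega) hs

/-- EXC: `S = ln S Z ∪ W ∪ rest`, `E(ln) = -|ln|`, `E(rest) ≥ 0` by `Cx.mm`. -/
theorem Cx.exc (h : Cx p X S) {Z : Subgroup H} (hZ : Gn p Z) (hle : Z ≤ X) {Q : Sylow p H}
    (hQ : (Q : Subgroup H) ≤ Z) (hne : (ln S Z).Nonempty) {W : Set α} (hW : W ⊆ S) (hi : Iv Z W)
    (hn : NF Z W) : ex p (Q : Subgroup H) W ≤ 2 * (p : ℤ) - 4 + (ln S Z).ncard := by
  have hS : Iv Z S := h.orb.iv.mono hle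
  have hR := hS.diff (iv_ln S Z)
  have sub : W ⊆ S \ ln S Z := fun w hw => ⟨hW hw, fun k => hn w hw k.2⟩
  have e1 := ex_diff (ln_subset S Z) (hS.mono hQ) ((iv_ln S Z).mono hQ)
  have e2 := ex_diff sub (hR.mono hQ) (hi.mono hQ)
  have e3 := (ff_of_fx (p := p) (Q := (Q : Subgroup H)) (A := ln S Z) fun a ha => ha.2.mono hQ).2.2
  have e4 := h.mm Z Q _ hZ hQ (hR.diff hi) (fun y hy k => hy.1.2 ⟨hy.1.1, k⟩)
    (Set.ncard_lt_ncard ⟨fun y hy => hy.1.1, fun k => (k hne.some_mem.1).1.2 hne.some_mem⟩)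
  have e5 := h.e Q (hQ.trans hle)
  omega

/-- EXC at a point (`ln S (LL X s) = {s}`). -/
theorem Cx.exc1 (h : Cx p X S) {s : α} (hs : s ∈ S) {Q : Sylow p H}
    (hQ : (Q : Subgroup H) ≤ LL p X s) {W : Set α} (hW : W ⊆ S \ {s}) (hi : Iv (LL p X s) W) :
    ex p (Q : Subgroup H) W ≤ 2 * (p : ℤ) - 3 := by
  have e : ln S (LL p X s) = {s} := Set.eq_singleton_iff_unique_mem.2
    ⟨⟨hs, LL_fx X s⟩, fun a ha => (h.red s hs a ha.1 ha.2).symm⟩
  have := h.exc (gn_LL X s) (LL_le X s) hQ (by simp [e]) (hW.trans Set.sdiff_subset) hi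
    fun y hy => h.red.nf hs y (hW hy)
  rw [e, Set.ncard_singleton] at this
  omega

/-- Invariant subsets of `S \ {s}` have non-negative excess. -/
theorem Cx.nonneg1 (h : Cx p X S) {s : α} (hs : s ∈ S) {Q : Sylow p H}
    (hQ : (Q : Subgroup H) ≤ LL p X s) {W : Set α} (hW : W ⊆ S \ {s}) (hi : Iv (LL p X s) W) :
    0 ≤ ex p (Q : Subgroup H) W := by
  exact h.mm _ Q W (gn_LL X s) hQ hi (fun y hy => h.red.nf hs y (hW hy))
    (Set.ncard_lt_ncard ⟨hW.trans Set.sdiff_subset, fun k => (hW (k hs)).2 rfl⟩)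

omit [Finite H] [Fact p.Prime] [Finite α] in
theorem Cx.iv1 (h : Cx p X S) (s : α) : Iv (LL p X s) (S \ {s}) :=
  (h.orb.iv.mono (LL_le X s)).diff (LL_fx X s).iv

omit [Finite H] [Fact p.Prime] [Finite α] in
theorem Cx.orb_sub (h : Cx p X S) {s b : α} (_hs : s ∈ S) (hb : b ∈ S) (hne : s ≠ b) :
    SyF.orb (LL p X s) b ⊆ S \ {s} :=
  (h.iv1 s).orb_subset ⟨hb, hne.symm⟩

/-- A pair that is not small has an orbit of excess `≥ p - 1` (no Sylow fixes it: `ff = 0`, `tt_pos`;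
else `pencil`, and `TH` on the pencil: `t = 1` would make it small by `one_of_tt`), and if a Sylow fixes the
pair then `LL X s` is reduced on the orbit (`n (p-1) ≤ 2p - 3`). -/
theorem Cx.heavy (h : Cx p X S) {s b : α} (hs : s ∈ S) (hb : b ∈ S) (hne : s ≠ b)
    (hns : ∀ φ, ¬ Small p X s b φ) {Q : Sylow p H} (hQ : (Q : Subgroup H) ≤ LL p X s) :
    (p : ℤ) - 1 ≤ ex p (Q : Subgroup H) (SyF.orb (LL p X s) b) ∧
      (Sy p (L2 p X s b) → Red p (LL p X s) (SyF.orb (LL p X s) b)) := by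
  have sub := h.orb_sub hs hb hne
  have nb : ¬ Fx (LL p X s) b := h.red.nf hs b ⟨hb, hne.symm⟩
  have p3 := h.three
  by_cases hy : Sy p (L2 p X s b)
  swap
  · have h1 := tt_pos (gn_LL X s) hQ (iv_orb _ b) (nf_orb nb) ⟨b, mem_orb_self _ b⟩
    have h2 : ff (Q : Subgroup H) (SyF.orb (LL p X s) b) = 0 := by
      by_contra h2
      exact hy ((isOrb_orb _ b).sy_LL hQ (by omega) (mem_orb_self _ b))
    refine ⟨?_, fun k => (hy k).elim⟩
    rw [ex, h2]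
    zify at *
    nlinarith
  obtain ⟨n, n1, hr, hc, hp⟩ := pencil hy
  obtain ⟨f1, -, e1⟩ := hp Q hQ
  have e2 := h.exc1 hs hQ sub (iv_orb _ b)
  have e3 : (p : ℤ) - 1 ≤ ex p (Q : Subgroup H) (SyF.orb (LL p X s) (LL p (LL p X s) b)) := by
    by_contra hc'
    have nf := pencil_nf (gn_LL X s) hy nb
    have lt := Set.ncard_lt_ncard (s := SyF.orb (LL p X s) b) (t := S)
      ⟨sub.trans Set.sdiff_subset, fun k => (sub (k hs)).2 rfl⟩
    have t1 := h.th _ Q _ (gn_LL X s) hQ (isOrb_orb _ _) (orbSub_red (gn_LL _ b) hy (LL_le _ b)) nf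
      (by nlinarith) (by omega)
    refine hns _ ⟨?_, one_of_tt (gn_LL X s) hQ (iv_orb _ _) nf t1⟩
    obtain ⟨Q0, h0⟩ := hy
    rw [le_LL] at h0
    have := ff_pos_iff.2 ⟨b, mem_orb_self (LL p X s) b, h0.2⟩
    rw [(indep (iv_orb _ b) h0.1 hQ).1, f1] at this
    exact Nat.pos_of_mul_pos_left this
  zify at n1 p3
  refine ⟨by nlinarith, fun _ => hr ?_⟩
  by_contra n2
  have : (2 : ℤ) ≤ n := by omega
  nlinarith

/-- At most one heavy orbit. -/
theorem Cx.heavy_uniq (h : Cx p X S) {s b c : α} (hs : s ∈ S) (hb : b ∈ S) (hc : c ∈ S)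
    (hne : s ≠ b) (hne' : s ≠ c) (hns : ∀ φ, ¬ Small p X s b φ) (hns' : ∀ φ, ¬ Small p X s c φ) :
    c ∈ SyF.orb (LL p X s) b := by
  by_contra hc'
  obtain ⟨Q, hQ⟩ := h.sy_LL hs
  have e1 := (h.heavy hs hb hne hns hQ).1
  have e2 := (h.heavy hs hc hne' hns' hQ).1
  have e3 := h.exc1 hs hQ (Set.union_subset (h.orb_sub hs hb hne) (h.orb_sub hs hc hne'))
    ((iv_orb _ b).union (iv_orb _ c))
  rw [ex_union (orb_disjoint hc') ((iv_orb _ b).mono hQ) ((iv_orb _ c).mono hQ)] at e3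
  omega

/-- If no Sylow fixes `s, u` then every Sylow fixing `s` is transitive on the orbit of `u`
(`ff = 0`, so `t = 1` by `exc1`; the `Q`-orbit has `t ≥ 1` by `tt_pos` for `gn_syl Q`). -/
theorem Cx.zero (h : Cx p X S) {s u : α} (hs : s ∈ S) (hu : u ∈ S) (hne : s ≠ u)
    (hz : ¬ Sy p (L2 p X s u)) {Q : Sylow p H} (hQ : (Q : Subgroup H) ≤ LL p X s) :
    SyF.orb (Q : Subgroup H) u = SyF.orb (LL p X s) u := by
  have e1 := h.exc1 hs hQ (h.orb_sub hs hu hne) (iv_orb _ u)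
  have e2 : ff (Q : Subgroup H) (SyF.orb (LL p X s) u) = 0 := by
    by_contra h2
    exact hz ((isOrb_orb _ u).sy_LL hQ (by omega) (mem_orb_self _ u))
  have e3 := card_eq ((iv_orb (LL p X s) u).mono hQ)
  have e4 := card_eq (iv_orb (Q : Subgroup H) u)
  have e5 := tt_pos (gn_syl Q) le_rfl (iv_orb _ u) (nf_orb fun k => hz ⟨Q, le_LL.2 ⟨hQ, k⟩⟩)
    ⟨u, mem_orb_self _ u⟩
  have p3 := h.three
  rw [ex, e2] at e1
  have e6 : tt p (Q : Subgroup H) (SyF.orb (LL p X s) u) ≤ 1 := by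
    by_contra h2
    zify at *
    nlinarith
  refine Set.eq_of_subset_of_ncard_le (orb_mono hQ u) ?_
  rw [e3, e4, e2]
  nlinarith

/-- Without small pairs at `s` Lemma S holds. -/
theorem Cx.of_no_small (h : Cx p X S) {s : α} (hs : s ∈ S)
    (hns : ∀ b ∈ S, s ≠ b → ∀ φ, ¬ Small p X s b φ) :
    IsOrb (LL p X s) (S \ {s}) ∧ Red p (LL p X s) (S \ {s}) := by
  obtain ⟨Q, hQ⟩ := h.sy_LL hs
  obtain ⟨b, hb, hne, fb⟩ : ∃ b ∈ S, s ≠ b ∧ Fx (Q : Subgroup H) b := by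
    obtain ⟨a, ha, b, hb, ne, fa, fb⟩ := two_le_ff_iff.1 (h.two_le_ff (hQ.trans (LL_le X s)))
    by_cases e : s = a
    exacts [⟨b, hb, e ▸ ne, fb⟩, ⟨a, ha, e, fa⟩]
  have e : S \ {s} = SyF.orb (LL p X s) b := Set.Subset.antisymm (fun c hc =>
    h.heavy_uniq hs hb hc.1 hne (Ne.symm hc.2) (hns b hb hne) (hns c hc.1 (Ne.symm hc.2)))
    (h.orb_sub hs hb hne)
  rw [e]
  exact ⟨isOrb_orb _ b, (h.heavy hs hb hne (hns b hb hne) hQ).2 ⟨Q, le_LL.2 ⟨hQ, fb⟩⟩⟩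

omit [Finite α] in
theorem Small.sy {s b : α} {φ : ℕ} (h : Small p X s b φ) : Sy p (L2 p X s b) := by
  by_contra hn
  have e : L2 p X s b = ⊥ := le_bot_iff.1 ((gn_LL _ b).le_iff.2 fun Q hQ => (hn ⟨Q, hQ⟩).elim)
  exact h.2.nf _ (mem_orb_self _ _) fun g _ => by rw [e]; exact Subgroup.map_bot _

omit [Finite H] [Fact p.Prime] [Finite α] in
theorem Small.smul {s b : α} {φ : ℕ} (h : Small p X s b φ) {g : H} (hg : g ∈ X) :
    Small p X (g • s) (g • b) φ := by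
  have := h.2.smul g
  rw [pen, smul_orb, smul_L2 hg, smul_LL hg] at this
  exact ⟨h.1, this⟩

/-- A point of a `t = 1` orbit of `LL X s` gives a small pair. -/
theorem small_of_one {s b : α} {Y : Set α} {φ : ℕ} (h : One p (LL p X s) Y φ) (hφ : 1 ≤ φ)
    (hb : b ∈ Y) : Small p X s b φ :=
  ⟨hφ, h.pcl hφ hb⟩

end CfsgLib.SyF
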