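import Mathlib

/-!
Project SYF (S4181, S3580): definitions and the elementary API.
`H` is a fixed finite group, `p` a prime.  "Sylow" always means a Sylow `p`-subgroup of `H`.
See plans/SYF.md.
-/

set_option autoImplicit false

namespace CfsgLib.SyF

open MulAction
open scoped Pointwise

variable {H : Type*} [Group H]

/-- `H` acts on its subgroups by conjugation. -/
scoped instance conjSub : MulAction H (Subgroup H) where
  smul g M := M.map (MulAut.conj g).toMonoidHom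
  one_smul M := by
    change M.map _ = M
    ext x; simp
  mul_smul a b M := by
    change M.map _ = (M.map _).map _
    rw [Subgroup.map_map]; congr 1; ext x; simp [mul_assoc]

theorem mem_smul_sub {g x : H} {M : Subgroup H} : x ∈ g • M ↔ g⁻¹ * x * g ∈ M := by
  change x ∈ M.map _ ↔ _
  constructor
  · rintro ⟨y, hy, rfl⟩
    simpa [mul_assoc] using hy
  · intro h
    exact ⟨_, h, by simp [mul_assoc]⟩

theorem conj_mem_smul {g x : H} {M : Subgroup H} : g * x * g⁻¹ ∈ g • M ↔ x ∈ M := by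
  rw [mem_smul_sub]; simp [mul_assoc]

theorem smul_le_smul_sub {g : H} {M N : Subgroup H} : g • M ≤ g • N ↔ M ≤ N := by
  constructor
  · intro h x hx
    exact conj_mem_smul.1 (h (conj_mem_smul.2 hx))
  · intro h x hx
    exact mem_smul_sub.2 (h (mem_smul_sub.1 hx))

theorem smul_le_iff_sub {g : H} {M N : Subgroup H} : g • M ≤ N ↔ M ≤ g⁻¹ • N := by
  rw [← smul_le_smul_sub (g := g) (N := g⁻¹ • N), smul_inv_smul]

theorem smul_self_sub {g : H} {X : Subgroup H} (hg : g ∈ X) : g • X = X := by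
  ext x
  rw [mem_smul_sub]
  constructor
  · intro h
    have := X.mul_mem (X.mul_mem hg h) (X.inv_mem hg)
    simpa [mul_assoc] using this
  · intro h
    exact X.mul_mem (X.mul_mem (X.inv_mem hg) h) hg

theorem smul_le_of_le {g : H} {M X : Subgroup H} (hg : g ∈ X) (h : M ≤ X) : g • M ≤ X := by
  rw [← smul_self_sub hg]; exact smul_le_smul_sub.2 h

theorem smul_inf_sub (g : H) (M N : Subgroup H) : g • (M ⊓ N) = g • M ⊓ g • N := by
  ext x; simp [mem_smul_sub]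

theorem card_smul_sub (g : H) (M : Subgroup H) : Nat.card ↥(g • M) = Nat.card M :=
  (Nat.card_congr (M.equivMapOfInjective _ (MulAut.conj g).injective).toEquiv).symm

theorem eq_of_smul_le [Finite H] {g : H} {M : Subgroup H} (h : g • M ≤ M) : g • M = M :=
  Subgroup.eq_of_le_of_card_ge h (card_smul_sub g M).ge

theorem eq_of_le_smul [Finite H] {g : H} {M : Subgroup H} (h : M ≤ g • M) : g • M = M :=
  (Subgroup.eq_of_le_of_card_ge h (card_smul_sub g M).le).symm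

theorem syl_smul {p : ℕ} (g : H) (Q : Sylow p H) :
    ((g • Q : Sylow p H) : Subgroup H) = g • (Q : Subgroup H) := rfl

section Sets

variable {α : Type*} [MulAction H α]

/-- `X` fixes the point `a`. -/
def Fx (X : Subgroup H) (a : α) : Prop := ∀ g ∈ X, g • a = a

/-- The orbit of `a` under `X`. -/
def orb (X : Subgroup H) (a : α) : Set α := {b | ∃ g ∈ X, g • a = b}

/-- `Y` is invariant under `X`. -/
def Iv (X : Subgroup H) (Y : Set α) : Prop := ∀ g ∈ X, ∀ y ∈ Y, g • y ∈ Y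

/-- `X` fixes no point of `Y`. -/
def NF (X : Subgroup H) (Y : Set α) : Prop := ∀ y ∈ Y, ¬ Fx X y

/-- `Y` is one orbit of `X`. -/
def IsOrb (X : Subgroup H) (Y : Set α) : Prop := ∃ b, Y = orb X b

/-- The points of `S` fixed by `M`. -/
def ln (S : Set α) (M : Subgroup H) : Set α := {c | c ∈ S ∧ Fx M c}

/-- Number of points of `Y` fixed by `Q`. -/
noncomputable def ff (Q : Subgroup H) (Y : Set α) : ℕ := (ln Y Q).ncard

/-- Number of points of `Y` moved by `Q`, divided by `p`. -/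
noncomputable def tt (p : ℕ) (Q : Subgroup H) (Y : Set α) : ℕ := (Y \ ln Y Q).ncard / p

/-- The excess `(p-1) t - f`. -/
noncomputable def ex (p : ℕ) (Q : Subgroup H) (Y : Set α) : ℤ :=
  ((p : ℤ) - 1) * tt p Q Y - ff Q Y

theorem Fx.mono {X Z : Subgroup H} {a : α} (h : Fx X a) (hZ : Z ≤ X) : Fx Z a :=
  fun g hg => h g (hZ hg)

theorem fx_iff_le {X : Subgroup H} {a : α} : Fx X a ↔ X ≤ stabilizer H a := Iff.rfl

theorem fx_smul {g : H} {M : Subgroup H} {a : α} : Fx (g • M) (g • a) ↔ Fx M a := by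
  constructor
  · intro h x hx
    have := h _ (conj_mem_smul.2 hx)
    rw [mul_smul, mul_smul, inv_smul_smul] at this
    exact smul_left_cancel g this
  · intro h x hx
    have := h _ (mem_smul_sub.1 hx)
    rw [mul_smul, mul_smul, inv_smul_eq_iff] at this
    exact this

theorem fx_smul_iff {g : H} {M : Subgroup H} {a : α} : Fx (g • M) a ↔ Fx M (g⁻¹ • a) := by
  rw [← fx_smul (g := g) (M := M), smul_inv_smul]

theorem smul_stabilizer (g : H) (a : α) : g • stabilizer H a = stabilizer H (g • a) := by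
  ext x
  rw [mem_smul_sub, mem_stabilizer_iff, mem_stabilizer_iff, mul_smul, mul_smul, inv_smul_eq_iff]

theorem Iv.mono {X Z : Subgroup H} {Y : Set α} (h : Iv X Y) (hZ : Z ≤ X) : Iv Z Y :=
  fun g hg => h g (hZ hg)

theorem Iv.mem_iff {X : Subgroup H} {Y : Set α} (h : Iv X Y) {g : H} (hg : g ∈ X) {y : α} :
    g • y ∈ Y ↔ y ∈ Y :=
  ⟨fun hy => by simpa using h _ (X.inv_mem hg) _ hy, h g hg y⟩

theorem Iv.union {X : Subgroup H} {A B : Set α} (hA : Iv X A) (hB : Iv X B) : Iv X (A ∪ B) :=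
  fun g hg y hy => hy.elim (fun h => Or.inl (hA g hg y h)) fun h => Or.inr (hB g hg y h)

theorem Iv.inter {X : Subgroup H} {A B : Set α} (hA : Iv X A) (hB : Iv X B) : Iv X (A ∩ B) :=
  fun g hg y hy => ⟨hA g hg y hy.1, hB g hg y hy.2⟩

theorem Iv.diff {X : Subgroup H} {A B : Set α} (hA : Iv X A) (hB : Iv X B) : Iv X (A \ B) :=
  fun g hg y hy => ⟨hA g hg y hy.1, fun h => hy.2 ((hB.mem_iff hg).1 h)⟩

theorem iv_of_fx {X : Subgroup H} {A : Set α} (h : ∀ a ∈ A, Fx X a) : Iv X A :=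
  fun g hg y hy => by rw [h y hy g hg]; exact hy

theorem Fx.iv {X : Subgroup H} {a : α} (h : Fx X a) : Iv X ({a} : Set α) :=
  iv_of_fx fun _ hb => by rw [Set.mem_singleton_iff.1 hb]; exact h

theorem iv_ln (S : Set α) (M : Subgroup H) : Iv M (ln S M) := iv_of_fx fun _ h => h.2

theorem ln_subset (S : Set α) (M : Subgroup H) : ln S M ⊆ S := fun _ h => h.1

theorem iv_iff_fx {X : Subgroup H} {Y : Set α} : Iv X Y ↔ Fx X Y := by
  constructor
  · intro h g hg
    ext y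
    rw [Set.mem_smul_set_iff_inv_smul_mem, h.mem_iff (X.inv_mem hg)]
  · intro h g hg y hy
    rw [← h g hg]; exact Set.smul_mem_smul_set hy

theorem Iv.smul_eq {X : Subgroup H} {Y : Set α} (h : Iv X Y) {g : H} (hg : g ∈ X) : g • Y = Y :=
  iv_iff_fx.1 h g hg

theorem Iv.smul {X : Subgroup H} {Y : Set α} (h : Iv X Y) (g : H) : Iv (g • X) (g • Y) :=
  iv_iff_fx.2 (fx_smul.2 (iv_iff_fx.1 h))

theorem mem_orb_self (X : Subgroup H) (a : α) : a ∈ orb X a := ⟨1, X.one_mem, one_smul _ _⟩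

theorem smul_mem_orb {X : Subgroup H} {g : H} (hg : g ∈ X) (a : α) : g • a ∈ orb X a :=
  ⟨g, hg, rfl⟩

theorem iv_orb (X : Subgroup H) (a : α) : Iv X (orb X a) := by
  rintro g hg _ ⟨k, hk, rfl⟩
  exact ⟨g * k, X.mul_mem hg hk, mul_smul _ _ _⟩

theorem Iv.orb_subset {X : Subgroup H} {Y : Set α} (h : Iv X Y) {a : α} (ha : a ∈ Y) :
    orb X a ⊆ Y := by
  rintro _ ⟨k, hk, rfl⟩
  exact h k hk a ha

theorem mem_orb_symm {X : Subgroup H} {a b : α} (h : b ∈ orb X a) : a ∈ orb X b := by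
  obtain ⟨g, hg, rfl⟩ := h
  exact ⟨g⁻¹, X.inv_mem hg, inv_smul_smul _ _⟩

theorem orb_eq_of_mem {X : Subgroup H} {a b : α} (h : b ∈ orb X a) : orb X b = orb X a :=
  ((iv_orb X a).orb_subset h).antisymm ((iv_orb X b).orb_subset (mem_orb_symm h))

theorem orb_mono {X Z : Subgroup H} (h : Z ≤ X) (a : α) : orb Z a ⊆ orb X a :=
  fun _ ⟨g, hg, e⟩ => ⟨g, h hg, e⟩

theorem orb_disjoint {X : Subgroup H} {a b : α} (h : b ∉ orb X a) :
    Disjoint (orb X a) (orb X b) := by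
  rw [Set.disjoint_left]
  intro c hc hc'
  exact h ((orb_eq_of_mem hc) ▸ mem_orb_symm hc')

theorem nf_orb {X : Subgroup H} {a : α} (h : ¬ Fx X a) : NF X (orb X a) := by
  rintro _ ⟨g, hg, rfl⟩ hf
  apply h
  rwa [← smul_self_sub hg, fx_smul] at hf

theorem smul_orb (g : H) (X : Subgroup H) (a : α) : g • orb X a = orb (g • X) (g • a) := by
  ext y
  constructor
  · rintro ⟨_, ⟨k, hk, rfl⟩, rfl⟩
    exact ⟨g * k * g⁻¹, conj_mem_smul.2 hk, by simp [mul_smul]⟩
  · rintro ⟨k, hk, rfl⟩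
    exact ⟨_, ⟨_, mem_smul_sub.1 hk, rfl⟩, by simp [mul_smul]⟩

theorem smul_ln (g : H) (S : Set α) (M : Subgroup H) : g • ln S M = ln (g • S) (g • M) := by
  ext y
  rw [Set.mem_smul_set_iff_inv_smul_mem]
  simp only [ln, Set.mem_ofPred_eq, Set.mem_smul_set_iff_inv_smul_mem, fx_smul_iff]

theorem isOrb_orb (X : Subgroup H) (a : α) : IsOrb X (orb X a) := ⟨a, rfl⟩

theorem IsOrb.iv {X : Subgroup H} {Y : Set α} (h : IsOrb X Y) : Iv X Y := by
  obtain ⟨b, rfl⟩ := h; exact iv_orb X b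

theorem IsOrb.nonempty {X : Subgroup H} {Y : Set α} (h : IsOrb X Y) : Y.Nonempty := by
  obtain ⟨b, rfl⟩ := h; exact ⟨b, mem_orb_self X b⟩

theorem IsOrb.eq {X : Subgroup H} {Y : Set α} (h : IsOrb X Y) {a : α} (ha : a ∈ Y) :
    Y = orb X a := by
  obtain ⟨b, rfl⟩ := h; exact (orb_eq_of_mem ha).symm

theorem IsOrb.tr {X : Subgroup H} {Y : Set α} (h : IsOrb X Y) {a b : α} (ha : a ∈ Y)
    (hb : b ∈ Y) : ∃ g ∈ X, g • a = b := by
  rw [h.eq ha] at hb; exact hb

theorem isOrb_of_tr {X : Subgroup H} {Y : Set α} (hi : Iv X Y) {a : α} (ha : a ∈ Y)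
    (h : ∀ b ∈ Y, ∃ g ∈ X, g • a = b) : IsOrb X Y :=
  ⟨a, Set.Subset.antisymm h (hi.orb_subset ha)⟩

theorem IsOrb.smul {X : Subgroup H} {Y : Set α} (h : IsOrb X Y) (g : H) :
    IsOrb (g • X) (g • Y) := by
  obtain ⟨b, rfl⟩ := h; exact ⟨g • b, smul_orb g X b⟩

theorem ff_smul (g : H) (Q : Subgroup H) (Y : Set α) : ff (g • Q) (g • Y) = ff Q Y := by
  rw [ff, ← smul_ln, Set.ncard_smul_set, ff]

theorem tt_smul (p : ℕ) (g : H) (Q : Subgroup H) (Y : Set α) :
    tt p (g • Q) (g • Y) = tt p Q Y := by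
  rw [tt, ← smul_ln, ← Set.smul_set_sdiff, Set.ncard_smul_set, tt]

theorem ex_smul (p : ℕ) (g : H) (Q : Subgroup H) (Y : Set α) :
    ex p (g • Q) (g • Y) = ex p Q Y := by
  rw [ex, tt_smul, ff_smul, ex]

end Sets

section Gen

variable (p : ℕ)

/-- The subgroup generated by the Sylow `p`-subgroups of `H` inside `Y`. -/
def GG (Y : Subgroup H) : Subgroup H :=
  ⨆ (Q : Sylow p H) (_ : (Q : Subgroup H) ≤ Y), (Q : Subgroup H)

/-- `X` is generated by the Sylow `p`-subgroups of `H` it contains. -/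
def Gn (X : Subgroup H) : Prop := GG p X = X

/-- `X` contains a Sylow `p`-subgroup of `H`. -/
def Sy (X : Subgroup H) : Prop := ∃ Q : Sylow p H, (Q : Subgroup H) ≤ X

/-- Number of Sylow `p`-subgroups of `H` inside `X`. -/
noncomputable def nu (X : Subgroup H) : ℕ := {Q : Sylow p H | (Q : Subgroup H) ≤ X}.ncard

variable {α β : Type*} [MulAction H α] [MulAction H β]

/-- The subgroup generated by the Sylows in `X` fixing `a`. -/
def LL (X : Subgroup H) (a : α) : Subgroup H := GG p (X ⊓ stabilizer H a)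

/-- The subgroup generated by the Sylows in `X` fixing `a` and `b`. -/
abbrev L2 (X : Subgroup H) (a : α) (b : β) : Subgroup H := LL p (LL p X a) b

/-- `X` is reduced on `Y`: `LL X a` fixes no point of `Y` but `a`. -/
def Red (X : Subgroup H) (Y : Set α) : Prop := ∀ a ∈ Y, ∀ b ∈ Y, Fx (LL p X a) b → a = b

variable {p}

theorem GG_le_iff {Y Z : Subgroup H} :
    GG p Y ≤ Z ↔ ∀ Q : Sylow p H, (Q : Subgroup H) ≤ Y → (Q : Subgroup H) ≤ Z := by
  simp [GG]

theorem GG_le (Y : Subgroup H) : GG p Y ≤ Y := GG_le_iff.2 fun _ h => h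

theorem le_GG {Y : Subgroup H} {Q : Sylow p H} :
    (Q : Subgroup H) ≤ GG p Y ↔ (Q : Subgroup H) ≤ Y :=
  ⟨fun h => h.trans (GG_le Y), fun h => GG_le_iff.1 le_rfl Q h⟩

theorem gn_GG (Y : Subgroup H) : Gn p (GG p Y) :=
  le_antisymm (GG_le _) (GG_le_iff.2 fun _ h => le_GG.2 (le_GG.2 h))

theorem Gn.le_iff {X Z : Subgroup H} (h : Gn p X) :
    X ≤ Z ↔ ∀ Q : Sylow p H, (Q : Subgroup H) ≤ X → (Q : Subgroup H) ≤ Z := by
  rw [← GG_le_iff, h]

theorem Gn.ext {X Z : Subgroup H} (h : Gn p X) (h' : Gn p Z)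
    (e : ∀ Q : Sylow p H, (Q : Subgroup H) ≤ X ↔ (Q : Subgroup H) ≤ Z) : X = Z :=
  le_antisymm (h.le_iff.2 fun Q => (e Q).1) (h'.le_iff.2 fun Q => (e Q).2)

theorem Gn.le_GG {X Y : Subgroup H} (h : Gn p X) : X ≤ GG p Y ↔ X ≤ Y :=
  ⟨fun k => k.trans (GG_le Y), fun k => h.le_iff.2 fun _ hQ => SyF.le_GG.2 (hQ.trans k)⟩

theorem gn_syl (Q : Sylow p H) : Gn p (Q : Subgroup H) :=
  le_antisymm (GG_le _) (le_GG.2 le_rfl)

theorem Gn.fx_iff {X : Subgroup H} (h : Gn p X) {a : α} :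
    Fx X a ↔ ∀ Q : Sylow p H, (Q : Subgroup H) ≤ X → Fx (Q : Subgroup H) a :=
  h.le_iff (Z := stabilizer H a)

theorem Gn.iv_iff {X : Subgroup H} (h : Gn p X) {Y : Set α} :
    Iv X Y ↔ ∀ Q : Sylow p H, (Q : Subgroup H) ≤ X → Iv (Q : Subgroup H) Y := by
  simp only [iv_iff_fx]; exact h.fx_iff

theorem smul_GG (g : H) (Y : Subgroup H) : g • GG p Y = GG p (g • Y) := by
  have key : ∀ (g : H) (Y : Subgroup H), g • GG p Y ≤ GG p (g • Y) := fun g Y =>
    smul_le_iff_sub.2 (GG_le_iff.2 fun Q hQ => smul_le_iff_sub.1 (by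
      rw [← syl_smul]; exact le_GG.2 (smul_le_smul_sub.2 hQ)))
  refine le_antisymm (key g Y) ?_
  have := key g⁻¹ (g • Y)
  rw [inv_smul_smul, smul_le_iff_sub, inv_inv] at this
  exact this

theorem Gn.smul {X : Subgroup H} (h : Gn p X) (g : H) : Gn p (g • X) := by
  rw [Gn, ← smul_GG, h]

theorem Sy.smul {X : Subgroup H} (h : Sy p X) (g : H) : Sy p (g • X) :=
  let ⟨Q, hQ⟩ := h; ⟨g • Q, smul_le_smul_sub.2 hQ⟩

theorem Sy.mono {X Z : Subgroup H} (h : Sy p X) (hZ : X ≤ Z) : Sy p Z :=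
  let ⟨Q, hQ⟩ := h; ⟨Q, hQ.trans hZ⟩

theorem gn_LL (X : Subgroup H) (a : α) : Gn p (LL p X a) := gn_GG _

theorem LL_le (X : Subgroup H) (a : α) : LL p X a ≤ X := (GG_le _).trans inf_le_left

theorem LL_fx (X : Subgroup H) (a : α) : Fx (LL p X a) a :=
  fx_iff_le.2 ((GG_le _).trans inf_le_right)

theorem Gn.le_LL {Z X : Subgroup H} (h : Gn p Z) {a : α} : Z ≤ LL p X a ↔ Z ≤ X ∧ Fx Z a := by
  rw [LL, h.le_GG, le_inf_iff, fx_iff_le]

theorem le_LL {X : Subgroup H} {Q : Sylow p H} {a : α} :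
    (Q : Subgroup H) ≤ LL p X a ↔ (Q : Subgroup H) ≤ X ∧ Fx (Q : Subgroup H) a :=
  (gn_syl Q).le_LL

theorem LL_mono {Z X : Subgroup H} (h : Z ≤ X) (a : α) : LL p Z a ≤ LL p X a :=
  (gn_LL Z a).le_LL.2 ⟨(LL_le Z a).trans h, LL_fx Z a⟩

theorem Gn.LL_eq {X : Subgroup H} (h : Gn p X) {a : α} (ha : Fx X a) : LL p X a = X :=
  le_antisymm (LL_le X a) (h.le_LL.2 ⟨le_rfl, ha⟩)

/-- If `LL X a ≤ Z ≤ X` then `LL Z a = LL X a`. -/
theorem LL_eq_of_le {Z X : Subgroup H} {a : α} (h : Z ≤ X) (h' : LL p X a ≤ Z) :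
    LL p Z a = LL p X a :=
  le_antisymm (LL_mono h a) ((gn_LL X a).le_LL.2 ⟨h', LL_fx X a⟩)

theorem Gn.le_L2 {Z X : Subgroup H} (h : Gn p Z) {a : α} {b : β} :
    Z ≤ L2 p X a b ↔ Z ≤ X ∧ Fx Z a ∧ Fx Z b := by
  rw [h.le_LL, h.le_LL, and_assoc]

theorem le_L2 {X : Subgroup H} {Q : Sylow p H} {a : α} {b : β} :
    (Q : Subgroup H) ≤ L2 p X a b ↔
      (Q : Subgroup H) ≤ X ∧ Fx (Q : Subgroup H) a ∧ Fx (Q : Subgroup H) b :=
  (gn_syl Q).le_L2

theorem L2_comm (X : Subgroup H) (a : α) (b : β) : L2 p X a b = L2 p X b a :=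
  (gn_LL _ _).ext (gn_LL _ _) fun Q => by rw [le_L2, le_L2]; tauto

theorem L2_le (X : Subgroup H) (a : α) (b : β) : L2 p X a b ≤ X :=
  (LL_le _ b).trans (LL_le X a)

theorem L2_fx1 (X : Subgroup H) (a : α) (b : β) : Fx (L2 p X a b) a :=
  (LL_fx X a).mono (LL_le _ b)

theorem L2_fx2 (X : Subgroup H) (a : α) (b : β) : Fx (L2 p X a b) b := LL_fx _ b

theorem smul_LL' (g : H) (X : Subgroup H) (a : α) : g • LL p X a = LL p (g • X) (g • a) := by
  rw [LL, smul_GG, smul_inf_sub, smul_stabilizer, LL]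

theorem smul_LL {g : H} {X : Subgroup H} (hg : g ∈ X) (a : α) :
    g • LL p X a = LL p X (g • a) := by
  rw [smul_LL', smul_self_sub hg]

theorem smul_L2 {g : H} {X : Subgroup H} (hg : g ∈ X) (a : α) (b : β) :
    g • L2 p X a b = L2 p X (g • a) (g • b) := by
  rw [smul_LL', smul_LL hg]

theorem Red.nf {X : Subgroup H} {Y : Set α} (h : Red p X Y) {a : α} (ha : a ∈ Y) :
    NF (LL p X a) (Y \ {a}) :=
  fun b hb hf => hb.2 (h a ha b hb.1 hf).symm

end Gen

section Str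

variable (p : ℕ) {α : Type*} [MulAction H α]

/-- `Y` is an orbit of `X` on which a Sylow moves exactly `p` points and fixes `φ`. -/
structure One (X : Subgroup H) (Y : Set α) (φ : ℕ) : Prop where
  gn : Gn p X
  sy : Sy p X
  orb : IsOrb X Y
  card : Y.ncard = p + φ
  fix : ∀ Q : Sylow p H, (Q : Subgroup H) ≤ X → ff (Q : Subgroup H) Y = φ

variable (H) in
/-- Induction hypothesis: small reduced orbits on subgroups with excess `≤ p - 2` have `t = 1`. -/
def TH (n : ℕ) : Prop :=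
  ∀ (X : Subgroup H) (Q : Sylow p H) (Y : Set (Subgroup H)), Gn p X → (Q : Subgroup H) ≤ X →
    IsOrb X Y → Red p X Y → NF X Y → Y.ncard < n → ex p (Q : Subgroup H) Y ≤ (p : ℤ) - 2 →
    tt p (Q : Subgroup H) Y = 1

variable (H) in
/-- The main inequality for small reduced orbits on subgroups. -/
def MH (n : ℕ) : Prop :=
  ∀ (X : Subgroup H) (Q : Sylow p H) (Y : Set (Subgroup H)), Gn p X → (Q : Subgroup H) ≤ X →
    IsOrb X Y → Red p X Y → NF X Y → Y.ncard < n → 0 ≤ ex p (Q : Subgroup H) Y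

variable (H α) in
/-- The main inequality for small invariant subsets of `α`. -/
def MM (n : ℕ) : Prop :=
  ∀ (X : Subgroup H) (Q : Sylow p H) (Y : Set α), Gn p X → (Q : Subgroup H) ≤ X →
    Iv X Y → NF X Y → Y.ncard < n → 0 ≤ ex p (Q : Subgroup H) Y

/-- The situation of Lemma S. -/
structure Cx (X : Subgroup H) (S : Set α) : Prop where
  odd : p ≠ 2
  gn : Gn p X
  sy : Sy p X
  orb : IsOrb X S
  red : Red p X S
  t2 : ∀ Q : Sylow p H, (Q : Subgroup H) ≤ X → 2 ≤ tt p (Q : Subgroup H) S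
  e : ∀ Q : Sylow p H, (Q : Subgroup H) ≤ X → ex p (Q : Subgroup H) S ≤ 2 * (p : ℤ) - 4
  th : TH H p S.ncard

/-- The pencil of `M` at `c`. -/
def pen (X : Subgroup H) (c : α) (M : Subgroup H) : Set (Subgroup H) := orb (LL p X c) M

/-- The pair `(s, b)` is small. -/
def Small (X : Subgroup H) (s b : α) (φ : ℕ) : Prop :=
  1 ≤ φ ∧ One p (LL p X s) (pen p X s (L2 p X s b)) φ

/-- `M` is (the group of) a line with `δ + 1` points whose pencils have `p + φ` members. -/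
structure Line (X : Subgroup H) (S : Set α) (M : Subgroup H) (φ δ : ℕ) : Prop where
  sy : Sy p M
  card : (ln S M).ncard = δ + 1
  d1 : 1 ≤ δ
  f1 : 1 ≤ φ
  two : ∀ c ∈ ln S M, ∀ d ∈ ln S M, c ≠ d → L2 p X c d = M
  one : ∀ c ∈ ln S M, One p (LL p X c) (pen p X c M) φ

/-- The points `≠ c` on the lines of the pencil of `M` at `c`. -/
def UU (X : Subgroup H) (S : Set α) (c : α) (M : Subgroup H) : Set α :=
  {u | u ≠ c ∧ ∃ N ∈ pen p X c M, u ∈ ln S N}

/-- The points on the lines of the pencil of `M` at `c` that are not on `M`. -/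
def VV (X : Subgroup H) (S : Set α) (c : α) (M : Subgroup H) : Set α := UU p X S c M \ ln S M

/-- The star of `M`: all points on members of pencils of `M`. -/
def St (X : Subgroup H) (S : Set α) (M : Subgroup H) : Set α :=
  {u | ∃ c ∈ ln S M, ∃ N ∈ pen p X c M, u ∈ ln S N}

/-- A linear space `K` all of whose lines have `φ = 1`. -/
structure Pl (X : Subgroup H) (S K : Set α) (δ : ℕ) : Prop where
  sub : K ⊆ S
  card : K.ncard = 1 + δ * (p + 1)
  line : ∀ a ∈ K, ∀ u ∈ K, a ≠ u → Line p X S (L2 p X a u) 1 δ ∧ ln S (L2 p X a u) ⊆ K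
  iv : ∀ c ∈ K, Iv (LL p X c) K
  pn : ∀ c ∈ K, ∀ u ∈ K, ∀ v ∈ K, u ≠ c → v ≠ c → L2 p X c v ∈ pen p X c (L2 p X c u)

end Str

end CfsgLib.SyF
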