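import Cfsg.Agent.Lib.SyF.One

/-! SYF package DOM: PARITY, LAT, DOM.  Proofs: docstrings / plans/SYF.md. -/

set_option autoImplicit false

namespace CfsgLib.SyF

open MulAction
open scoped Pointwise

variable {H : Type*} [Group H] [Finite H] {p : ℕ} [Fact p.Prime]
variable {α β : Type*} [MulAction H α] [MulAction H β]

variable [Finite α]

/-- PARITY: a `Q`-invariant perfect matching restricts to the `p` moved points, `p` odd. -/
theorem parity (hp : p ≠ 2) {Q : Sylow p H} {Y : Set α} (hY : Iv (Q : Subgroup H) Y)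
    (ht : tt p (Q : Subgroup H) Y = 1) (R : α → α → Prop)
    (hsymm : ∀ a ∈ Y, ∀ b ∈ Y, R a b → R b a) (hirr : ∀ a ∈ Y, ¬ R a a)
    (hex : ∀ a ∈ Y, ∃ b ∈ Y, R a b)
    (huniq : ∀ a ∈ Y, ∀ b ∈ Y, ∀ c ∈ Y, R a b → R a c → b = c)
    (hinv : ∀ g ∈ (Q : Subgroup H), ∀ a ∈ Y, ∀ b ∈ Y, R a b → R (g • a) (g • b)) : False := by
  have hc := card_eq hY
  have hW : (Y \ ln Y (Q : Subgroup H)).ncard = p := by
    rw [Set.ncard_diff (ln_subset _ _), hc, ht, ff]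
    omega
  have key : ∀ a : ↥(Y \ ln Y (Q : Subgroup H)), ∃ b : ↥(Y \ ln Y (Q : Subgroup H)), R a b := fun a => by
    obtain ⟨b, hb, hR⟩ := hex a a.2.1
    refine ⟨⟨b, hb, fun hf => a.2.2 ⟨a.2.1, fun g hg => ?_⟩⟩, hR⟩
    have h1 := hsymm a a.2.1 b hb hR
    have h2 := hinv g hg b hb a a.2.1 h1
    rw [hf.2 g hg] at h2
    exact huniq b hb _ (hY g hg a a.2.1) a a.2.1 h2 h1
  choose σ hσ using key
  classical
  have := Fintype.ofFinite ↥(Y \ ln Y (Q : Subgroup H))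
  have h2 := Equiv.Perm.card_fixedPoints_modEq (f := σ) (p := 2) (n := 1) (funext fun a =>
    Subtype.ext (huniq _ (σ a).2.1 _ (σ (σ a)).2.1 _ a.2.1 (hσ _) (hsymm _ a.2.1 _ (σ a).2.1 (hσ a))))
  have h3 : IsEmpty (Function.fixedPoints σ) := ⟨fun a => hirr _ a.1.2.1 (by
    have := hσ a.1
    rwa [show σ a.1 = a.1 from a.2] at this)⟩
  rw [Fintype.card_eq_zero (α := Function.fixedPoints σ), ← Nat.card_eq_fintype_card, Nat.card_coe_set_eq,
    hW] at h2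
  exact hp (((Nat.prime_dvd_prime_iff_eq Nat.prime_two Fact.out).1 ((Nat.modEq_zero_iff_dvd).1 h2)).symm)

/-- LAT.  Take `a' ∈ A \ {a}` with `Z = L2 X a a'` containing a Sylow (`One.del`, `One.sy_LL`).
`Z` fixes no `b ∈ B` (else PAR in `LL X a` on `A \ {a}` gives `L2 X a b = Z` fixes `a'`, but `LL X b`
is reduced on `A` by `One.sub`, `One.red`).  So `Z` is reduced on `B`.  PAR: `L2 X a c = L2 X a b =
L2 X b c`.  Pick `g ∈ LL X c` with `g a = a'`, `b' = g b`; then `L2 X a' c` fixes `b'`, so `LL Z b`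
fixes `c` and `b'`, so `b' = b`; then `L2 X b c = L2 X b a` fixes `a'`, so `a = a'`. -/
theorem lat {X : Subgroup H} {A B : Set α} {φ ψ : ℕ} (hA : One p X A φ) (hB : One p X B ψ)
    (hφ : 2 ≤ φ) (hψ : 1 ≤ ψ) {a b c : α} (ha : a ∈ A) (hb : b ∈ B) (hsc : Sy p (LL p X c))
    (hAB : ∀ a ∈ A, ∀ b ∈ B, ¬ Fx (LL p X a) b) (hBA : ∀ a ∈ A, ∀ b ∈ B, ¬ Fx (LL p X b) a)
    (hcA : ∀ a ∈ A, ¬ Fx (LL p X c) a) (hac : ¬ Fx (LL p X a) c) (hbc : ¬ Fx (LL p X b) c)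
    (hdep : Fx (L2 p X a b) c) : False := by
  have hφ1 : 1 ≤ φ := by omega
  have hD := hA.del hφ1 ha
  obtain ⟨a', ha'⟩ := hD.orb.nonempty
  have bA : ∀ b ∈ B, One p (LL p X b) A φ := fun b hb =>
    hA.sub (gn_LL X b) (hB.sy_LL hψ hb) (LL_le X b) fun a ha => hBA a ha b hb
  have fin : ∀ b ∈ B, ¬ Fx (L2 p X b a) a' := fun b hb e => ha'.2 ((bA b hb).red hφ1 a ha a' ha'.1 e).symm
  have ZB : One p (L2 p X a a') B ψ := hB.sub (gn_LL _ _) (hD.sy_LL (by omega) ha') (L2_le X a a') fun b hb e => by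
    refine fin b hb ?_
    rw [L2_comm, L2, hD.par (by omega) ha' e (hAB a ha b hb)]
    exact LL_fx _ _
  have e1 : L2 p X a c = L2 p X a b :=
    (hB.sub (gn_LL X a) (hA.sy_LL hφ1 ha) (LL_le X a) (hAB a ha)).par hψ hb hdep hac
  have e2 : L2 p X b c = L2 p X b a := (bA b hb).par hφ1 ha (hdep.mono (L2_comm X b a).le) hbc
  obtain ⟨g, hg, ga⟩ := (hA.sub (gn_LL X c) hsc (LL_le X c) hcA).orb.tr ha ha'.1
  have gX := LL_le X c hg
  have gc := LL_fx X c g hg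
  have h1 : Fx (L2 p X a' c) (g • b) := by
    rw [← ga, ← gc, ← smul_L2 gX, fx_smul, e1]
    exact L2_fx2 X a b
  have h2 : LL p (L2 p X a a') b ≤ L2 p X a b := (gn_LL _ _).le_L2.2
    ⟨(LL_le _ _).trans (L2_le X a a'), (L2_fx1 X a a').mono (LL_le _ _), LL_fx _ _⟩
  have h3 : LL p (L2 p X a a') b ≤ L2 p X a' c := (gn_LL _ _).le_L2.2
    ⟨(LL_le _ _).trans (L2_le X a a'), (L2_fx2 X a a').mono (LL_le _ _), hdep.mono h2⟩
  have gb := ZB.red hψ b hb _ (hB.orb.iv g gX b hb) (h1.mono h3)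
  refine fin b hb ?_
  rw [← e2, ← ga, gb, ← gc, ← smul_L2 gX, fx_smul, e2]
  exact L2_fx2 X b a

/-- DOM.  `O = orb Z u`, `D u' y := Fx (LL Z u') y`; each `u' ∈ O` has `r ∈ {1,2}` partners, the fibres
`O y = {u' ∈ O | D u' y}` have constant size `β`, `(p+φ) β = r |O|` (`dcount`).  `O y` is invariant
and fixed-point-free under `LL Z y`, so `(2p-1) f(O y) ≤ (p-1) β` by `MM` (+ `card_eq`) whenever `Q`
fixes `y`, and `β ≥ p + 1` (`tt_pos`, a partner of a `Q`-fixed point).  A `Q`-fixed `u'` has only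
`Q`-fixed partners, so `r f(O) (2p-1) ≤ φ (p-1) β`.  Hence `r p E(O) ≥ (p-1) p β`. -/
theorem dom [Finite β] (hp : p ≠ 2) {n : ℕ} (hm : MM H p α n) {Z : Subgroup H} {Y : Set β} {φ : ℕ}
    (hY : One p Z Y φ) {u : α} (hn : (orb Z u).ncard < n) (hu : Sy p (LL p Z u))
    (h1 : ∃ y ∈ Y, Fx (LL p Z u) y) (h2 : (ln Y (LL p Z u)).ncard ≤ 2)
    (hnf : ∀ y ∈ Y, NF (LL p Z y) (orb Z u)) {Q : Sylow p H} (hQ : (Q : Subgroup H) ≤ Z) :
    2 * ((p : ℤ) - 1) ≤ ex p (Q : Subgroup H) (orb Z u) := by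
  have p3 : 3 ≤ p := by have := (Fact.out : p.Prime).two_le; omega
  have iY := hY.orb.iv
  let O : β → Set α := fun y => {v | v ∈ orb Z u ∧ Fx (LL p Z v) y}
  have mO : ∀ g ∈ Z, ∀ y v, v ∈ O y → g • v ∈ O (g • y) := fun g hg y v hv =>
    ⟨iv_orb Z u g hg v hv.1, by rw [← smul_LL hg, fx_smul]; exact hv.2⟩
  have iO : ∀ y, Iv (LL p Z y) (O y) := fun y g hg v hv => LL_fx Z y g hg ▸ mO g (LL_le Z y hg) y v hv
  have nO : ∀ y ∈ Y, NF (LL p Z y) (O y) := fun y hy v hv => hnf y hy v hv.1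
  obtain ⟨y0, hy0, f0⟩ := h1
  have cO : ∀ y ∈ Y, (O y).ncard = (O y0).ncard := fun y hy => by
    obtain ⟨g, hg, rfl⟩ := hY.orb.tr hy0 hy
    rw [← Set.ncard_smul_set g (O y0)]
    congr 1
    ext v
    rw [Set.mem_smul_set_iff_inv_smul_mem]
    exact ⟨fun hv => by simpa using mO _ (inv_mem hg) _ _ hv, fun hv => by simpa using mO g hg _ _ hv⟩
  have cL : ∀ v ∈ orb Z u, (ln Y (LL p Z v)).ncard = (ln Y (LL p Z u)).ncard := by
    rintro _ ⟨g, hg, rfl⟩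
    rw [← smul_LL hg, ← Set.ncard_smul_set g (ln Y (LL p Z u)), smul_ln, iY.smul_eq hg]
  have r1 : 1 ≤ (ln Y (LL p Z u)).ncard := (Set.ncard_pos (Set.toFinite _)).2 ⟨y0, hy0, f0⟩
  have d1 := dcount (orb Z u) Y (fun v y => Fx (LL p Z v) y) _ _ cL cO
  have b1 : p + 1 ≤ (O y0).ncard := by
    obtain ⟨Q0, h0⟩ := hu
    have h3 : (Q0 : Subgroup H) ≤ LL p Z y0 := le_LL.2 ⟨h0.trans (LL_le Z u), f0.mono h0⟩
    have hu0 : u ∈ O y0 := ⟨mem_orb_self Z u, f0⟩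
    have h4 := tt_pos (gn_LL Z y0) h3 (iO y0) (nO y0 hy0) ⟨u, hu0⟩
    have h5 := ff_pos_iff.2 ⟨u, hu0, (LL_fx Z u).mono h0⟩
    rw [card_eq ((iO y0).mono h3)]
    nlinarith
  have d2 := dcount_le (ln (orb Z u) (Q : Subgroup H)) (ln Y (Q : Subgroup H)) (fun v y => Fx (LL p Z v) y) (ln Y (LL p Z u)).ncard
    ((p - 1) * (O y0).ncard / (2 * p - 1)) (fun v hv => by
      rw [← cL v hv.1]
      exact Set.ncard_le_ncard fun y hy => ⟨⟨hy.1, hy.2.mono (le_LL.2 ⟨hQ, hv.2⟩)⟩, hy.2⟩) fun y hy => by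
      have h3 : (Q : Subgroup H) ≤ LL p Z y := le_LL.2 ⟨hQ, hy.2⟩
      have h4 := hm _ Q _ (gn_LL Z y) h3 (iO y) (nO y hy.1)
        ((Set.ncard_le_ncard fun v hv => hv.1).trans_lt hn)
      have h5 := card_eq ((iO y).mono h3)
      have h6 : {v | v ∈ ln (orb Z u) (Q : Subgroup H) ∧ Fx (LL p Z v) y} = ln (O y) (Q : Subgroup H) :=
        Set.ext fun v => ⟨fun hv => ⟨⟨hv.1.1, hv.2⟩, hv.1.2⟩, fun hv => ⟨⟨hv.1.1, hv.2⟩, hv.1.2⟩⟩
      rw [h6, Nat.le_div_iff_mul_le (by omega), ← cO y hy.1, h5]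
      rw [ex] at h4
      change ff (Q : Subgroup H) (O y) * _ ≤ _
      zify [show 1 ≤ p by omega, show 1 ≤ 2 * p by omega]
      nlinarith
  have d3 := Nat.div_mul_le_self ((p - 1) * (O y0).ncard) (2 * p - 1)
  have d4 := card_eq ((iv_orb Z u).mono hQ)
  have d5 : (ln Y (Q : Subgroup H)).ncard = φ := hY.fix Q hQ
  rw [hY.card, d4] at d1
  rw [d5] at d2
  rw [ex]
  change ff (Q : Subgroup H) (orb Z u) * _ ≤ _ at d2
  generalize (p - 1) * (O y0).ncard / (2 * p - 1) = m at d2 d3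
  generalize (O y0).ncard = b at d1 d3 b1
  generalize (ln Y (LL p Z u)).ncard = r at d1 d2 r1 h2
  generalize ff (Q : Subgroup H) (orb Z u) = f at d1 d2 ⊢
  generalize tt p (Q : Subgroup H) (orb Z u) = t at d1 ⊢
  zify [show 1 ≤ p by omega, show 1 ≤ 2 * p by omega] at d1 d2 d3 b1 p3
  have k1 : (p : ℤ) * ((p - 1) * b) ≤ p * (r * ((p - 1) * t - f)) := by
    have k2 := mul_le_mul_of_nonneg_right d2 (show (0 : ℤ) ≤ 2 * p - 1 by omega)
    have k3 := mul_le_mul_of_nonneg_left d3 (show (0 : ℤ) ≤ φ by omega)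
    have k4 := congrArg (fun x => ((p : ℤ) - 1) * x) d1
    nlinarith
  have k5 := le_of_mul_le_mul_left k1 (by omega)
  have k6 : ((p : ℤ) - 1) * 4 ≤ (p - 1) * b := mul_le_mul_of_nonneg_left (by omega) (by omega)
  obtain rfl | rfl : r = 1 ∨ r = 2 := by omega
  all_goals
    push_cast at k5
    omega

end CfsgLib.SyF
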