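import Cfsg.Agent.Lib.SyF.Defs

/-! SYF package GRP: Sylow facts.  Proofs: docstrings / plans/SYF.md. -/

set_option autoImplicit false
set_option Elab.async false

namespace CfsgLib.SyF

open MulAction
open scoped Pointwise

variable {H : Type*} [Group H] [Finite H] {p : ℕ} [Fact p.Prime]
variable {α β : Type*} [MulAction H α] [MulAction H β]

/-- (C) Sylows inside `Y` are conjugate in `GG p Y`.  (View them as Sylows of `↥(GG p Y)`,
`Sylow.subtype`, `Sylow.subtype_smul`-style or `IsPGroup.exists_le_sylow`.) -/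
theorem conj_in {Y : Subgroup H} {Q Q' : Sylow p H} (hQ : (Q : Subgroup H) ≤ Y)
    (hQ' : (Q' : Subgroup H) ≤ Y) : ∃ g ∈ GG p Y, g • Q = Q' := by
  have h1 : (Q : Subgroup H) ≤ GG p Y := le_GG.2 hQ
  have h2 : (Q' : Subgroup H) ≤ GG p Y := le_GG.2 hQ'
  obtain ⟨g, hg⟩ := exists_smul_eq (GG p Y) (Q.subtype h1) (Q'.subtype h2)
  rw [Sylow.smul_subtype] at hg
  exact ⟨g, g.2, Sylow.subtype_injective hg⟩

/-- The same with `g ∈ Y`. -/
theorem conj_in' {Y : Subgroup H} {Q Q' : Sylow p H} (hQ : (Q : Subgroup H) ≤ Y)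
    (hQ' : (Q' : Subgroup H) ≤ Y) : ∃ g ∈ Y, g • Q = Q' :=
  let ⟨g, hg, e⟩ := conj_in hQ hQ'
  ⟨g, GG_le Y hg, e⟩

/-- SYL-IN: an element of a Sylow that lies in `Z ⊇ Q0` lies in a Sylow inside `Z`. -/
theorem syl_in {Z : Subgroup H} {Q0 Q : Sylow p H} (h0 : (Q0 : Subgroup H) ≤ Z) {y : H}
    (hy : y ∈ (Q : Subgroup H)) (hyZ : y ∈ Z) :
    ∃ g ∈ Z, y ∈ g • (Q0 : Subgroup H) := by
  have h1 : IsPGroup p ((Q : Subgroup H).subgroupOf Z) := Q.isPGroup'.comap_subtype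
  obtain ⟨R, hR⟩ := h1.exists_le_sylow
  obtain ⟨g, hg⟩ := exists_smul_eq Z (Q0.subtype h0) R
  rw [Sylow.smul_subtype] at hg
  have h2 : (⟨y, hyZ⟩ : Z) ∈ (R : Subgroup Z) := hR hy
  rw [← hg] at h2
  exact ⟨g, g.2, h2⟩

/-- PW: a `p`-element stabilising a set fixed pointwise by some Sylow fixes it pointwise.
(`syl_in` with `Z = stabilizer H C`.) -/
theorem pw {C : Set α} {Q0 Q : Sylow p H} (h0 : ∀ c ∈ C, Fx (Q0 : Subgroup H) c) {y : H}
    (hy : y ∈ (Q : Subgroup H)) (hC : y • C = C) : ∀ c ∈ C, y • c = c := by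
  obtain ⟨g, hg, h⟩ := syl_in (Z := stabilizer H C) (Q0 := Q0) (iv_iff_fx.1 (iv_of_fx h0)) hy hC
  intro c hc
  have h1 : g⁻¹ • c ∈ C := by
    rw [← Set.mem_smul_set_iff_inv_smul_mem, mem_stabilizer_iff.1 hg]
    exact hc
  exact fx_smul_iff.2 (h0 _ h1) y h

/-- (N') a `p`-element normalising `M` lies in `M`.  (`syl_in` with `Z = stabilizer H M`.) -/
theorem mem_of_norm {M : Subgroup H} (hM : Sy p M) {Q : Sylow p H} {y : H}
    (hy : y ∈ (Q : Subgroup H)) (h : y • M = M) : y ∈ M := by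
  obtain ⟨Q0, h0⟩ := hM
  obtain ⟨g, hg, h1⟩ := syl_in (Z := stabilizer H M) (Q0 := Q0) (fun x hx => smul_self_sub (h0 hx)) hy h
  rw [← mem_stabilizer_iff.1 hg]
  exact smul_le_smul_sub.2 h0 h1

/-- A `Gn` subgroup normalises `M ⊇ Sylow` iff it lies in `M`. -/
theorem Gn.fx_sub {Z M : Subgroup H} (hZ : Gn p Z) (hM : Sy p M) : Fx Z M ↔ Z ≤ M := by
  exact ⟨fun h => hZ.le_iff.2 fun Q hQ y hy => mem_of_norm hM hy (h y (hQ hy)),
    fun h g hg => smul_self_sub (h hg)⟩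

theorem Gn.le_LL_sub {Z X M : Subgroup H} (hZ : Gn p Z) (hM : Sy p M) :
    Z ≤ LL p X M ↔ Z ≤ X ∧ Z ≤ M := by
  rw [hZ.le_LL, hZ.fx_sub hM]

/-- If every subset of `Y` with at most `p` points is fixed pointwise by some Sylow then every Sylow
stabilising `Y` fixes it pointwise.  (Take `x ∈ Q` moving `y ∈ Y`, the largest `k` with
`z = x^(p^k)` moving `y`; `C = {z^i • y | i < p}` is `z`-invariant; `pw`.) -/
theorem nofull {Y : Set α} {Q : Sylow p H} (hQ : Iv (Q : Subgroup H) Y)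
    (h : ∀ C : Finset α, (C : Set α) ⊆ Y → C.card ≤ p →
      ∃ Q0 : Sylow p H, ∀ c ∈ C, Fx (Q0 : Subgroup H) c) :
    ∀ y ∈ Y, Fx (Q : Subgroup H) y := by
  classical
  intro y hy x hx
  have hp : 0 < p := (Fact.out : p.Prime).pos
  have ex : ∃ k, x ^ p ^ k • y = y := by
    obtain ⟨k, hk⟩ := Q.isPGroup' ⟨x, hx⟩
    have : x ^ p ^ k = 1 := congrArg Subtype.val hk
    exact ⟨k, by rw [this, one_smul]⟩
  have key : ∀ k, x ^ p ^ (k + 1) • y = y → x ^ p ^ k • y = y := by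
    intro k hk
    have hz : x ^ p ^ k ∈ (Q : Subgroup H) := pow_mem hx _
    rw [pow_succ, pow_mul] at hk
    generalize x ^ p ^ k = z at hz hk
    obtain ⟨Q0, h0⟩ := h ((Finset.range p).image fun i => z ^ i • y)
      (by
        intro c hc
        obtain ⟨i, -, rfl⟩ := Finset.mem_image.1 hc
        exact hQ _ (pow_mem hz i) y hy)
      (Finset.card_image_le.trans (Finset.card_range p).le)
    refine pw (C := (((Finset.range p).image fun i => z ^ i • y : Finset α) : Set α)) h0 hz ?_ y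
      (Finset.mem_image.2 ⟨0, Finset.mem_range.2 hp, by rw [pow_zero, one_smul]⟩)
    refine Set.eq_of_subset_of_ncard_le ?_ (Set.ncard_smul_set _ _).ge
    rintro _ ⟨c, hc, rfl⟩
    obtain ⟨i, hi, rfl⟩ := Finset.mem_image.1 hc
    have hi := Finset.mem_range.1 hi
    change z • z ^ i • y ∈ _
    rw [← mul_smul, ← pow_succ']
    rcases (Nat.succ_le_of_lt hi).lt_or_eq with e | e
    · exact Finset.mem_image.2 ⟨i + 1, Finset.mem_range.2 e, rfl⟩
    · refine Finset.mem_image.2 ⟨0, Finset.mem_range.2 hp, ?_⟩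
      rw [pow_zero, one_smul, show i + 1 = p from e, hk]
  obtain ⟨k, hk⟩ := ex
  induction k with
  | zero => simpa using hk
  | succ k ih => exact ih (key k hk)

omit [Finite H] [Fact p.Prime] in
/-- CHAIN: removing points one at a time.  (Induction on `j`.) -/
theorem chain (C : ℕ → Subgroup H → Set α → Prop) (h0 : ∀ j X Y, C j X Y → Sy p X)
    (hs : ∀ j X Y, C (j + 1) X Y → ∀ s ∈ Y, C j (LL p X s) (Y \ {s})) :
    ∀ j X Y, C j X Y → ∀ T : Finset α, (T : Set α) ⊆ Y → T.card ≤ j →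
      ∃ Q : Sylow p H, (Q : Subgroup H) ≤ X ∧ ∀ c ∈ T, Fx (Q : Subgroup H) c := by
  classical
  intro j
  induction j with
  | zero =>
    intro X Y hC T _ hT
    obtain ⟨Q, hQ⟩ := h0 _ X Y hC
    rw [Finset.card_eq_zero.1 (Nat.le_zero.1 hT)]
    exact ⟨Q, hQ, by simp⟩
  | succ j ih =>
    intro X Y hC T hY hT
    rcases T.eq_empty_or_nonempty with rfl | ⟨s, hsT⟩
    · obtain ⟨Q, hQ⟩ := h0 _ X Y hC
      exact ⟨Q, hQ, by simp⟩
    obtain ⟨Q, hQ, hf⟩ := ih _ _ (hs j X Y hC s (hY hsT)) (T.erase s)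
      (fun c hc => ⟨hY (Finset.mem_of_mem_erase hc), Finset.ne_of_mem_erase hc⟩)
      (by rw [Finset.card_erase_of_mem hsT]; omega)
    refine ⟨Q, (le_LL.1 hQ).1, fun c hc => ?_⟩
    by_cases e : c = s
    · exact e ▸ (le_LL.1 hQ).2
    · exact hf c (Finset.mem_erase.2 ⟨e, hc⟩)

/-- WITT: the normaliser of `Q` in `X` is transitive on the fixed points of `Q` in an orbit. -/
theorem witt {X : Subgroup H} {Q : Sylow p H} (hQ : (Q : Subgroup H) ≤ X) {a b : α}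
    (hb : b ∈ orb X a) (fa : Fx (Q : Subgroup H) a) (fb : Fx (Q : Subgroup H) b) :
    ∃ g ∈ X, g • Q = Q ∧ g • a = b := by
  obtain ⟨g, hg, rfl⟩ := hb
  obtain ⟨k, hk, e⟩ := conj_in' (Y := X ⊓ stabilizer H (g • a)) (Q := g • Q) (Q' := Q)
    (le_inf (smul_le_of_le hg hQ) (fx_iff_le.1 (fx_smul.2 fa))) (le_inf hQ fb)
  exact ⟨k * g, X.mul_mem hk.1 hg, by rw [mul_smul, e], by rw [mul_smul]; exact hk.2⟩

omit [Finite H] [Fact p.Prime] in
theorem grp_ncard_orb (X : Subgroup H) (a : α) : (orb X a).ncard = (stabilizer X a).index := by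
  rw [index_stabilizer]
  congr 1
  ext b
  exact ⟨fun ⟨g, hg, e⟩ => ⟨⟨g, hg⟩, e⟩, fun ⟨g, e⟩ => ⟨g, g.2, e⟩⟩

/-- An orbit containing a Sylow-fixed point has length prime to `p`. -/
theorem not_dvd_orb {X : Subgroup H} {Q : Sylow p H} (hQ : (Q : Subgroup H) ≤ X) {a : α}
    (fa : Fx (Q : Subgroup H) a) : ¬ p ∣ (orb X a).ncard := by
  rw [grp_ncard_orb]
  exact fun d => (Q.subtype hQ).not_dvd_index
    (d.trans (Subgroup.index_dvd_of_le fun x hx => fa x.1 hx))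

/-- The orbits of a Sylow have `p`-power length. -/
theorem orb_syl_card (Q : Sylow p H) (a : α) :
    ∃ k, (orb (Q : Subgroup H) a).ncard = p ^ k := by
  rw [grp_ncard_orb]
  exact Q.isPGroup'.index _

omit [Finite H] [Fact p.Prime] in
theorem nu_smul (g : H) (X : Subgroup H) : nu p (g • X) = nu p X := by
  rw [nu, nu, ← Set.ncard_smul_set g {Q : Sylow p H | (Q : Subgroup H) ≤ X}]
  congr 1
  ext Q
  rw [Set.mem_smul_set_iff_inv_smul_mem]
  change _ ↔ g⁻¹ • (Q : Subgroup H) ≤ X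
  rw [smul_le_iff_sub, inv_inv]
  rfl

theorem Sy.nu_pos {X : Subgroup H} (h : Sy p X) : 0 < nu p X := by
  exact (Set.ncard_pos (Set.toFinite _)).2 h

end CfsgLib.SyF
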