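import Cfsg.Agent.Lib.SyF.Cx

/-! SYF package LN: lines, pencils, the sets UU, VV, St.  Proofs: docstrings / plans/SYF.md. -/

set_option autoImplicit false

namespace CfsgLib.SyF

open MulAction
open scoped Pointwise

variable {H : Type*} [Group H] [Finite H] {p : ℕ} [Fact p.Prime]
variable {α β : Type*} [MulAction H α] [MulAction H β]

variable [Finite α] {X M N : Subgroup H} {S : Set α} {φ δ ψ ε : ℕ}

omit [Finite H] [Fact p.Prime] in
theorem Line.exists_ne (l : Line p X S M φ δ) (c : α) : ∃ d ∈ ln S M, d ≠ c := by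
  exact Set.exists_ne_of_one_lt_ncard (by have := l.d1; rw [l.card]; omega) c

omit [Finite H] [Fact p.Prime] in
theorem Line.exists_third (l : Line p X S M φ δ) (hδ : 2 ≤ δ) (c d : α) :
    ∃ e ∈ ln S M, e ≠ c ∧ e ≠ d := by
  by_contra h
  have h1 : ln S M ⊆ {c, d} := fun e he => by
    by_contra k
    exact h ⟨e, he, fun a => k (Or.inl a), fun a => k (Or.inr a)⟩
  have h2 := (Set.ncard_le_ncard h1).trans (Set.ncard_insert_le c {d})
  rw [l.card, Set.ncard_singleton] at h2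
  omega

omit [Finite H] [Fact p.Prime] in
theorem Line.gn (l : Line p X S M φ δ) : Gn p M := by
  obtain ⟨c, hc⟩ : (ln S M).Nonempty := Set.nonempty_of_ncard_ne_zero (by rw [l.card]; omega)
  obtain ⟨d, hd, ne⟩ := l.exists_ne c
  rw [← l.two c hc d hd ne.symm]
  exact gn_LL _ _

omit [Finite H] [Fact p.Prime] in
theorem Line.le (l : Line p X S M φ δ) : M ≤ X := by
  obtain ⟨c, hc⟩ : (ln S M).Nonempty := Set.nonempty_of_ncard_ne_zero (by rw [l.card]; omega)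
  obtain ⟨d, hd, ne⟩ := l.exists_ne c
  rw [← l.two c hc d hd ne.symm]
  exact L2_le _ _ _

omit [Finite H] [Fact p.Prime] in
theorem Line.le_LL (l : Line p X S M φ δ) {c : α} (hc : c ∈ ln S M) : M ≤ LL p X c := by
  exact l.gn.le_LL.2 ⟨l.le, hc.2⟩

omit [Finite H] [Fact p.Prime] [Finite α] in
/-- Two points determine the line. -/
theorem Line.eq_of (l : Line p X S M φ δ) (l' : Line p X S N ψ ε) {c d : α} (hne : c ≠ d)
    (hc : c ∈ ln S M) (hd : d ∈ ln S M) (hc' : c ∈ ln S N) (hd' : d ∈ ln S N) : M = N :=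
  (l.two c hc d hd hne).symm.trans (l'.two c hc' d hd' hne)

omit [Finite H] [Fact p.Prime] [Finite α] in
theorem smul_pen {g : H} (hg : g ∈ X) (c : α) (M : Subgroup H) :
    g • pen p X c M = pen p X (g • c) (g • M) := by
  rw [pen, smul_orb, smul_LL hg, pen]

omit [Finite H] [Fact p.Prime] [Finite α] in
theorem smul_ln' (hS : Iv X S) {g : H} (hg : g ∈ X) (M : Subgroup H) :
    g • ln S M = ln S (g • M) := by
  rw [smul_ln, hS.smul_eq hg]

omit [Finite H] [Fact p.Prime] [Finite α] in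
theorem smul_St (hS : Iv X S) {g : H} (hg : g ∈ X) (M : Subgroup H) :
    g • St p X S M = St p X S (g • M) := by
  have k : ∀ g ∈ X, ∀ M u, u ∈ St p X S M → g • u ∈ St p X S (g • M) := by
    rintro g hg M u ⟨c, hc, N, hN, hu⟩
    exact ⟨g • c, smul_ln' hS hg M ▸ Set.smul_mem_smul_set hc, g • N,
      smul_pen (p := p) hg c M ▸ Set.smul_mem_smul_set hN, smul_ln' hS hg N ▸ Set.smul_mem_smul_set hu⟩
  ext u
  rw [Set.mem_smul_set_iff_inv_smul_mem]
  exact ⟨fun h => by simpa using k g hg _ _ h, fun h => by simpa using k _ (X.inv_mem hg) _ _ h⟩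

omit [Finite H] [Fact p.Prime] [Finite α] in
theorem Line.smul (l : Line p X S M φ δ) (hS : Iv X S) {g : H} (hg : g ∈ X) :
    Line p X S (g • M) φ δ := by
  refine ⟨l.sy.smul g, by rw [← smul_ln' hS hg, Set.ncard_smul_set, l.card], l.d1, l.f1, ?_, ?_⟩ <;>
    rw [← smul_ln' hS hg]
  · rintro _ ⟨c, hc, rfl⟩ _ ⟨d, hd, rfl⟩ ne
    rw [← smul_L2 hg, l.two c hc d hd fun e => ne (congrArg _ e)]
  · rintro _ ⟨c, hc, rfl⟩
    rw [← smul_pen hg, ← smul_LL hg]
    exact (l.one c hc).smul g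

omit [Finite H] [Fact p.Prime] [Finite α] in
theorem self_mem_pen (c : α) (M : Subgroup H) : M ∈ pen p X c M := mem_orb_self _ _

omit [Finite H] [Fact p.Prime] [Finite α] in
theorem pen_eq {c : α} (hN : N ∈ pen p X c M) : pen p X c N = pen p X c M := orb_eq_of_mem hN

omit [Finite H] [Fact p.Prime] [Finite α] in
theorem UU_eq {c : α} (hN : N ∈ pen p X c M) : UU p X S c N = UU p X S c M := by
  simp only [UU, pen_eq hN]

omit [Finite H] [Fact p.Prime] [Finite α] in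
/-- Members of pencils are lines through `c`. -/
theorem Line.pen_mem (l : Line p X S M φ δ) (hS : Iv X S) {c : α} (hc : c ∈ ln S M)
    (hN : N ∈ pen p X c M) : Line p X S N φ δ ∧ c ∈ ln S N := by
  obtain ⟨g, hg, rfl⟩ := hN
  refine ⟨l.smul hS (LL_le X c hg), hc.1, ?_⟩
  rw [← LL_fx X c g hg, fx_smul]
  exact hc.2

theorem Line.LL_self (l : Line p X S M φ δ) {c : α} (hc : c ∈ ln S M) :
    LL p (LL p X c) M = M := by
  exact (orbSub_mem l.gn l.sy (l.le_LL hc) (mem_orb_self _ _)).2.2.2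

/-- `One.del` at `M`. -/
theorem Line.oneV (l : Line p X S M φ δ) {c : α} (hc : c ∈ ln S M) :
    One p M (pen p X c M \ {M}) (φ - 1) := by
  have := (l.one c hc).del l.f1 (self_mem_pen c M)
  rwa [l.LL_self hc] at this

/-- For `u ≠ c` on the line `N` through `c ∈ ln S M`: a Sylow in `M` fixes `u` iff it lies in `N`. -/
theorem Line.LL_pt (l : Line p X S M φ δ) (l' : Line p X S N ψ ε) {c u : α} (hc : c ∈ ln S M)
    (hc' : c ∈ ln S N) (hu : u ∈ ln S N) (hne : u ≠ c) : LL p M u = LL p M N := by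
  refine (gn_LL _ _).ext (gn_LL _ _) fun Q => ?_
  rw [SyF.le_LL, (gn_syl Q).le_LL_sub l'.sy]
  refine and_congr_right fun h => ⟨fun k => ?_, hu.2.mono⟩
  rw [← l'.two c hc' u hu hne.symm]
  exact le_L2.2 ⟨h.trans l.le, hc.2.mono h, k⟩

theorem Line.LL_comm (l : Line p X S M φ δ) (l' : Line p X S N ψ ε) : LL p M N = LL p N M := by
  refine (gn_LL _ _).ext (gn_LL _ _) fun Q => ?_
  rw [(gn_syl Q).le_LL_sub l'.sy, (gn_syl Q).le_LL_sub l.sy, and_comm]

omit [Finite H] [Fact p.Prime] [Finite α] in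
theorem UU_subset (c : α) (M : Subgroup H) : UU p X S c M ⊆ S \ {c} := by
  exact fun _ ⟨h, _, _, k⟩ => ⟨k.1, h⟩

omit [Finite H] [Fact p.Prime] [Finite α] in
theorem iv_UU (hS : Iv X S) (c : α) (M : Subgroup H) : Iv (LL p X c) (UU p X S c M) := by
  rintro g hg u ⟨h, N, hN, hu⟩
  exact ⟨fun e => h (smul_left_cancel g (e.trans (LL_fx X c g hg).symm)), g • N, iv_orb _ _ g hg N hN,
    smul_ln' hS (LL_le X c hg) N ▸ Set.smul_mem_smul_set hu⟩

/-- `fib` for `u ↦ L2 X c u` from `UU` to the pencil. -/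
theorem Line.cntU (l : Line p X S M φ δ) (hS : Iv X S) {c : α} (hc : c ∈ ln S M) {Q : Sylow p H}
    (hQ : (Q : Subgroup H) ≤ LL p X c) :
    (UU p X S c M).ncard = δ * (p + φ) ∧ ff (Q : Subgroup H) (UU p X S c M) = δ * φ ∧
      tt p (Q : Subgroup H) (UU p X S c M) = δ ∧
      ex p (Q : Subgroup H) (UU p X S c M) = δ * ((p : ℤ) - 1 - φ) := by
  have k : ∀ u, u ≠ c → ∀ N ∈ pen p X c M, u ∈ ln S N → L2 p X c u = N := fun u h N hN hu =>
    (l.pen_mem hS hc hN).1.two c (l.pen_mem hS hc hN).2 u hu h.symm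
  have o := l.one c hc
  have := fib ((iv_UU hS c M).mono hQ) (o.orb.iv.mono hQ) (fun u => L2 p X c u) δ
    (fun u ⟨h, N, hN, hu⟩ => (k u h N hN hu).symm ▸ hN) (fun N hN => by
      have e : {u | u ∈ UU p X S c M ∧ L2 p X c u = N} = ln S N \ {c} := Set.ext fun u =>
        ⟨fun ⟨⟨h, N', hN', hu⟩, e⟩ => ⟨e ▸ (k u h N' hN' hu).symm ▸ hu, h⟩,
          fun ⟨hu, h⟩ => ⟨⟨h, N, hN, hu⟩, k u h N hN hu⟩⟩
      have h1 := Set.ncard_diff_singleton_add_one (l.pen_mem hS hc hN).2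
      rw [(l.pen_mem hS hc hN).1.card] at h1
      rw [e]
      omega) fun u ⟨h, N, hN, hu⟩ => by
      rw [(gn_syl Q).fx_sub ((k u h N hN hu).symm ▸ (l.pen_mem hS hc hN).1.sy), SyF.le_LL]
      exact ⟨fun a => ⟨hQ, a⟩, And.right⟩
  rwa [o.card, o.fix Q hQ, (o.tt_eq hQ).1, (o.tt_eq hQ).2, mul_one] at this

omit [Finite H] [Fact p.Prime] [Finite α] in
theorem Line.mem_VV (l : Line p X S M φ δ) (hS : Iv X S) {c : α} (hc : c ∈ ln S M) {u : α} :
    u ∈ VV p X S c M ↔ ∃ N ∈ pen p X c M, N ≠ M ∧ u ∈ ln S N ∧ u ≠ c := by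
  refine ⟨fun ⟨⟨h, N, hN, hu⟩, k⟩ => ⟨N, hN, fun e => k (e ▸ hu), hu, h⟩,
    fun ⟨N, hN, ne, hu, h⟩ => ⟨⟨h, N, hN, hu⟩, fun k => ne ?_⟩⟩
  exact (l.pen_mem hS hc hN).1.eq_of l h hu (l.pen_mem hS hc hN).2 k hc

omit [Finite H] [Fact p.Prime] [Finite α] in
theorem UU_eq_union {c : α} (M : Subgroup H) :
    UU p X S c M = (ln S M \ {c}) ∪ VV p X S c M := by
  refine Set.ext fun u => ⟨fun h => ?_, fun h => h.elim (fun k => ⟨k.2, M, self_mem_pen c M, k.1⟩) And.left⟩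
  by_cases k : u ∈ ln S M
  exacts [Or.inl ⟨k, h.1⟩, Or.inr ⟨h, k⟩]

omit [Finite H] [Fact p.Prime] in
theorem Line.iv_VV (l : Line p X S M φ δ) (hS : Iv X S) {c : α} (hc : c ∈ ln S M) :
    VV p X S c M ⊆ S ∧ Iv M (VV p X S c M) ∧ NF M (VV p X S c M) := by
  exact ⟨fun _ h => (UU_subset c M h.1).1, ((iv_UU hS c M).mono (l.le_LL hc)).diff (iv_ln S M),
    fun _ h k => h.2 ⟨(UU_subset c M h.1).1, k⟩⟩

theorem Line.cntV (l : Line p X S M φ δ) (hS : Iv X S) {c : α} (hc : c ∈ ln S M) {Q : Sylow p H}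
    (hQ : (Q : Subgroup H) ≤ M) :
    ff (Q : Subgroup H) (VV p X S c M) = δ * (φ - 1) ∧
      tt p (Q : Subgroup H) (VV p X S c M) = δ ∧
      ex p (Q : Subgroup H) (VV p X S c M) = δ * ((p : ℤ) - φ) := by
  obtain ⟨-, h1, h2, h3⟩ := l.cntU hS hc (hQ.trans (l.le_LL hc))
  have d : Disjoint (ln S M \ {c}) (VV p X S c M) := Set.disjoint_left.2 fun _ a b => b.2 a.1
  have f : ∀ a ∈ ln S M \ {c}, Fx (Q : Subgroup H) a := fun a ha => ha.1.2.mono hQ
  have i := (l.iv_VV hS hc).2.1.mono hQ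
  obtain ⟨k1, k2, k3⟩ := ff_of_fx (p := p) f
  have e := Set.ncard_diff_singleton_add_one hc
  rw [l.card, Nat.add_right_cancel_iff] at e
  rw [UU_eq_union, ff_union _ d, k1, e] at h1
  rw [UU_eq_union, tt_union d (iv_of_fx f) i, k2, zero_add] at h2
  rw [UU_eq_union, ex_union d (iv_of_fx f) i, k3, e] at h3
  exact ⟨by rw [Nat.mul_sub_one]; omega, h2, by linarith⟩

omit [Finite H] [Fact p.Prime] in
theorem Line.mem_St (l : Line p X S M φ δ) (hS : Iv X S) {u : α} :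
    u ∈ St p X S M ↔ u ∈ ln S M ∨ ∃ c ∈ ln S M, u ∈ VV p X S c M := by
  refine ⟨fun ⟨c, hc, N, hN, hu⟩ => ?_, fun h => h.elim (fun k => ⟨u, k, M, self_mem_pen u M, k⟩)
    fun ⟨c, hc, k⟩ => ⟨c, hc, k.1.2⟩⟩
  by_cases k : u ∈ ln S M
  exacts [Or.inl k, Or.inr ⟨c, hc, ⟨fun e => k (e ▸ hc), N, hN, hu⟩, k⟩]

omit [Finite H] [Fact p.Prime] [Finite α] in
theorem St_subset (M : Subgroup H) : St p X S M ⊆ S := by
  exact fun _ ⟨_, _, _, _, h⟩ => h.1

omit [Finite H] [Fact p.Prime] [Finite α] in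
theorem UU_subset_St {c : α} (hc : c ∈ ln S M) : UU p X S c M ⊆ St p X S M := by
  exact fun _ h => ⟨c, hc, h.2⟩

omit [Finite H] [Fact p.Prime] [Finite α] in
theorem ln_subset_St (M : Subgroup H) : ln S M ⊆ St p X S M := by
  exact fun u h => ⟨u, h, M, self_mem_pen u M, h⟩

end CfsgLib.SyF
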