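import Cfsg.Agent.Lib.SyF.S1
import Cfsg.Agent.Lib.SyF.Ln
import Cfsg.Agent.Lib.SyF.Dom

/-! SYF package JS: no Jordan set when all lines are thin.  Proofs: docstrings / plans/SYF.md. -/

set_option autoImplicit false

namespace CfsgLib.SyF

open MulAction
open scoped Pointwise

variable {H : Type*} [Group H] [Finite H] {p : ℕ} [Fact p.Prime]
variable {α β : Type*} [MulAction H α] [MulAction H β]

variable [Finite α] {X : Subgroup H} {S K : Set α} {φ : ℕ}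

variable (p) in
/-- A Jordan set (`K` is also used as a point of the `H`-set `Set α`). -/
structure JS (X : Subgroup H) (S K : Set α) (φ : ℕ) : Prop where
  sub : K ⊆ S
  iv : ∀ c ∈ K, Iv (LL p X c) K
  one : One p (LL p X K) K φ
  two : 2 ≤ φ

omit [Finite H] [Fact p.Prime] [Finite α] in
theorem JS.smul (j : JS p X S K φ) (hS : Iv X S) {g : H} (hg : g ∈ X) : JS p X S (g • K) φ := by
  refine ⟨?_, ?_, smul_LL (p := p) hg K ▸ j.one.smul g, j.two⟩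
  · rintro _ ⟨k, hk, rfl⟩
    exact hS g hg k (j.sub hk)
  · rintro _ ⟨k, hk, rfl⟩
    exact smul_LL (p := p) hg k ▸ (j.iv k hk).smul g

/-- `one_of_tt` for `J = LL X K`: `J ≥ LL X d` moves every `c ≠ d`. -/
theorem Cx.js_mk (h : Cx p X S) (hK : K ⊆ S) (hiv : ∀ c ∈ K, Iv (LL p X c) K) {Q : Sylow p H}
    (hQ : (Q : Subgroup H) ≤ X) (hQK : Iv (Q : Subgroup H) K) (ht : tt p (Q : Subgroup H) K = 1)
    (hf : 2 ≤ ff (Q : Subgroup H) K) : JS p X S K (ff (Q : Subgroup H) K) := by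
  refine ⟨hK, hiv, one_of_tt (gn_LL X K) (le_LL.2 ⟨hQ, iv_iff_fx.1 hQK⟩)
    (iv_iff_fx.2 (LL_fx X K)) (fun c hc f => ?_) ht, hf⟩
  obtain ⟨a, ha, b, hb, ne, -⟩ := two_le_ff_iff.1 hf
  have key : ∀ d ∈ K, d = c := fun d hd => h.red d (hK hd) c (hK hc)
    (f.mono ((gn_LL X d).le_LL.2 ⟨LL_le X d, iv_iff_fx.1 (hiv d hd)⟩))
  exact ne ((key a ha).trans (key b hb).symm)

/-- `One.del`, `LL_eq_of_le`. -/
theorem JS.del (j : JS p X S K φ) {c : α} (hc : c ∈ K) : One p (LL p X c) (K \ {c}) (φ - 1) := by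
  have := j.one.del (one_le_two.trans j.two) hc
  rwa [LL_eq_of_le (LL_le X K) ((gn_LL X c).le_LL.2 ⟨LL_le X c, iv_iff_fx.1 (j.iv c hc)⟩)] at this

/-- `small_of_one`, `Cx.line`, thinness. -/
theorem Cx.js_pair (h : Cx p X S) (thin : ∀ M φ δ, Line p X S M φ δ → δ = 1) (j : JS p X S K φ)
    {c d : α} (hc : c ∈ K) (hd : d ∈ K) (hne : c ≠ d) :
    Sy p (L2 p X c d) ∧ ln S (L2 p X c d) = {c, d} := by
  have two := j.two
  obtain ⟨δ, l⟩ := h.line (j.sub hc) (j.sub hd) hne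
    (small_of_one (j.del hc) (by omega) ⟨hd, hne.symm⟩)
  refine ⟨l.sy, (Set.eq_of_subset_of_ncard_le ?_ ?_).symm⟩
  · rintro _ (rfl | rfl)
    exacts [⟨j.sub hc, L2_fx1 X _ d⟩, ⟨j.sub hd, L2_fx2 X c _⟩]
  · rw [l.card, thin _ _ _ l, Set.ncard_pair hne]

/-- Two Jordan sets meeting in `s`: `K \ {s}`, `K' \ {s}` are orbits of `LL X s`, so `K ∩ K' = {s}`.
`b ∈ K \ {s}`, `u ∈ K' \ {s}`; `One (L2 s b) (K' \ {s})` (`One.sub`) gives a Sylow fixing `b, u`.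
`N = L2 b u` stabilises `K` and `K'`, so fixes `s`; it fixes no other point of `K \ {b}` since `L2 s u`
is reduced on `K \ {s}`.  `dom` with `Z = LL X b`, `Y = K \ {b}` contradicts `exc1`. -/
theorem Cx.js_meet (h : Cx p X S) (thin : ∀ M φ δ, Line p X S M φ δ → δ = 1) {K' : Set α} {φ' : ℕ}
    (j : JS p X S K φ) (j' : JS p X S K' φ') {s : α} (hs : s ∈ K) (hs' : s ∈ K') : K = K' := by
  have o := j.del hs
  have o' := j'.del hs'
  have two := j.two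
  have two' := j'.two
  by_cases hm : ∃ y ∈ K \ {s}, y ∈ K' \ {s}
  · obtain ⟨y, h1, h2⟩ := hm
    rw [← Set.insert_eq_of_mem hs, ← Set.insert_eq_of_mem hs', ← Set.insert_sdiff_singleton,
      o.orb.eq h1, ← o'.orb.eq h2, Set.insert_sdiff_singleton]
  exfalso
  have hi : ∀ y ∈ K, y ∈ K' → y = s := fun y h1 h2 => by_contra fun e => hm ⟨y, ⟨h1, e⟩, h2, e⟩
  obtain ⟨b, hb⟩ := o.orb.nonempty
  obtain ⟨u, hu⟩ := o'.orb.nonempty
  have bs : s ≠ b := Ne.symm hb.2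
  have us : s ≠ u := Ne.symm hu.2
  have uK : u ∉ K := fun e => hu.2 (hi u e hu.1)
  have p1 := h.js_pair thin j hs hb.1 bs
  have p2 := h.js_pair thin j' hs' hu.1 us
  have o1 : One p (L2 p X s b) (K' \ {s}) (φ' - 1) :=
    o'.sub (gn_LL _ _) p1.1 (LL_le _ _) fun y hy f => by
      rcases p1.2.le ⟨j'.sub hy.1, f⟩ with e | e
      · exact hy.2 e
      · exact hb.2 (hi b hb.1 (e ▸ hy.1))
  have o2 : One p (L2 p X s u) (K \ {s}) (φ - 1) :=
    o.sub (gn_LL _ _) p2.1 (LL_le _ _) fun y hy f => by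
      rcases p2.2.le ⟨j.sub hy.1, f⟩ with e | e
      · exact hy.2 e
      · exact uK (e ▸ hy.1)
  have sy : Sy p (L2 p X b u) := (o1.sy_LL (by omega) hu).mono ((gn_LL _ _).le_L2.2
    ⟨(LL_le _ _).trans (L2_le X s b), (L2_fx2 X s b).mono (LL_le _ _), LL_fx _ _⟩)
  have bS := j.sub hb.1
  have sub := h.orb_sub bS (j'.sub hu.1) fun e => uK (e ▸ hb.1)
  obtain ⟨Q, hQ⟩ := h.sy_LL bS
  have e1 := h.exc1 bS hQ sub (iv_orb _ u)
  have e2 := dom h.odd h.mm (j.del hb.1) (u := u)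
    (Set.ncard_lt_ncard ⟨sub.trans Set.sdiff_subset, fun e => (sub (e bS)).2 rfl⟩) sy
    ⟨s, ⟨hs, bs⟩, fun g hg => hi _ (j.iv b hb.1 g (LL_le _ _ hg) s hs)
      (j'.iv u hu.1 g (LL_le _ b ((L2_comm X b u).le hg)) s hs')⟩
    (((Set.ncard_le_ncard (t := {s}) fun y hy => by_contra fun e => hy.1.2
      (o2.red (by omega) b hb y ⟨hy.1.1, e⟩ (hy.2.mono ((gn_LL _ _).le_L2.2
        ⟨(LL_le _ _).trans (L2_le X s u), LL_fx _ _,
          (L2_fx2 X s u).mono (LL_le _ _)⟩))).symm).trans_eq (Set.ncard_singleton s)).trans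
      one_le_two)
    (fun y hy w hw f => uK ((j.iv b hb.1).orb_subset (a := w) (by
      rcases (h.js_pair thin j hb.1 hy.1 (Ne.symm hy.2)).2.le ⟨(sub hw).1, f⟩ with e | e <;> rw [e]
      exacts [hb.1, hy.1]) (mem_orb_symm hw))) hQ
  omega

/-- By `js_meet` the conjugates of `K` are blocks; `B y` the block of `y`.  `W = {y ∈ S | Q moves B y}`
has `ff = 0` (a fixed `y` has `Q ≤ LL X y`), is non-empty (else all Sylows of `X` stabilise `K`, `K = S`,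
`t = 1`), contains a block with more than `p` points, so `tt ≥ 2` (`card_eq`).  The other blocks have
excess `p - 1 - φ ≥ 0` (`One.tt_eq`, `One.lt`, `ex_nonneg_of_parts`).  So `E(S) ≥ 2p - 2`. -/
theorem Cx.js (h : Cx p X S) (thin : ∀ M φ δ, Line p X S M φ δ → δ = 1) (j : JS p X S K φ) :
    False := by
  have hS := h.orb.iv
  obtain ⟨k, hk⟩ := j.one.orb.nonempty
  obtain ⟨Q, hQ, nQ⟩ : ∃ Q : Sylow p H, (Q : Subgroup H) ≤ X ∧ ¬ Iv (Q : Subgroup H) K := by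
    by_contra c
    have h1 : Iv X K := h.gn.iv_iff.2 fun Q hQ => by_contra fun e => c ⟨Q, hQ, e⟩
    have h2 : K = S := j.sub.antisymm (h.orb.eq (j.sub hk) ▸ h1.orb_subset hk)
    obtain ⟨Q, hQ⟩ := h.sy
    have h3 := (j.one.tt_eq (le_LL.2 ⟨hQ, iv_iff_fx.1 (h1.mono hQ)⟩)).1
    have h4 := h.t2 Q hQ
    rw [h2] at h3
    omega
  have bl : ∀ y ∈ S, ∃ B, JS p X S B φ ∧ y ∈ B := fun y hy => by
    obtain ⟨g, hg, rfl⟩ := h.orb.tr (j.sub hk) hy
    exact ⟨g • K, j.smul hS hg, Set.smul_mem_smul_set hk⟩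
  choose! B b1 b2 using bl
  have b3 : ∀ y ∈ S, ∀ z ∈ B y, B z = B y := fun y hy z hz =>
    h.js_meet thin (b1 z ((b1 y hy).sub hz)) (b1 y hy) (b2 z ((b1 y hy).sub hz)) hz
  have b4 : ∀ y ∈ {y | y ∈ S ∧ Iv (Q : Subgroup H) (B y)},
      B y ⊆ {y | y ∈ S ∧ Iv (Q : Subgroup H) (B y)} := fun y hy z hz =>
    ⟨(b1 y hy.1).sub hz, (b3 y hy.1 z hz).symm ▸ hy.2⟩
  have iV : Iv (Q : Subgroup H) {y | y ∈ S ∧ Iv (Q : Subgroup H) (B y)} := fun g hg y hy =>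
    b4 y hy (hy.2 g hg y (b2 y hy.1))
  have e0 := ex_nonneg_of_parts B _ fun y hy => ⟨b2 y hy.1, b4 y hy, ⟨hy.2, by
    rw [((b1 y hy.1).one.tt_eq (le_LL.2 ⟨hQ, iv_iff_fx.1 hy.2⟩)).2]
    have := j.one.lt
    omega⟩, b3 y hy.1⟩
  have e1 := ex_diff (fun y hy => hy.1) (hS.mono hQ) iV
  have f0 : ff (Q : Subgroup H) (S \ {y | y ∈ S ∧ Iv (Q : Subgroup H) (B y)}) = 0 := by
    by_contra f
    obtain ⟨y, hy, fy⟩ := ff_pos_iff.1 (Nat.one_le_iff_ne_zero.2 f)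
    exact hy.2 ⟨hy.1, ((b1 y hy.1).iv y (b2 y hy.1)).mono (le_LL.2 ⟨hQ, fy⟩)⟩
  have c1 := card_eq ((hS.mono hQ).diff iV)
  have c2 := Set.ncard_le_ncard (s := K) (t := S \ {y | y ∈ S ∧ Iv (Q : Subgroup H) (B y)})
    fun y hy => ⟨j.sub hy, fun e =>
      nQ (h.js_meet thin (b1 y e.1) j (b2 y e.1) hy ▸ e.2)⟩
  have e2 := h.e Q hQ
  rw [e1, ex.eq_def p _ (S \ _), f0] at e2
  rw [c1, f0, j.one.card] at c2
  generalize tt p (Q : Subgroup H) (S \ {y | y ∈ S ∧ Iv (Q : Subgroup H) (B y)}) = t at c2 e2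
  have two := j.two
  have h2 : 2 ≤ t := by
    by_contra c
    have : p * t ≤ p * 1 := Nat.mul_le_mul_left p (by omega)
    omega
  have h3 : (3 : ℤ) ≤ p := by exact_mod_cast h.three
  have h4 : (2 : ℤ) ≤ t := by exact_mod_cast h2
  push_cast at e2
  nlinarith

end CfsgLib.SyF
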