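import Cfsg.Agent.Lib.SyF.S4a

/-! SYF package S4B: no Steiner triple system on 2p+3 points.  Proofs: docstrings / plans/SYF.md. -/

set_option autoImplicit false

namespace CfsgLib.SyF

open MulAction
open scoped Pointwise

variable {H : Type*} [Group H] [Finite H] {p : ℕ} [Fact p.Prime]
variable {α β : Type*} [MulAction H α] [MulAction H β]

variable [Finite α] {X : Subgroup H} {S K : Set α}

omit [Finite H] in
theorem s4b_dich {R : Subgroup H} (hR : IsPGroup p R) {O : Set α} (hc : O.ncard = p) (hi : Iv R O) {z : α}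
    (hz : z ∈ O) : Fx R z ∨ orb R z = O := by
  have e : orbit R z = orb R z := Set.ext fun y => ⟨fun ⟨g, hg⟩ => ⟨g, g.2, hg⟩, fun ⟨g, h1, h2⟩ => ⟨⟨g, h1⟩, h2⟩⟩
  obtain ⟨n, hn⟩ := hR.card_orbit z
  rw [e, Nat.card_coe_set_eq] at hn
  rcases n with _ | n
  · obtain ⟨y, hy⟩ := Set.ncard_eq_one.1 hn
    exact .inl fun g hg => (hy.le (smul_mem_orb hg z)).trans (hy.le (mem_orb_self R z)).symm
  · refine .inr (Set.eq_of_subset_of_ncard_le (hi.orb_subset hz) ?_)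
    rw [hc, hn]
    exact Nat.le_self_pow n.succ_ne_zero p

omit [Finite H] [Fact p.Prime] [Group H] [MulAction H α] in
theorem s4b_three {A : Set α} (h : A.ncard = 2 + 1) {a b : α} (ha : a ∈ A) (hb : b ∈ A) (hab : a ≠ b) :
    ∃ c ∈ A, c ≠ a ∧ c ≠ b ∧ ∀ d ∈ A, d = a ∨ d = b ∨ d = c := by
  obtain ⟨c, hc, hc'⟩ := Set.exists_mem_notMem_of_ncard_lt_ncard (s := {a, b}) (t := A)
    (by rw [Set.ncard_pair hab, h]; omega)
  simp only [Set.mem_insert_iff, Set.mem_singleton_iff, not_or] at hc'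
  refine ⟨c, hc, hc'.1, hc'.2, fun d hd => ?_⟩
  have := Set.eq_of_subset_of_ncard_le (s := {a, b, c}) (t := A) (by rintro _ (rfl | rfl | rfl) <;> assumption)
    (by rw [h, Set.ncard_eq_three.2 ⟨a, b, c, hab, Ne.symm hc'.1, Ne.symm hc'.2, rfl⟩])
  exact this.ge hd

/-- a Sylow 3-subgroup of `N` -/
theorem s4b_syl (N : Subgroup H) : ∃ T ≤ N, (∀ c : α, 3 ∣ (orb N c).ncard → ¬ Fx T c) ∧
    ∀ Y : Set α, Iv T Y → ¬ 3 ∣ Y.ncard → ∃ y ∈ Y, Fx T y := by
  have := Fact.mk Nat.prime_three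
  obtain ⟨T⟩ : Nonempty (Sylow 3 N) := inferInstance
  have e : ∀ c : α, Fx ((T : Subgroup N).map N.subtype) c ↔ Fx (T : Subgroup N) c := fun c =>
    ⟨fun h g hg => h g ⟨g, hg, rfl⟩, by rintro h _ ⟨g, hg, rfl⟩; exact h g hg⟩
  refine ⟨(T : Subgroup N).map N.subtype, Subgroup.map_subtype_le _, fun c hc hf => ?_, fun Y hY h3 => ?_⟩
  · refine not_dvd_orb (X := ⊤) le_top ((e c).1 hf) ?_
    rwa [show orb (⊤ : Subgroup N) c = orb N c from
      Set.ext fun y => ⟨fun ⟨g, _, hg⟩ => ⟨g, g.2, hg⟩, fun ⟨g, h1, h2⟩ => ⟨⟨g, h1⟩, trivial, h2⟩⟩]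
  · have h1 := card_eq (Q := T) (Y := Y) fun g hg => hY g ⟨g, hg, rfl⟩
    obtain ⟨y, hy, hf⟩ := (ff_pos_iff (Q := (T : Subgroup N)) (A := Y)).1 (by omega)
    exact ⟨y, hy, (e y).2 hf⟩

omit [Finite H] [Fact p.Prime] [Finite α] in
theorem Pl.s4b_mem {δ : ℕ} (k : Pl p X S K δ) {a b : α} (ha : a ∈ K) (hb : b ∈ K) :
    a ∈ ln S (L2 p X a b) ∧ b ∈ ln S (L2 p X a b) :=
  ⟨⟨k.sub ha, L2_fx1 X a b⟩, k.sub hb, L2_fx2 X a b⟩

omit [Finite H] [Fact p.Prime] [Finite α] in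
theorem Pl.s4b_le {δ : ℕ} (k : Pl p X S K δ) {c : α} (hc : c ∈ K) : LL p X c ≤ LL p X K :=
  (gn_LL X c).le_LL.2 ⟨LL_le X c, iv_iff_fx.1 (k.iv c hc)⟩

omit [Finite H] [Fact p.Prime] in
/-- a group fixing two points of a line fixes the third -/
theorem Pl.s4b_fix (k : Pl p X S K 2) (hS : Iv X S) {T : Subgroup H} (hT : T ≤ X) {a b c : α} (ha : a ∈ K)
    (hb : b ∈ K) (hab : a ≠ b) (fa : Fx T a) (fb : Fx T b) (hc : c ∈ ln S (L2 p X a b)) : Fx T c := by
  obtain ⟨d, -, -, -, h⟩ := s4b_three (k.line a ha b hb hab).1.card (k.s4b_mem ha hb).1 (k.s4b_mem ha hb).2 hab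
  intro g hg
  have h1 : g • c ∈ ln S (L2 p X a b) := by
    have := Set.smul_mem_smul_set (a := g) hc
    rwa [smul_ln' hS (hT hg), smul_L2 (hT hg), fa g hg, fb g hg] at this
  rcases h c hc with rfl | rfl | rfl
  · exact fa g hg
  · exact fb g hg
  · rcases h _ h1 with e | e | e
    · rw [smul_left_cancel g (e.trans (fa g hg).symm), fa g hg]
    · rw [smul_left_cancel g (e.trans (fb g hg).symm), fb g hg]
    · exact e

/-- An element normalising `Q` and fixing two points of a `Q`-orbit of length `p` fixes the orbit.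
(The stabiliser of `u` in `Q` fixes the orbit pointwise; `R = {q ∈ Q | τ q u = q u}` is a subgroup
whose orbit has `p`-power length `> 1`.) -/
theorem fix_orb_of_two {Q : Sylow p H} {u w : α} (hc : (orb (Q : Subgroup H) u).ncard = p) {τ : H}
    (hτ : τ • Q = Q) (hu : τ • u = u) (hw : w ∈ orb (Q : Subgroup H) u) (hne : w ≠ u)
    (hτw : τ • w = w) : ∀ z ∈ orb (Q : Subgroup H) u, τ • z = z := by
  have iO := iv_orb (Q : Subgroup H) u
  have A : ∀ q ∈ (Q : Subgroup H), q • u = u → ∀ z ∈ orb (Q : Subgroup H) u, q • z = z := fun q hq e z hz => by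
    rcases s4b_dich (R := Q ⊓ stabilizer H u) (Q.isPGroup'.to_le inf_le_left) hc (iO.mono inf_le_left) hz with h | h
    · exact h q ⟨hq, e⟩
    · obtain ⟨g, hg, rfl⟩ := mem_orb_symm (h.ge (mem_orb_self _ u))
      rw [show g • u = u from hg.2, e]
  let R : Subgroup H :=
    { carrier := {q | q ∈ (Q : Subgroup H) ∧ ∀ z ∈ orb (Q : Subgroup H) u, (τ * q * τ⁻¹) • z = q • z}
      one_mem' := ⟨one_mem _, by simp⟩
      mul_mem' := fun {a b} ha hb => ⟨mul_mem ha.1 hb.1, fun z hz => by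
        rw [← conj_mul, mul_smul (τ * a * τ⁻¹), hb.2 z hz, ha.2 _ (iO b hb.1 z hz), mul_smul]⟩
      inv_mem' := fun {a} ha => ⟨inv_mem ha.1, fun z hz => by
        rw [← conj_inv, inv_smul_eq_iff, ha.2 _ (iO _ (inv_mem ha.1) z hz), smul_inv_smul]⟩ }
  have RQ : R ≤ Q := fun q hq => hq.1
  have hu' : τ⁻¹ • u = u := inv_smul_eq_iff.2 hu.symm
  obtain ⟨q, hq, rfl⟩ := hw
  have h1 : τ * q * τ⁻¹ ∈ (Q : Subgroup H) := by
    rw [← hτ, syl_smul]
    exact conj_mem_smul.2 hq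
  have hqR : q ∈ R := ⟨hq, fun z hz => by
    have := A _ (mul_mem (inv_mem hq) h1) (by rw [mul_smul, mul_smul, mul_smul, hu', hτw, inv_smul_smul]) z hz
    rwa [mul_smul, inv_smul_eq_iff] at this⟩
  rcases s4b_dich (Q.isPGroup'.to_le RQ) hc (iO.mono RQ) (mem_orb_self _ u) with h | h
  · exact (hne (h q hqR)).elim
  · intro z hz
    obtain ⟨r, hr, rfl⟩ := h.ge hz
    have := hr.2 u (mem_orb_self _ u)
    rwa [mul_smul, mul_smul, hu'] at this

/-- `J = LL X K` (`K` as a point of `Set α`; `LL X c ≤ J` for `c ∈ K`) is transitive on `K`: every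
`J`-orbit meets every line in at least 2 of its 3 points (for `u ∉ ln N`, `a ∈ ln N`, some `g ∈ LL X a`
moves the line `a u` to `N` by `pn`; for `u ∈ ln N` first move `u` off the line by `LL X b`). -/
theorem Pl.isOrb (k : Pl p X S K 2) (hS : Iv X S) : IsOrb (LL p X K) K := by
  have p2 := (Fact.out : p.Prime).two_le
  have hc := k.card
  have B : ∀ a ∈ K, ∀ b ∈ K, a ≠ b → ∀ u ∈ K, u ∉ ln S (L2 p X a b) → ∀ c ∈ ln S (L2 p X a b),
      ∃ y ∈ orb (LL p X K) u, y ∈ ln S (L2 p X a b) ∧ y ≠ c := fun a ha b hb hab u hu hu' c hc => by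
    obtain ⟨l, hl⟩ := k.line a ha b hb hab
    obtain ⟨d, hd, hdc⟩ := l.exists_ne c
    have huc : u ≠ c := fun e => hu' (e ▸ hc)
    obtain ⟨g, hg, e⟩ := k.pn c (hl hc) u hu d (hl hd) huc hdc
    refine ⟨g • u, smul_mem_orb (k.s4b_le (hl hc) hg) u, ?_,
      fun e' => huc (smul_left_cancel g (e'.trans (LL_fx X c g hg).symm))⟩
    rw [← l.two c hc d hd hdc.symm, ← e, ← smul_ln' hS (LL_le X c hg)]
    exact Set.smul_mem_smul_set (k.s4b_mem (hl hc) hu).2
  obtain ⟨x, hx⟩ : K.Nonempty := Set.nonempty_of_ncard_ne_zero (by omega)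
  refine isOrb_of_tr (iv_iff_fx.2 (LL_fx X K)) hx fun x' hx' => ?_
  obtain ⟨a, ha, ha'⟩ := Set.exists_mem_notMem_of_ncard_lt_ncard (s := {x, x'}) (t := K)
    ((Set.ncard_insert_le _ _).trans_lt (by rw [Set.ncard_singleton]; omega))
  simp only [Set.mem_insert_iff, Set.mem_singleton_iff, not_or] at ha'
  obtain ⟨b, hb, hb'⟩ := Set.exists_mem_notMem_of_ncard_lt_ncard (s := ln S (L2 p X a x) ∪ ln S (L2 p X a x'))
    (t := K) ((Set.ncard_union_le _ _).trans_lt (by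
      rw [(k.line a ha x hx ha'.1).1.card, (k.line a ha x' hx' ha'.2).1.card]; omega))
  have hab : a ≠ b := fun e => hb' (.inl (e ▸ (k.s4b_mem ha hx).1))
  have l := (k.line a ha b hb hab).1
  have m := k.s4b_mem ha hb
  have n1 : x ∉ ln S (L2 p X a b) := fun h => hb' (.inl (by rw [l.two a m.1 x h ha'.1]; exact m.2))
  have n2 : x' ∉ ln S (L2 p X a b) := fun h => hb' (.inr (by rw [l.two a m.1 x' h ha'.2]; exact m.2))
  obtain ⟨y, hy, hy', -⟩ := B a ha b hb hab x hx n1 a m.1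
  obtain ⟨z, hz, hz', hzy⟩ := B a ha b hb hab x hx n1 y hy'
  obtain ⟨t, ht, -, -, h3⟩ := s4b_three l.card hy' hz' hzy.symm
  obtain ⟨v, hv, hv', hvt⟩ := B a ha b hb hab x' hx' n2 t ht
  have : v ∈ orb (LL p X K) x := by
    rcases h3 v hv' with rfl | rfl | rfl
    exacts [hy, hz, (hvt rfl).elim]
  exact (orb_eq_of_mem this).le (mem_orb_symm hv)

/-- `M = L2 a b`, `Q ≤ M`, `ℓ = ln S M = ln K Q` has 3 points, `|K| = 2p + 3`.  `p = 3`: `not_dvd_orb`.
`p ≥ 5`: `N = J ⊓ stabilizer Q` is transitive on `ℓ` (`witt`); `T` a Sylow 3-subgroup of `↥N` fixes no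
point of `ℓ` (`not_dvd_orb` in `↥N`), and fixes a point in every invariant set of size prime to 3
(`card_eq` in `↥N`): `u1 ∈ V = K \ ℓ` (`2p` points); `C1 = orb Q u1` has `p` points (`orb_syl_card`),
`u2 ∈ C2 = V \ C1 = orb Q u2`.  `T` fixes the third point `w ∉ ℓ` of the line `u1 u2`; say
`w ∈ C = orb Q u`, `u'` the other one.  `T` fixes `C` (`fix_orb_of_two`).  The third point `x` of the
line `a u'` is not in `ℓ`, not in `orb Q u'` (`nc`), so in `C`; `T` fixes `u', x`, hence `a`. -/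
theorem Pl.not_two (k : Pl p X S K 2) (hS : Iv X S) (hp : p ≠ 2) : False := by
  have pp : p.Prime := Fact.out
  have p2 := pp.two_le
  have hc := k.card
  obtain ⟨a, ha, b, hb, hab⟩ := (Set.one_lt_ncard (Set.toFinite K)).1 (by omega)
  have l := (k.line a ha b hb hab).1
  obtain ⟨Q, hQ⟩ := l.sy
  have eL := k.ln_eq ha hb hab hQ
  have QJ : (Q : Subgroup H) ≤ LL p X K := hQ.trans ((LL_le _ b).trans (k.s4b_le ha))
  have o := k.isOrb hS
  have aL : a ∈ ln K (Q : Subgroup H) := eL.ge (k.s4b_mem ha hb).1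
  have p3 : ¬ 3 ∣ p := fun h => by
    have e := (Nat.prime_dvd_prime_iff_eq Nat.prime_three pp).1 h
    refine not_dvd_orb QJ aL.2 ?_
    rw [← o.eq ha, hc, ← e]
    decide
  obtain ⟨T, hT, nf, fx⟩ := s4b_syl (α := α) (LL p X K ⊓ stabilizer H Q)
  have TX : T ≤ X := hT.trans (inf_le_left.trans (LL_le X K))
  have NQ : ∀ g ∈ LL p X K ⊓ stabilizer H Q, g • (Q : Subgroup H) = Q := fun g hg => by
    rw [← syl_smul, show g • Q = Q from hg.2]
  have iL : Iv (LL p X K ⊓ stabilizer H Q) (ln K (Q : Subgroup H)) := iv_iff_fx.2 fun g hg => by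
    rw [smul_ln, o.iv.smul_eq hg.1, NQ g hg]
  have nL : ∀ c ∈ ln K (Q : Subgroup H), ¬ Fx T c := fun c hc' => nf c (by
    have : orb (LL p X K ⊓ stabilizer H Q) c = ln K (Q : Subgroup H) :=
      (iL.orb_subset hc').antisymm fun d hd => by
        obtain ⟨g, hg, e1, e2⟩ := witt QJ ((o.eq hc'.1).le hd.1) hc'.2 hd.2
        exact ⟨g, ⟨hg, e1⟩, e2⟩
    rw [this, eL, l.card])
  have cV : (K \ ln K (Q : Subgroup H)).ncard = 2 * p := by
    rw [Set.ncard_diff (ln_subset _ _), hc, eL, l.card]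
    omega
  have qV : Iv (Q : Subgroup H) (K \ ln K (Q : Subgroup H)) := (o.iv.mono QJ).diff (iv_ln _ _)
  have tV : Iv T (K \ ln K (Q : Subgroup H)) := (o.iv.mono (hT.trans inf_le_left)).diff (iL.mono hT)
  have cO : ∀ u ∈ K \ ln K (Q : Subgroup H), (orb (Q : Subgroup H) u).ncard = p := fun u hu => by
    obtain ⟨n, hn⟩ := orb_syl_card Q u
    have h1 := Set.ncard_le_ncard (qV.orb_subset hu)
    rw [hn, cV] at h1
    rcases n with _ | _ | n
    · obtain ⟨y, hy⟩ := Set.ncard_eq_one.1 hn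
      exact (hu.2 ⟨hu.1, fun g hg => (hy.le (smul_mem_orb hg u)).trans (hy.le (mem_orb_self _ u)).symm⟩).elim
    · rw [hn, zero_add, pow_one]
    · have h2 : 3 * p ≤ p ^ (n + 1 + 1) := by
        rw [pow_succ, pow_succ]
        exact Nat.mul_le_mul_right _ ((show 3 ≤ p by omega).trans (Nat.le_mul_of_pos_left _ (by positivity)))
      omega
  have fin : ∀ u ∈ K \ ln K (Q : Subgroup H), Fx T u →
      (∀ z ∈ K \ ln K (Q : Subgroup H), z ∉ orb (Q : Subgroup H) u → Fx T z) → False := fun u hu fu hz => by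
    have hau : a ≠ u := fun e => hu.2 (e ▸ aL)
    obtain ⟨l', hl'⟩ := k.line a ha u hu.1 hau
    have m := k.s4b_mem ha hu.1
    obtain ⟨x, hx, hxa, hxu⟩ := l'.exists_third le_rfl a u
    have h1 : x ∉ ln K (Q : Subgroup H) := fun e => hu.2 (by
      rw [eL, ← l.two a (eL.le aL) x (eL.le e) hxa.symm, l'.two a m.1 x hx hxa.symm]
      exact m.2)
    have h2 : x ∉ orb (Q : Subgroup H) u := by
      rintro ⟨y, hy, rfl⟩
      exact hxu (k.nc ha hu.1 hau hy (LL_le X K (QJ hy)) (aL.2 y hy) hx)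
    refine nL a aL (k.s4b_fix hS TX hu.1 (hl' hx) hxu.symm fu (hz x ⟨hl' hx, h1⟩ h2) ?_)
    rw [l'.two u m.2 x hx hxu.symm]
    exact m.1
  obtain ⟨u, hu, fu⟩ := fx _ tV (by rw [cV]; omega)
  have tO : Iv T (orb (Q : Subgroup H) u) := iv_iff_fx.2 fun g hg => by rw [smul_orb, NQ g (hT hg), fu g hg]
  have c2 : ((K \ ln K (Q : Subgroup H)) \ orb (Q : Subgroup H) u).ncard = p := by
    rw [Set.ncard_diff (qV.orb_subset hu), cV, cO u hu]
    omega
  obtain ⟨v, hv, fv⟩ := fx _ (tV.diff tO) (by rwa [c2])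
  have e2 := Set.eq_of_subset_of_ncard_le ((qV.diff (iv_orb _ u)).orb_subset hv) (by rw [c2, cO v hv.1])
  have huv : u ≠ v := fun e => hv.2 (e ▸ mem_orb_self _ u)
  obtain ⟨l', hl'⟩ := k.line u hu.1 v hv.1.1 huv
  obtain ⟨w, hw, hwu, hwv⟩ := l'.exists_third le_rfl u v
  have fw := k.s4b_fix hS TX hu.1 hv.1.1 huv fu fv hw
  by_cases h1 : w ∈ orb (Q : Subgroup H) u
  · refine fin v hv.1 fv fun z hz hz' g hg =>
      fix_orb_of_two (cO u hu) (hT hg).2 (fu g hg) h1 hwu (fw g hg) z ?_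
    by_contra h2
    exact hz' (e2.ge ⟨hz, h2⟩)
  · exact fin u hu fu fun z hz hz' g hg => fix_orb_of_two (cO v hv.1) (hT hg).2 (fv g hg)
      (e2.ge ⟨⟨hl' hw, fun e => nL w e fw⟩, h1⟩) hwv (fw g hg) z (e2.ge ⟨hz, hz'⟩)

theorem Cx.s4 (h : Cx p X S) {M : Subgroup H} {δ : ℕ} (l : Line p X S M 1 δ) (hδ : 2 ≤ δ) :
    False := by
  obtain ⟨k, rfl | ⟨hp, rfl⟩⟩ := h.s4a l hδ
  · exact k.not_two h.orb.iv h.odd
  · exact k.not_three hp

end CfsgLib.SyF
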