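import Cfsg.Agent.Lib.SyF.S2
import Cfsg.Agent.Lib.SyF.Js

/-! SYF package S5: no thin lines.  Proofs: docstrings / plans/SYF.md. -/

set_option autoImplicit false

namespace CfsgLib.SyF

open MulAction
open scoped Pointwise

variable {H : Type*} [Group H] [Finite H] {p : ℕ} [Fact p.Prime]
variable {α β : Type*} [MulAction H α] [MulAction H β]

variable [Finite α] {X M : Subgroup H} {S : Set α} {φ : ℕ}

omit [Finite H] [Fact p.Prime] in
theorem Line.ln_pair (l : Line p X S M φ 1) {s b : α} (hs : s ∈ ln S M) (hb : b ∈ ln S M)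
    (hne : s ≠ b) : ln S M = {s, b} ∧ St p X S M = UU p X S s M ∪ UU p X S b M := by
  have e : ln S M = {s, b} :=
    (Set.eq_of_subset_of_ncard_le (Set.insert_subset hs (Set.singleton_subset_iff.2 hb))
      (by rw [l.card, Set.ncard_pair hne])).symm
  refine ⟨e, Set.Subset.antisymm ?_ ?_⟩
  · rintro u ⟨c, hc, N, hN, hu⟩
    rw [e] at hc
    rcases hc with rfl | rfl
    · by_cases k : u = c
      · exact Or.inr ⟨k ▸ hne, M, mem_orb_self _ M, k ▸ hs⟩
      · exact Or.inl ⟨k, N, hN, hu⟩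
    · by_cases k : u = c
      · exact Or.inl ⟨k ▸ hne.symm, M, mem_orb_self _ M, k ▸ hb⟩
      · exact Or.inr ⟨k, N, hN, hu⟩
  · rintro u (⟨-, N, hN, hu⟩ | ⟨-, N, hN, hu⟩)
    · exact ⟨s, hs, N, hN, hu⟩
    · exact ⟨b, hb, N, hN, hu⟩

/-- `one_of_tt`, `cntU`. -/
theorem Cx.oneU (h : Cx p X S) (l : Line p X S M φ 1) {s : α} (hs : s ∈ ln S M) :
    One p (LL p X s) (UU p X S s M) φ := by
  have hS := h.orb.iv
  obtain ⟨Q, hQ⟩ := h.sy_LL hs.1
  obtain ⟨-, h1, h2, -⟩ := l.cntU hS hs hQ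
  have := one_of_tt (gn_LL X s) hQ (iv_UU hS s M) (fun y hy => h.red.nf hs.1 y (UU_subset s M hy)) h2
  rwa [h1, one_mul] at this

/-- `VV s M`, `VV b M` are orbits of `M` (`one_of_tt`, `cntV`); if they meet they are equal and
`St M = {s, b} ∪ VV` is a Jordan set (`js_mk` with `Q ≤ M`, `iv_st`). -/
theorem Cx.bip (h : Cx p X S) (thin : ∀ M φ δ, Line p X S M φ δ → δ = 1) (l : Line p X S M φ 1)
    {s b : α} (hs : s ∈ ln S M) (hb : b ∈ ln S M) (hne : s ≠ b) :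
    Disjoint (UU p X S s M) (UU p X S b M) := by
  have hS := h.orb.iv
  rw [Set.disjoint_left]
  intro u u1 u2
  obtain ⟨e, -⟩ := l.ln_pair hs hb hne
  have uM : u ∉ ln S M := by
    rw [e]; exact fun k => k.elim u1.1 u2.1
  obtain ⟨Q, hQ⟩ := l.sy
  have ob : ∀ {c}, c ∈ ln S M → IsOrb M (VV p X S c M) := fun hc =>
    (one_of_tt l.gn hQ (l.iv_VV hS hc).2.1 (l.iv_VV hS hc).2.2 (l.cntV hS hc hQ).2.1).orb
  have eV : VV p X S b M = VV p X S s M := ((ob hb).eq ⟨u2, uM⟩).trans ((ob hs).eq ⟨u1, uM⟩).symm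
  have eS : St p X S M = ln S M ∪ VV p X S s M := by
    ext x
    rw [l.mem_St hS]
    refine or_congr_right ⟨?_, fun k => ⟨s, hs, k⟩⟩
    rintro ⟨c, hc, k⟩
    rw [e] at hc
    rcases hc with rfl | rfl
    · exact k
    · exact eV ▸ k
  refine h.js thin (h.js_mk (St_subset M) (fun c hc => h.iv_st l hc) (hQ.trans l.le)
    ((h.iv_st l (ln_subset_St M hs)).mono (hQ.trans (l.le_LL hs))) ?_
    (two_le_ff_iff.2 ⟨s, ln_subset_St M hs, b, ln_subset_St M hb, hne, hs.2.mono hQ, hb.2.mono hQ⟩))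
  rw [eS, tt_union (B := VV p X S s M) Set.disjoint_sdiff_right ((iv_ln S M).mono hQ) ((l.iv_VV hS hs).2.1.mono hQ),
    (ff_of_fx fun a (ha : a ∈ ln S M) => ha.2.mono hQ).2.1, (l.cntV hS hs hQ).2.1]

/-- For `c ∈ A = UU b M`, `c ∈ ln N`, `N ∈ pen b M`: `St M = St N = A ∪ UU c N`, so `B = UU s M ⊆ UU c N`,
equal by cardinality; `LL X c` stabilises `B` and `St M`, hence `A`. -/
theorem Cx.bip_iv (h : Cx p X S) (thin : ∀ M φ δ, Line p X S M φ δ → δ = 1)
    (l : Line p X S M φ 1) {s b : α} (hs : s ∈ ln S M) (hb : b ∈ ln S M) (hne : s ≠ b) {c : α}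
    (hc : c ∈ UU p X S b M) : Iv (LL p X c) (UU p X S s M) ∧ Iv (LL p X c) (UU p X S b M) := by
  have hS := h.orb.iv
  have dj := h.bip thin l hs hb hne
  have eS := (l.ln_pair hs hb hne).2
  have cS : c ∈ St p X S M := UU_subset_St hb hc
  obtain ⟨cb, N, hN, cN⟩ := hc
  obtain ⟨lN, bN⟩ := l.pen_mem hS hb hN
  have eN := (lN.ln_pair cN bN cb).2
  rw [h.st_pen l hb hN, UU_eq hN, eS] at eN
  obtain ⟨Q, hQ⟩ := h.sy_LL hs.1
  obtain ⟨Q', hQ'⟩ := h.sy_LL cN.1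
  have e : UU p X S s M = UU p X S c N := Set.eq_of_subset_of_ncard_le
    (fun x hx => (eN.le (Or.inl hx)).resolve_right (Set.disjoint_left.1 dj hx))
    (by rw [(l.cntU hS hs hQ).1, (lN.cntU hS cN hQ').1])
  have i1 : Iv (LL p X c) (UU p X S s M) := e ▸ iv_UU hS c N
  refine ⟨i1, ?_⟩
  have := (h.iv_st l cS).diff i1
  rwa [eS, Set.union_sdiff_cancel_left (Set.disjoint_iff.1 dj)] at this

/-- `UU b M` is a Jordan set. -/
theorem Cx.s5_two (h : Cx p X S) (thin : ∀ M φ δ, Line p X S M φ δ → δ = 1)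
    (l : Line p X S M φ 1) (hφ : 2 ≤ φ) : False := by
  have hS := h.orb.iv
  obtain ⟨b, hb⟩ : (ln S M).Nonempty := (Set.ncard_pos (Set.toFinite _)).1 (by rw [l.card]; omega)
  obtain ⟨s, hs, hne⟩ := l.exists_ne b
  obtain ⟨Q, hQ⟩ := h.sy_LL hb.1
  obtain ⟨-, h1, h2, -⟩ := l.cntU hS hb hQ
  exact h.js thin (h.js_mk (fun x hx => (UU_subset b M hx).1) (fun c hc => (h.bip_iv thin l hs hb hne hc).2)
    (hQ.trans (LL_le X b)) ((iv_UU hS b M).mono hQ) h2 (by omega))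

/-- `φ = 1`, `Q ≤ M`: `E(St M \ {s}) = (p-2) + (p-1)`.  For `x ∈ S \ St M` the orbit `O` of `x` under
`LL X s` has `E(O) ≤ 0` (`exc1`), so `(s,x)` is small (`heavy`), `O = UU s N` for the thin line
`N = L2 s x` (`oneU`), `E(O) = p - 1 - ψ`, `ψ ≥ 2`, against `s5_two`.  So `S = St M`, every Sylow of `X`
fixes a point (`exists_fx`, `two_le_ff`) and stabilises `UU b M` (`bip_iv` both ways), so `X` does
(`Gn.iv_iff`), but `b ∉ UU b M ∋ s`. -/
theorem Cx.s5 (h : Cx p X S) (thin : ∀ M φ δ, Line p X S M φ δ → δ = 1) (l : Line p X S M φ 1) :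
    False := by
  have hS := h.orb.iv
  obtain rfl : φ = 1 := by
    have := l.f1
    by_contra k
    exact h.s5_two thin l (by omega)
  obtain ⟨b, hb⟩ : (ln S M).Nonempty := (Set.ncard_pos (Set.toFinite _)).1 (by rw [l.card]; omega)
  obtain ⟨s, hs, hne⟩ := l.exists_ne b
  obtain ⟨Q, hQ⟩ := l.sy
  have Qs := hQ.trans (l.le_LL hs)
  have Qb := hQ.trans (l.le_LL hb)
  have eS := (l.ln_pair hs hb hne).2
  have sS := ln_subset_St (p := p) (X := X) M hs
  have iS := h.iv_st l sS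
  have p3 := h.three
  have e1 : ex p (Q : Subgroup H) (St p X S M \ {s}) = 2 * (p : ℤ) - 3 := by
    rw [(del_fx sS (hs.2.mono hQ)).2.2.1, eS, ex_union (h.bip thin l hs hb hne) ((iv_UU hS s M).mono Qs)
      ((iv_UU hS b M).mono Qb), (l.cntU hS hs Qs).2.2.2, (l.cntU hS hb Qb).2.2.2]
    push_cast; ring
  have all : S ⊆ St p X S M := fun x hx => by
    by_contra k
    have sx : s ≠ x := fun e => k (e ▸ sS)
    have i1 := iS.diff (LL_fx (p := p) X s).iv
    have h1 := h.exc1 hs.1 Qs (Set.union_subset (Set.sdiff_subset_sdiff_left (St_subset M)) (h.orb_sub hs.1 hx sx))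
      (i1.union (iv_orb _ x))
    have dj : Disjoint (St p X S M \ {s}) (SyF.orb (LL p X s) x) :=
      Set.disjoint_left.2 fun y y1 ⟨g, hg, y2⟩ => k ((iS.mem_iff hg).1 (y2 ▸ y1.1))
    rw [ex_union dj (i1.mono Qs) ((iv_orb _ x).mono Qs), e1] at h1
    by_cases sm : ∀ ψ, ¬ Small p X s x ψ
    · have := (h.heavy hs.1 hx sx sm Qs).1
      omega
    push Not at sm
    obtain ⟨ψ, sm⟩ := sm
    obtain ⟨δ, lN⟩ := h.line hs.1 hx sx sm
    obtain rfl := thin _ _ _ lN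
    have o := h.oneU lN ⟨hs.1, L2_fx1 X s x⟩
    have h2 := (o.tt_eq Qs).2
    rw [o.orb.eq (a := x) ⟨sx.symm, _, self_mem_pen s _, hx, L2_fx2 X s x⟩] at h2
    exact h.s5_two thin lN (by omega)
  have iU : Iv X (UU p X S b M) := h.gn.iv_iff.2 fun Q' hQ' => by
    obtain ⟨c, hc, fc⟩ := ff_pos_iff.1 (le_trans one_le_two (h.two_le_ff hQ'))
    have := all hc
    rw [eS] at this
    refine Iv.mono ?_ (le_LL.2 ⟨hQ', fc⟩)
    rcases this with k | k
    · exact (h.bip_iv thin l hb hs hne.symm k).1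
    · exact (h.bip_iv thin l hs hb hne k).2
  obtain ⟨g, hg, e⟩ := h.orb.tr hs.1 hb.1
  exact (iU g hg s ⟨hne, M, self_mem_pen b M, hs⟩).1 e

end CfsgLib.SyF
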