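import Cfsg.Agent.Lib.SyF.S3
import Cfsg.Agent.Lib.SyF.S4b
import Cfsg.Agent.Lib.SyF.S5

/-! SYF: Lemma S, the main induction, and the inequality f ≤ (p-1) t. -/

set_option autoImplicit false

namespace CfsgLib.SyF

open MulAction
open scoped Pointwise

variable {H : Type*} [Group H] [Finite H] {p : ℕ} [Fact p.Prime]
variable {α β : Type*} [MulAction H α] [MulAction H β]

section LemS

variable [Finite α] {X : Subgroup H} {S : Set α}

theorem Cx.thin (h : Cx p X S) (M : Subgroup H) (φ δ : ℕ) (l : Line p X S M φ δ) : δ = 1 := by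
  by_contra hδ
  have h2 : 2 ≤ δ := by have := l.d1; omega
  rcases Nat.lt_or_ge φ 2 with hφ | hφ
  · obtain rfl : φ = 1 := by have := l.f1; omega
    exact h.s4 l h2
  · exact h.s3 l h2 hφ

theorem Cx.lemmaS (h : Cx p X S) {s : α} (hs : s ∈ S) :
    IsOrb (LL p X s) (S \ {s}) ∧ Red p (LL p X s) (S \ {s}) := by
  refine h.of_no_small hs fun b hb hne φ hsm => ?_
  obtain ⟨δ, l⟩ := h.line hs hb hne hsm
  obtain rfl := h.thin _ _ _ l
  exact h.s5 h.thin l

end LemS

omit [Finite H] [Fact p.Prime] in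
theorem TH.mono {m n : ℕ} (h : TH H p n) (hm : m ≤ n) : TH H p m :=
  fun X Q Y h1 h2 h3 h4 h5 h6 h7 => h X Q Y h1 h2 h3 h4 h5 (h6.trans_le hm) h7

theorem th_step (hp : p ≠ 2) {n : ℕ} (ih : TH H p n) : TH H p (n + 1) := by
  intro X Q Y hX hQ hO hR hN hc he
  by_contra ht
  have hp2 := (Fact.out : p.Prime).two_le
  have ht1 := tt_pos hX hQ hO.iv hN hO.nonempty
  have ht2 : 2 ≤ tt p (Q : Subgroup H) Y := by omega
  let C : ℕ → Subgroup H → Set (Subgroup H) → Prop := fun j X Y =>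
    Gn p X ∧ Sy p X ∧ (1 ≤ j → IsOrb X Y ∧ Red p X Y ∧ Y.ncard ≤ n ∧
      ∀ Q : Sylow p H, (Q : Subgroup H) ≤ X →
        2 ≤ tt p (Q : Subgroup H) Y ∧ ex p (Q : Subgroup H) Y ≤ 2 * (p : ℤ) - 2 - j)
  have key := chain (p := p) C (fun j X Y h => h.2.1) (by
    rintro j X Y ⟨gX, ⟨Q, hQ⟩, h⟩ s hs
    obtain ⟨hO, hR, hc, hq⟩ := h (by omega)
    have hf : 1 ≤ ff (Q : Subgroup H) Y := by
      obtain ⟨a, b⟩ := hq Q hQ
      unfold ex at b
      have : ((p : ℤ) - 1) * 2 ≤ ((p : ℤ) - 1) * tt p (Q : Subgroup H) Y :=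
        mul_le_mul_of_nonneg_left (by exact_mod_cast a) (by omega)
      push_cast at b
      omega
    refine ⟨gn_LL X s, hO.sy_LL hQ hf hs, fun hj => ?_⟩
    have cx : Cx p X Y := ⟨hp, gX, ⟨Q, hQ⟩, hO, hR, fun Q hQ => (hq Q hQ).1, fun Q hQ => by
      have := (hq Q hQ).2; push_cast at this; omega, ih.mono hc⟩
    obtain ⟨h1, h2⟩ := cx.lemmaS hs
    refine ⟨h1, h2, (Set.ncard_le_ncard Set.sdiff_subset).trans hc, fun Q' hQ' => ?_⟩
    obtain ⟨a, b⟩ := hq Q' (le_LL.1 hQ').1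
    obtain ⟨-, e1, e2, -⟩ := del_fx (p := p) hs (le_LL.1 hQ').2
    rw [e1, e2]
    push_cast at b
    exact ⟨a, by omega⟩) p X Y ⟨hX, ⟨Q, hQ⟩, fun _ => ⟨hO, hR, by omega, fun Q' hQ' => by
      obtain ⟨-, e1, e2⟩ := indep hO.iv hQ' hQ
      rw [e1, e2]
      exact ⟨ht2, by omega⟩⟩⟩
  have hall := nofull (hO.iv.mono hQ) fun T hT hc => by
    obtain ⟨Q0, -, h0⟩ := key T hT hc
    exact ⟨Q0, h0⟩
  have := (ff_of_fx (p := p) hall).2.1
  omega

theorem th_all (hp : p ≠ 2) (n : ℕ) : TH H p n := by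
  induction n with
  | zero => intro X Q Y _ _ _ _ _ h; omega
  | succ n ih => exact th_step hp ih

theorem mh_step_two (hp : p = 2) {n : ℕ} (ih : MH H p n) : MH H p (n + 1) := by
  intro X Q Y hX hQ hO hR hN hc
  by_contra he
  have hm : MM H p (Subgroup H) n := ih.mm
  have ht1 := tt_pos hX hQ hO.iv hN hO.nonempty
  have hf : 1 ≤ ff (Q : Subgroup H) Y := by
    unfold ex at he
    subst hp
    push_cast at he
    omega
  have pair : ∀ s ∈ Y, ∀ b ∈ Y, s ≠ b → Sy p (L2 p X s b) := by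
    intro s hs b hb hne
    obtain ⟨Q', hQ'⟩ := hO.sy_LL hQ hf hs
    obtain ⟨-, -, e2, e3⟩ := del_fx (p := p) hs (le_LL.1 hQ').2
    have e4 := (indep hO.iv (le_LL.1 hQ').1 hQ).2.2
    have hi : Iv (LL p X s) (Y \ {s}) := (hO.iv.mono (LL_le X s)).diff (LL_fx X s).iv
    have hb' : b ∈ Y \ {s} := ⟨hb, fun h => hne (Set.mem_singleton_iff.1 h).symm⟩
    have hsub := hi.orb_subset hb'
    have hnf := hR.nf hs
    have e5 := ex_diff hsub (hi.mono hQ') ((iv_orb _ b).mono hQ')
    have e6 := hm _ Q' ((Y \ {s}) \ orb (LL p X s) b) (gn_LL X s) hQ' (hi.diff (iv_orb _ b))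
      (fun y hy => hnf y hy.1) (by
        have := Set.ncard_le_ncard (Set.sdiff_subset : (Y \ {s}) \ orb (LL p X s) b ⊆ Y \ {s})
        omega)
    have e7 := tt_pos (gn_LL X s) hQ' (iv_orb _ b) (fun y hy => hnf y (hsub hy))
      ⟨b, mem_orb_self _ b⟩
    have e8 : 1 ≤ ff (Q' : Subgroup H) (orb (LL p X s) b) := by
      have e9 : ex p (Q' : Subgroup H) (orb (LL p X s) b) ≤ 0 := by omega
      unfold ex at e9
      subst hp
      push_cast at e9
      omega
    exact (isOrb_orb _ b).sy_LL hQ' e8 (mem_orb_self _ b)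
  have hall := nofull (hO.iv.mono hQ) fun T hT hc => by
    rcases Nat.lt_or_ge T.card 2 with h2 | h2
    · obtain ⟨s, hs⟩ := Finset.card_le_one_iff_subset_singleton.1 (Nat.lt_succ_iff.1 h2)
      by_cases hsT : s ∈ T
      · obtain ⟨Q', hQ'⟩ := hO.sy_LL hQ hf (hT hsT)
        exact ⟨Q', fun c hc => by rw [Finset.mem_singleton.1 (hs hc)]; exact (le_LL.1 hQ').2⟩
      · exact ⟨Q, fun c hc => absurd (Finset.mem_singleton.1 (hs hc) ▸ hc) hsT⟩
    · classical
      obtain ⟨s, b, hne, rfl⟩ := Finset.card_eq_two.1 (by omega : T.card = 2)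
      obtain ⟨Q', hQ'⟩ := pair s (hT (by simp)) b (hT (by simp)) hne
      refine ⟨Q', fun c hc => ?_⟩
      rcases Finset.mem_insert.1 hc with rfl | hc
      · exact (le_L2.1 hQ').2.1
      · rw [Finset.mem_singleton.1 hc]; exact (le_L2.1 hQ').2.2
  have := (ff_of_fx (p := p) hall).2.1
  omega

theorem mh_all (n : ℕ) : MH H p n := by
  by_cases hp : p = 2
  · induction n with
    | zero => intro X Q Y _ _ _ _ _ h; omega
    | succ n ih => exact mh_step_two hp ih
  · exact (th_all hp n).mh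

/-- The main inequality `f ≤ (p - 1) t`. -/
theorem main [Finite α] {X : Subgroup H} (hX : Gn p X) {Q : Sylow p H}
    (hQ : (Q : Subgroup H) ≤ X) {Y : Set α} (hY : Iv X Y) (hn : NF X Y) :
    ff (Q : Subgroup H) Y ≤ (p - 1) * tt p (Q : Subgroup H) Y := by
  have := (mh_all (H := H) (p := p) (Y.ncard + 1)).mm X Q Y hX hQ hY hn (Nat.lt_succ_self _)
  have hp := (Fact.out : p.Prime).one_le
  unfold ex at this
  zify [hp]
  omega

omit [Finite H] [Fact p.Prime] in
/-- A group generated by its `p`-elements. -/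
theorem gn_top (hgen : Subgroup.closure {g : H | ∃ k : ℕ, orderOf g = p ^ k} = ⊤) :
    Gn p (⊤ : Subgroup H) := by
  refine le_antisymm le_top ?_
  rw [← hgen, Subgroup.closure_le]
  rintro g ⟨k, hk⟩
  have hg : IsPGroup p (Subgroup.zpowers g) :=
    IsPGroup.of_card (n := k) (by rw [Nat.card_zpowers, hk])
  obtain ⟨Q, hQ⟩ := hg.exists_le_sylow
  rw [hgen]
  exact (le_GG.2 le_top : (Q : Subgroup H) ≤ GG p ⊤) (hQ (Subgroup.mem_zpowers g))

theorem card_sylow_le (K : Subgroup H) {P : Sylow p H} (hP : (P : Subgroup H) ≤ K) :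
    Nat.card (Sylow p K) ≤ nu p K := by
  classical
  have hex : ∀ R : Sylow p K, ∃ Q : Sylow p H, (Q : Subgroup H) ≤ K ∧
      (Q : Subgroup H) = (R : Subgroup K).map K.subtype := by
    intro R
    obtain ⟨g, hg⟩ := MulAction.exists_smul_eq K (P.subtype hP) R
    refine ⟨(g : H) • P, smul_le_of_le g.2 hP, ?_⟩
    rw [← hg]
    ext x
    rw [syl_smul, mem_smul_sub, Subgroup.mem_map]
    constructor
    · intro hx
      have hxK : x ∈ K := by
        have := K.mul_mem (K.mul_mem g.2 (hP hx)) (K.inv_mem g.2)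
        simpa [mul_assoc] using this
      refine ⟨⟨x, hxK⟩, ?_, rfl⟩
      rw [syl_smul, mem_smul_sub]
      exact hx
    · rintro ⟨y, hy, rfl⟩
      rw [syl_smul, mem_smul_sub] at hy
      exact hy
  choose f hf using hex
  rw [nu, ← Nat.card_coe_set_eq]
  refine Nat.card_le_card_of_injective
    (fun R => (⟨f R, (hf R).1⟩ : {Q : Sylow p H | (Q : Subgroup H) ≤ K})) fun R R' h => ?_
  have h1 : f R = f R' := congrArg Subtype.val h
  have h2 := (hf R).2.symm.trans ((congrArg _ h1).trans (hf R').2)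
  exact Sylow.ext (Subgroup.map_injective K.subtype_injective h2)

theorem sylow_ratio (hgen : Subgroup.closure {g : H | ∃ k : ℕ, orderOf g = p ^ k} = ⊤)
    (K : Subgroup H) (hK : K ≠ ⊤) (P : Sylow p H) (hP : (P : Subgroup H) ≤ K) :
    (2 * p - 1) * Nat.card (Sylow p K) ≤ (p - 1) * Nat.card (Sylow p H) := by
  have hX := gn_top hgen
  let b : H ⧸ K := ((1 : H) : H ⧸ K)
  have hst : stabilizer H b = K := MulAction.stabilizer_quotient K
  have hb : ¬ Fx (⊤ : Subgroup H) b := fun h => hK (top_le_iff.1 (hst ▸ fx_iff_le.1 h))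
  have h1 := main hX (le_top : (P : Subgroup H) ≤ ⊤) (iv_orb (⊤ : Subgroup H) b) (nf_orb hb)
  have h2 := ratio (H := H) (le_top : (P : Subgroup H) ≤ ⊤) b
  have h3 := card_eq (Q := P) ((iv_orb (⊤ : Subgroup H) b).mono (le_top : (P : Subgroup H) ≤ ⊤))
  have h4 : nu p (LL p (⊤ : Subgroup H) b) = nu p K := by
    simp only [nu, le_LL, fx_iff_le, hst, le_top, true_and]
  have h5 : nu p (⊤ : Subgroup H) = Nat.card (Sylow p H) := by
    simp only [nu, le_top, Set.ofPred_true, Set.ncard_univ]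
  have h6 := card_sylow_le K hP
  have h7 : 0 < (orb (⊤ : Subgroup H) b).ncard :=
    (Set.ncard_pos).2 ⟨b, mem_orb_self (⊤ : Subgroup H) b⟩
  rw [h4, h5] at h2
  obtain ⟨q, hq⟩ : ∃ q, p = q + 1 := ⟨p - 1, by have := (Fact.out : p.Prime).one_le; omega⟩
  have e1 : 2 * p - 1 = 2 * q + 1 := by omega
  have e2 : p - 1 = q := by omega
  rw [e2] at h1
  rw [e1, e2]
  generalize (orb (⊤ : Subgroup H) b).ncard = n at *
  generalize ff (P : Subgroup H) (orb (⊤ : Subgroup H) b) = f at *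
  generalize tt p (P : Subgroup H) (orb (⊤ : Subgroup H) b) = t at *
  refine (Nat.mul_le_mul_left _ h6).trans (Nat.le_of_mul_le_mul_left ?_ h7)
  have h8 : (2 * q + 1) * f ≤ q * n := by rw [h3, hq]; nlinarith
  calc n * ((2 * q + 1) * nu p K) = (2 * q + 1) * f * Nat.card (Sylow p H) := by
        rw [mul_left_comm, h2]; ring
    _ ≤ q * n * Nat.card (Sylow p H) := Nat.mul_le_mul_right _ h8
    _ = n * (q * Nat.card (Sylow p H)) := by ring

/-- The number of orbits of a Sylow is at most `f + t`. -/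
theorem card_orbits_le [Finite α] (P : Sylow p H) :
    Nat.card (orbitRel.Quotient ↥(P : Subgroup H) α) ≤
      ff (P : Subgroup H) (Set.univ : Set α) + tt p (P : Subgroup H) (Set.univ : Set α) := by
  let π : α → orbitRel.Quotient ↥(P : Subgroup H) α := Quotient.mk _
  have hp := (Fact.out : p.Prime).pos
  have hiv : Iv (P : Subgroup H) (Set.univ : Set α) := fun _ _ _ _ => Set.mem_univ _
  have hcov : (Set.univ : Set (orbitRel.Quotient ↥(P : Subgroup H) α)) =
      π '' ln Set.univ (P : Subgroup H) ∪ π '' (Set.univ \ ln Set.univ (P : Subgroup H)) := by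
    rw [← Set.image_union, Set.union_sdiff_cancel (ln_subset _ _),
      Set.image_univ_of_surjective Quotient.mk_surjective]
  have h1 := dcount_le (π '' (Set.univ \ ln Set.univ (P : Subgroup H)))
    (Set.univ \ ln Set.univ (P : Subgroup H)) (fun a b => π b = a) p 1 (by
      rintro _ ⟨y, hy, rfl⟩
      have hn : ¬ Fx (P : Subgroup H) y := fun h => hy.2 ⟨Set.mem_univ _, h⟩
      have e1 := tt_pos (gn_syl P) le_rfl (iv_orb _ y) (nf_orb hn) ⟨y, mem_orb_self _ y⟩
      have e2 := card_eq (iv_orb (P : Subgroup H) y)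
      have e3 : p ≤ (orb (P : Subgroup H) y).ncard := by rw [e2]; nlinarith
      refine e3.trans (Set.ncard_le_ncard fun z hz => ⟨⟨Set.mem_univ _, fun h => nf_orb hn z hz h.2⟩, ?_⟩)
      obtain ⟨g, hg, rfl⟩ := hz
      exact Quotient.sound ⟨⟨g, hg⟩, rfl⟩) (by
      intro b _
      rw [Set.ncard_le_one_iff]
      intro x y hx hy
      exact hx.2.symm.trans hy.2)
  have h2 : (π '' (Set.univ \ ln Set.univ (P : Subgroup H))).ncard ≤
      tt p (P : Subgroup H) (Set.univ : Set α) := by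
    rw [tt, Nat.le_div_iff_mul_le hp]
    simpa using h1
  rw [← Set.ncard_univ, hcov]
  exact (Set.ncard_union_le _ _).trans (Nat.add_le_add (Set.ncard_image_le) h2)

theorem orbit_count [FaithfulSMul H α] [Finite α] (htrans : IsPretransitive H α)
    (hpG : p ∣ Nat.card H) (P : Sylow p H) :
    (2 * p - 1) * Nat.card (orbitRel.Quotient ↥(P : Subgroup H) α) ≤ p * Nat.card α := by
  have hP : (P : Subgroup H) ≤ GG p ⊤ := le_GG.2 le_top
  have hn : NF (GG p (⊤ : Subgroup H)) (Set.univ : Set α) := by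
    intro y _ hy
    apply P.ne_bot_of_dvd_card hpG
    rw [eq_bot_iff]
    intro x hx
    rw [Subgroup.mem_bot]
    refine FaithfulSMul.eq_of_smul_eq_smul (α := α) fun z => ?_
    obtain ⟨g, rfl⟩ := htrans.exists_smul_eq y z
    have := (fx_smul (g := g)).2 hy
    rw [smul_GG, smul_self_sub (Subgroup.mem_top g)] at this
    rw [one_smul]
    exact this x (hP hx)
  have hiv : Iv (GG p (⊤ : Subgroup H)) (Set.univ : Set α) := fun _ _ _ _ => Set.mem_univ _
  have h1 := main (gn_GG ⊤) hP hiv hn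
  have h2 := card_eq (hiv.mono hP)
  have h3 := card_orbits_le (α := α) P
  rw [Set.ncard_univ] at h2
  obtain ⟨q, hq⟩ : ∃ q, p = q + 1 := ⟨p - 1, by have := (Fact.out : p.Prime).one_le; omega⟩
  have e1 : 2 * p - 1 = 2 * q + 1 := by omega
  have e2 : p - 1 = q := by omega
  rw [e2] at h1
  rw [e1, h2]
  generalize ff (P : Subgroup H) (Set.univ : Set α) = f at *
  generalize tt p (P : Subgroup H) (Set.univ : Set α) = t at *
  refine (Nat.mul_le_mul_left _ h3).trans ?_
  rw [hq]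
  nlinarith [Nat.mul_le_mul_left q h1]

end CfsgLib.SyF
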