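import Cfsg.Agent.Lib.SyF.Cnt

/-! SYF package ONE: pencils and orbits with t = 1.  Proofs: docstrings / plans/SYF.md. -/

set_option autoImplicit false

namespace CfsgLib.SyF

open MulAction
open scoped Pointwise

variable {H : Type*} [Group H] [Finite H] {p : ℕ} [Fact p.Prime]
variable {α β : Type*} [MulAction H α] [MulAction H β]

/-- Members of the orbit of `M ≤ Z`. -/
theorem orbSub_mem {Z M N : Subgroup H} (hM : Gn p M) (hs : Sy p M) (hZ : M ≤ Z)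
    (hN : N ∈ orb Z M) : Gn p N ∧ Sy p N ∧ N ≤ Z ∧ LL p Z N = N := by
  obtain ⟨g, hg, rfl⟩ := hN
  have h1 := hM.smul g
  have h2 := hs.smul g
  have h3 := smul_le_of_le hg hZ
  exact ⟨h1, h2, h3, le_antisymm (((gn_LL _ _).fx_sub h2).1 (LL_fx _ _)) ((h1.le_LL_sub h2).2 ⟨h3, le_rfl⟩)⟩

/-- The orbit of `M ≤ Z` is reduced (`N ≤ N'` conjugate gives equality). -/
theorem orbSub_red {Z M : Subgroup H} (hM : Gn p M) (hs : Sy p M) (hZ : M ≤ Z) :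
    Red p Z (orb Z M) := by
  intro a ha b hb h
  obtain ⟨h1, -, -, h2⟩ := orbSub_mem hM hs hZ ha
  rw [h2, h1.fx_sub (orbSub_mem hM hs hZ hb).2.1] at h
  obtain ⟨g, -, rfl⟩ := (isOrb_orb Z M).tr ha hb
  exact (eq_of_le_smul h).symm

/-- If `Z` moves `b` it does not normalise `LL Z b`. -/
theorem pencil_nf {Z : Subgroup H} (hZ : Gn p Z) {b : α} (hs : Sy p (LL p Z b)) (hb : ¬ Fx Z b) :
    NF Z (orb Z (LL p Z b)) := by
  exact nf_orb fun h => hb ((LL_fx Z b).mono ((hZ.fx_sub hs).1 h))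

variable [Finite α]

/-- PENCIL: `c ↦ LL Z c` maps the orbit of `b` onto the pencil with constant fibres (`fib`;
`Q` fixes `c` iff `Q ≤ LL Z c` iff `Q` normalises `LL Z c`). -/
theorem pencil {Z : Subgroup H} {b : α} (hs : Sy p (LL p Z b)) :
    ∃ n : ℕ, 1 ≤ n ∧ (n = 1 → Red p Z (orb Z b)) ∧
      (orb Z b).ncard = n * (orb Z (LL p Z b)).ncard ∧
      ∀ Q : Sylow p H, (Q : Subgroup H) ≤ Z →
        ff (Q : Subgroup H) (orb Z b) = n * ff (Q : Subgroup H) (orb Z (LL p Z b)) ∧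
        tt p (Q : Subgroup H) (orb Z b) = n * tt p (Q : Subgroup H) (orb Z (LL p Z b)) ∧
        ex p (Q : Subgroup H) (orb Z b) = n * ex p (Q : Subgroup H) (orb Z (LL p Z b)) := by
  have hπ : ∀ a ∈ orb Z b, LL p Z a ∈ orb Z (LL p Z b) := by
    rintro _ ⟨g, hg, rfl⟩
    exact ⟨g, hg, smul_LL hg b⟩
  have hn : ∀ N ∈ orb Z (LL p Z b), {a | a ∈ orb Z b ∧ LL p Z a = N}.ncard =
      {a | a ∈ orb Z b ∧ LL p Z a = LL p Z b}.ncard := by
    rintro _ ⟨g, hg, rfl⟩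
    rw [← Set.ncard_smul_set g {a | a ∈ orb Z b ∧ LL p Z a = LL p Z b}]
    congr 1
    ext a
    rw [Set.mem_smul_set_iff_inv_smul_mem]
    simp only [Set.mem_ofPred_eq]
    rw [(iv_orb Z b).mem_iff (Z.inv_mem hg), ← smul_LL (Z.inv_mem hg), inv_smul_eq_iff]
  refine ⟨{a | a ∈ orb Z b ∧ LL p Z a = LL p Z b}.ncard,
    (Set.ncard_pos (Set.toFinite _)).2 ⟨b, mem_orb_self Z b, rfl⟩, fun h1 a ha c hc hf => ?_,
    card_fib _ _ (fun a => LL p Z a) _ hπ hn, fun Q hQ => (fib ((iv_orb Z b).mono hQ) ((iv_orb Z _).mono hQ)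
      (fun a => LL p Z a) _ hπ hn fun a ha => ?_).2⟩
  · have h2 : LL p Z a ≤ LL p Z c := (gn_LL Z a).le_LL.2 ⟨LL_le Z a, hf⟩
    obtain ⟨g, hg, rfl⟩ := (isOrb_orb Z b).tr ha hc
    rw [← smul_LL hg] at h2
    have h3 := eq_of_le_smul h2
    rw [smul_LL hg] at h3
    exact (Set.ncard_le_one_iff (Set.toFinite _)).1 ((hn _ (hπ a ha)).trans h1).le ⟨ha, rfl⟩ ⟨hc, h3⟩
  · rw [(gn_syl Q).fx_sub (orbSub_mem (gn_LL Z b) hs (LL_le Z b) (hπ a ha)).2.1, le_LL]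
    exact ⟨fun h => ⟨hQ, h⟩, And.right⟩

/-- The inequality for all invariant sets follows from reduced orbits on subgroups
(`ex_nonneg_of_orb`; an orbit with `ff = 0` is trivial, else `pencil`). -/
theorem MH.mm {n : ℕ} (h : MH H p n) : MM H p α n := by
  intro X Q Y hX hQ hY hn hc
  refine ex_nonneg_of_orb hQ hY fun y hy => ?_
  rcases Nat.eq_zero_or_pos (ff (Q : Subgroup H) (orb X y)) with h0 | h0
  · have := (Fact.out : p.Prime).one_le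
    rw [ex, h0, Nat.cast_zero, sub_zero]
    exact mul_nonneg (by omega) (Nat.cast_nonneg _)
  · have hs := (isOrb_orb X y).sy_LL hQ h0 (mem_orb_self X y)
    obtain ⟨m, m1, -, h1, h2⟩ := pencil hs
    rw [(h2 Q hQ).2.2]
    refine mul_nonneg (Nat.cast_nonneg _) (h X Q _ hX hQ (isOrb_orb _ _) (orbSub_red (gn_LL X y) hs (LL_le X y))
      (pencil_nf hX hs (hn y hy)) ?_)
    have h3 := Set.ncard_le_ncard (hY.orb_subset hy) (Set.toFinite _)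
    exact lt_of_le_of_lt ((Nat.le_mul_of_pos_left _ m1).trans (h1 ▸ h3)) hc

theorem One.tt_eq {X : Subgroup H} {Y : Set α} {φ : ℕ} (h : One p X Y φ) {Q : Sylow p H}
    (hQ : (Q : Subgroup H) ≤ X) :
    tt p (Q : Subgroup H) Y = 1 ∧ ex p (Q : Subgroup H) Y = (p : ℤ) - 1 - φ := by
  have h1 := card_eq (h.orb.iv.mono hQ)
  rw [h.card, h.fix Q hQ, add_comm, Nat.add_right_inj] at h1
  have h2 : tt p (Q : Subgroup H) Y = 1 :=
    Nat.eq_of_mul_eq_mul_left (Fact.out : p.Prime).pos (h1.symm.trans (mul_one p).symm)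
  exact ⟨h2, by rw [ex, h2, h.fix Q hQ]; simp⟩

theorem One.nf {X : Subgroup H} {Y : Set α} {φ : ℕ} (h : One p X Y φ) : NF X Y := by
  intro y hy hf
  obtain ⟨Q, hQ⟩ := h.sy
  have h1 := (ff_of_fx (p := p) (Q := (Q : Subgroup H)) (A := Y) fun a ha => by
    obtain ⟨g, hg, rfl⟩ := h.orb.tr hy ha
    rw [hf g hg]
    exact hf.mono hQ).2.1
  rw [(h.tt_eq hQ).1] at h1
  exact one_ne_zero h1

omit [Finite H] [Fact p.Prime] [Finite α] in
theorem One.smul {X : Subgroup H} {Y : Set α} {φ : ℕ} (h : One p X Y φ) (g : H) :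
    One p (g • X) (g • Y) φ := by
  refine ⟨h.gn.smul g, h.sy.smul g, h.orb.smul g, by rw [Set.ncard_smul_set, h.card], fun Q hQ => ?_⟩
  rw [← h.fix (g⁻¹ • Q) (by rw [syl_smul, smul_le_iff_sub, inv_inv]; exact hQ), syl_smul, ← ff_smul g (g⁻¹ • _),
    smul_inv_smul]

/-- ONE: an invariant set without fixed points and with `t = 1` is one orbit (every orbit has
`t ≥ 1`, `tt_pos`, `tt_union`). -/
theorem one_of_tt {Z : Subgroup H} (hZ : Gn p Z) {Q : Sylow p H} (hQ : (Q : Subgroup H) ≤ Z)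
    {Y : Set α} (hY : Iv Z Y) (hn : NF Z Y) (ht : tt p (Q : Subgroup H) Y = 1) :
    One p Z Y (ff (Q : Subgroup H) Y) := by
  obtain ⟨y, hy⟩ : Y.Nonempty := by
    rw [Set.nonempty_iff_ne_empty]
    rintro rfl
    rw [(ff_of_fx (p := p) fun _ h => h.elim).2.1] at ht
    exact zero_ne_one ht
  have hO := hY.orb_subset hy
  refine ⟨hZ, ⟨Q, hQ⟩, ⟨y, hO.antisymm' (Set.sdiff_eq_empty.1 ?_)⟩, ?_, fun Q' hQ' => (indep hY hQ' hQ).1⟩
  · by_contra hne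
    have h1 := tt_pos hZ hQ (hY.diff (iv_orb Z y)) (fun a ha => hn a ha.1) (Set.nonempty_iff_ne_empty.2 hne)
    have h2 := tt_pos hZ hQ (iv_orb Z y) (fun a ha => hn a (hO ha)) ⟨y, mem_orb_self Z y⟩
    have h3 := tt_union Set.disjoint_sdiff_right ((iv_orb Z y).mono hQ) ((hY.diff (iv_orb Z y)).mono hQ)
    rw [Set.union_sdiff_cancel hO] at h3
    omega
  · rw [card_eq (hY.mono hQ), ht, mul_one, add_comm]

/-- Passing to a smaller group without fixed points. -/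
theorem One.sub {X Z : Subgroup H} {Y : Set α} {φ : ℕ} (h : One p X Y φ) (hZ : Gn p Z)
    (hs : Sy p Z) (hle : Z ≤ X) (hn : NF Z Y) : One p Z Y φ := by
  obtain ⟨Q, hQ⟩ := hs
  rw [← h.fix Q (hQ.trans hle)]
  exact one_of_tt hZ hQ (h.orb.iv.mono hle) hn (h.tt_eq (hQ.trans hle)).1

theorem One.sy_LL {X : Subgroup H} {Y : Set α} {φ : ℕ} (h : One p X Y φ) (hφ : 1 ≤ φ) {b : α}
    (hb : b ∈ Y) : Sy p (LL p X b) := by
  obtain ⟨Q, hQ⟩ := h.sy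
  exact h.orb.sy_LL hQ (h.fix Q hQ ▸ hφ) hb

/-- `t = 1` forces `n = 1` in `pencil`. -/
theorem One.red {X : Subgroup H} {Y : Set α} {φ : ℕ} (h : One p X Y φ) (hφ : 1 ≤ φ) :
    Red p X Y := by
  obtain ⟨b, hb⟩ := h.orb.nonempty
  obtain ⟨Q, hQ⟩ := h.sy
  obtain ⟨n, -, h1, -, h2⟩ := pencil (h.sy_LL hφ hb)
  have h3 := (h2 Q hQ).2.1
  rw [← h.orb.eq hb] at h1 h3
  rw [(h.tt_eq hQ).1] at h3
  exact h1 (Nat.eq_one_of_mul_eq_one_right h3.symm)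

theorem One.pcl {X : Subgroup H} {Y : Set α} {φ : ℕ} (h : One p X Y φ) (hφ : 1 ≤ φ) {b : α}
    (hb : b ∈ Y) : One p X (SyF.orb X (LL p X b)) φ := by
  obtain ⟨Q, hQ⟩ := h.sy
  obtain ⟨n, -, -, h1, h2⟩ := pencil (h.sy_LL hφ hb)
  rw [← h.orb.eq hb] at h1 h2
  have h3 := (h2 Q hQ).2.1
  rw [(h.tt_eq hQ).1] at h3
  obtain rfl := Nat.eq_one_of_mul_eq_one_right h3.symm
  exact ⟨h.gn, h.sy, isOrb_orb _ _, by rw [← h.card, h1, one_mul],
    fun Q' hQ' => by rw [← h.fix Q' hQ', (h2 Q' hQ').1, one_mul]⟩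

theorem One.del {X : Subgroup H} {Y : Set α} {φ : ℕ} (h : One p X Y φ) (hφ : 1 ≤ φ) {b : α}
    (hb : b ∈ Y) : One p (LL p X b) (Y \ {b}) (φ - 1) := by
  obtain ⟨Q, hQ⟩ := h.sy_LL hφ hb
  obtain ⟨h1, h2⟩ := le_LL.1 hQ
  obtain ⟨h3, h4, -⟩ := del_fx (p := p) hb h2
  rw [h.fix Q h1] at h3
  rw [show φ - 1 = ff (Q : Subgroup H) (Y \ {b}) by omega]
  exact one_of_tt (gn_LL X b) hQ ((h.orb.iv.mono (LL_le X b)).diff (LL_fx X b).iv) ((h.red hφ).nf hb)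
    (h4.trans (h.tt_eq h1).1)

/-- `φ ≤ p - 1`: else `chain` with `C j X Y := ∃ φ, j ≤ φ ∧ One p X Y φ` and `nofull`. -/
theorem One.lt {X : Subgroup H} {Y : Set α} {φ : ℕ} (h : One p X Y φ) : φ < p := by
  by_contra hp
  obtain ⟨Q, hQ⟩ := h.sy
  have h1 := nofull (h.orb.iv.mono hQ) fun C hC hc => by
    obtain ⟨Q0, -, h0⟩ := chain (p := p) (fun j X Y => ∃ φ, j ≤ φ ∧ One p X Y φ) (fun _ _ _ ⟨_, _, k⟩ => k.sy)
      (fun j X Y ⟨φ, k1, k⟩ s hs => ⟨φ - 1, by omega, k.del (by omega) hs⟩) p X Y ⟨φ, not_lt.1 hp, h⟩ C hC hc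
    exact ⟨Q0, h0⟩
  have h2 := (ff_of_fx (p := p) h1).2.1
  rw [(h.tt_eq hQ).1] at h2
  exact one_ne_zero h2

/-- PAR.  `N = LL X d ≥ LL X b`; if `N` moves `b` it is transitive on `Y` (`One.del`), so every
Sylow of `X` lies in an `N`-conjugate of `LL X b`, hence `X ≤ N`. -/
theorem One.par {X : Subgroup H} {Y : Set α} {φ : ℕ} (h : One p X Y φ) (hφ : 1 ≤ φ) {b : α}
    (hb : b ∈ Y) {d : β} (hd : Fx (LL p X b) d) (hX : ¬ Fx X d) : LL p X d = LL p X b := by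
  have h1 : LL p X b ≤ LL p X d := (gn_LL X b).le_LL.2 ⟨LL_le X b, hd⟩
  refine le_antisymm ((gn_LL X d).le_LL.2 ⟨LL_le X d, ?_⟩) h1
  by_contra hf
  obtain ⟨g, hg, gb⟩ : ∃ g ∈ LL p X d, g • b ≠ b := by simpa [Fx] using hf
  refine hX ((LL_fx (p := p) X d).mono (h.gn.le_iff.2 fun Q hQ => ?_))
  obtain ⟨c, hc, fc⟩ := ff_pos_iff.1 (h.fix Q hQ ▸ hφ)
  obtain ⟨k, hk, rfl⟩ : ∃ k ∈ LL p X d, k • b = c := by
    by_cases e : c = b
    · exact ⟨1, one_mem _, by rw [one_smul, e]⟩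
    · obtain ⟨k, hk, e'⟩ := (h.del hφ hb).orb.tr ⟨h.orb.iv g (LL_le X d hg) b hb, gb⟩ ⟨hc, e⟩
      exact ⟨k * g, mul_mem (h1 hk) hg, by rw [mul_smul, e']⟩
  exact (le_LL.2 ⟨hQ, fc⟩).trans (smul_LL (LL_le X d hk) b ▸ smul_le_of_le hk h1)

omit [Finite α] in
theorem TH.mh {n : ℕ} (h : TH H p n) : MH H p n := by
  intro X Q Y hX hQ hY hr hn hc
  have := (Fact.out : p.Prime).two_le
  by_cases he : ex p (Q : Subgroup H) Y ≤ (p : ℤ) - 2
  · have h1 := one_of_tt hX hQ hY.iv hn (h X Q Y hX hQ hY hr hn hc he)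
    have h2 := h1.lt
    rw [(h1.tt_eq hQ).2]
    omega
  · omega

end CfsgLib.SyF
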