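import Cfsg.Agent.Lib.SyF.Cx

/-! SYF package S1: small is symmetric, small pairs give lines.  Proofs: docstrings / plans/SYF.md. -/

set_option autoImplicit false

namespace CfsgLib.SyF

open MulAction
open scoped Pointwise

variable {H : Type*} [Group H] [Finite H] {p : ℕ} [Fact p.Prime]
variable {α β : Type*} [MulAction H α] [MulAction H β]

variable [Finite α] {X : Subgroup H} {S : Set α}

/-- S1.  Suppose `(s,b)` small, `(b,s)` not.  `R a c := a ≠ c ∧ (a,c) not small ∧ (c,a) small` is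
`X`-invariant (`Small.smul`), `R b s`.  Move `(b,s)` to `(s,b')` by `X`.  `A = {c | R s c}` is the
heavy orbit of `LL X s` (`heavy_uniq`, invariance), `B = {c | R c s}` is `LL X s`-invariant and disjoint
from `A`.  `rel_deg` for `X` on `S`: `|A| = |B|`; `rel_deg` for `N = X ⊓ stabilizer Q` on `ln S Q`
(`witt`): `ff Q A = ff Q B`.  So `E(B) = E(A) ≥ p - 1` (`card_eq`), contradicting `exc1` for `A ∪ B`. -/
theorem Cx.small_symm' (h : Cx p X S) {s b : α} (hs : s ∈ S) (hb : b ∈ S) (hne : s ≠ b) {φ : ℕ}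
    (hsm : Small p X s b φ) : ∃ ψ, Small p X b s ψ := by
  by_contra hn
  let R : α → α → Prop := fun a c => a ≠ c ∧ (∀ φ, ¬ Small p X a c φ) ∧ ∃ ψ, Small p X c a ψ
  have hR : ∀ g ∈ X, ∀ a c, R a c → R (g • a) (g • c) := fun g hg a c ⟨h1, h2, ψ, h3⟩ =>
    ⟨fun e => h1 (smul_left_cancel g e), fun φ k => h2 φ (by simpa using k.smul (X.inv_mem hg)),
      ψ, h3.smul hg⟩
  obtain ⟨g, hg, e⟩ := h.orb.tr hb hs
  have r1 := hR g hg b s ⟨hne.symm, fun ψ k => hn ⟨ψ, k⟩, φ, hsm⟩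
  rw [e] at r1
  have hb' := h.orb.iv g hg s hs
  generalize g • s = b' at r1 hb'
  obtain ⟨Q, hQ⟩ := h.sy_LL hs
  have iA : Iv (LL p X s) {c | c ∈ S ∧ R s c} := fun k hk c hc =>
    ⟨h.orb.iv k (LL_le X s hk) c hc.1, LL_fx X s k hk ▸ hR k (LL_le X s hk) s c hc.2⟩
  have iB : Iv (LL p X s) {c | c ∈ S ∧ R c s} := fun k hk c hc =>
    ⟨h.orb.iv k (LL_le X s hk) c hc.1, LL_fx X s k hk ▸ hR k (LL_le X s hk) c s hc.2⟩
  have eA : {c | c ∈ S ∧ R s c} = SyF.orb (LL p X s) b' := Set.Subset.antisymm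
    (fun c hc => h.heavy_uniq hs hb' hc.1 r1.1 hc.2.1 r1.2.1 hc.2.2.1) (iA.orb_subset ⟨hb', r1⟩)
  have e1 := (h.heavy hs hb' r1.1 r1.2.1 hQ).1
  rw [← eA] at e1
  have e2 := rel_deg X S R h.orb.iv (fun a ha c hc => h.orb.tr ha hc)
    (fun g hg a _ c _ => hR g hg a c) hs
  have e3 := rel_deg (X ⊓ stabilizer H Q) (ln S (Q : Subgroup H)) R
    (fun k hk c hc => ⟨h.orb.iv k hk.1 c hc.1, by
      have := (fx_smul (g := k)).2 hc.2
      rwa [← syl_smul, mem_stabilizer_iff.1 hk.2] at this⟩)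
    (fun a ha c hc =>
      let ⟨k, hk, k1, k2⟩ := witt (hQ.trans (LL_le X s)) (h.orb.eq ha.1 ▸ hc.1) ha.2 hc.2
      ⟨k, ⟨hk, k1⟩, k2⟩)
    (fun g hg a _ c _ => hR g hg.1 a c) ⟨hs, (le_LL.1 hQ).2⟩
  have e4 : ff (Q : Subgroup H) {c | c ∈ S ∧ R s c} = ff (Q : Subgroup H) {c | c ∈ S ∧ R c s} := by
    convert e3 using 1 <;> exact congrArg Set.ncard (Set.ext fun c => and_right_comm)
  have e5 := h.exc1 hs hQ (Set.union_subset (fun c hc => ⟨hc.1, hc.2.1.symm⟩)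
    fun c hc => ⟨hc.1, hc.2.1⟩) (iA.union iB)
  rw [ex_union (Set.disjoint_left.2 fun c h1 h2 => h2.2.2.2.elim h1.2.2.1) (iA.mono hQ)
    (iB.mono hQ)] at e5
  rw [card_eq (iA.mono hQ), card_eq (iB.mono hQ), e4, add_right_inj,
    Nat.mul_right_inj (Fact.out : p.Prime).ne_zero] at e2
  simp only [ex, ← e2, ← e4] at e1 e5
  omega

/-- `ratio` for the two pencils: `(p+φ) ν(M) = ν(L_s) φ`, `(p+ψ) ν(M) = ν(L_b) ψ`, `ν(L_s) = ν(L_b)`
(`nu_smul`; `orbSub_mem` gives `LL (LL X s) M = M`). -/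
theorem Cx.small_symm (h : Cx p X S) {s b : α} (hs : s ∈ S) (hb : b ∈ S) (hne : s ≠ b) {φ : ℕ}
    (hsm : Small p X s b φ) : Small p X b s φ := by
  obtain ⟨ψ, hψ⟩ := h.small_symm' hs hb hne hsm
  have key : ∀ {s b : α} {φ : ℕ}, Small p X s b φ →
      (p + φ) * nu p (L2 p X s b) = nu p (LL p X s) * φ := fun {s b φ} k => by
    obtain ⟨Q, hQ⟩ := k.sy
    have := ratio (hQ.trans (LL_le _ b)) (L2 p X s b)
    rwa [(orbSub_mem (gn_LL _ b) k.sy (LL_le _ b) (mem_orb_self _ _)).2.2.2, ← pen, k.2.card,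
      k.2.fix Q (hQ.trans (LL_le _ b))] at this
  have e1 := key hsm
  have e2 := key hψ
  obtain ⟨g, hg, e⟩ := h.orb.tr hs hb
  rw [L2_comm, ← e, ← smul_LL hg, nu_smul, e] at e2
  have e3 := hsm.sy.nu_pos
  have e4 : p * nu p (L2 p X s b) * ψ = p * nu p (L2 p X s b) * φ := by
    zify at e1 e2 ⊢
    linear_combination (ψ : ℤ) * e1 - (φ : ℤ) * e2
  exact Nat.eq_of_mul_eq_mul_left (Nat.mul_pos (Fact.out : p.Prime).pos e3) e4 ▸ hψ

/-- PAR in the pencil: `M = L2 X s b` fixes `d ≠ s`, so `L2 X s d = M`. -/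
theorem Cx.small_ln (h : Cx p X S) {s b : α} (hs : s ∈ S) {φ : ℕ} (hsm : Small p X s b φ)
    {d : α} (hd : d ∈ ln S (L2 p X s b)) (hne : s ≠ d) : L2 p X s d = L2 p X s b := by
  have e := (orbSub_mem (gn_LL _ b) hsm.sy (LL_le (LL p X s) b) (mem_orb_self _ _)).2.2.2
  exact (hsm.2.par hsm.1 (mem_orb_self _ _) (e.symm ▸ hd.2) fun k =>
    hne (h.red s hs d hd.1 k)).trans e

/-- A small pair spans a line. -/
theorem Cx.line (h : Cx p X S) {s b : α} (hs : s ∈ S) (hb : b ∈ S) (hne : s ≠ b) {φ : ℕ}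
    (hsm : Small p X s b φ) : ∃ δ, Line p X S (L2 p X s b) φ δ := by
  have key : ∀ c ∈ ln S (L2 p X s b), ∃ e, Small p X c e φ ∧ L2 p X c e = L2 p X s b := by
    intro c hc
    by_cases e : s = c
    · exact ⟨b, e ▸ hsm, e ▸ rfl⟩
    have e1 := h.small_ln hs hsm hc e
    exact ⟨s, h.small_symm hs hc.1 e (by rw [Small, e1]; exact hsm), (L2_comm X c s).trans e1⟩
  have two : 1 < (ln S (L2 p X s b)).ncard :=
    (Set.one_lt_ncard (Set.toFinite _)).2 ⟨s, ⟨hs, L2_fx1 X s b⟩, b, ⟨hb, L2_fx2 X s b⟩, hne⟩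
  refine ⟨(ln S (L2 p X s b)).ncard - 1, hsm.sy, by omega, by omega, hsm.1, fun c hc d hd ne => ?_,
    fun c hc => ?_⟩
  · obtain ⟨e, h1, h2⟩ := key c hc
    exact (h.small_ln hc.1 h1 (h2 ▸ hd) ne).trans h2
  · obtain ⟨e, h1, h2⟩ := key c hc
    exact h2 ▸ h1.2

end CfsgLib.SyF
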