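import Cfsg.Agent.Lib.SyF.Ln
import Cfsg.Agent.Lib.SyF.Dom

/-! SYF package S2: the star of a line.  Proofs: docstrings / plans/SYF.md. -/

set_option autoImplicit false

namespace CfsgLib.SyF

open MulAction
open scoped Pointwise

variable {H : Type*} [Group H] [Finite H] {p : ℕ} [Fact p.Prime]
variable {α β : Type*} [MulAction H α] [MulAction H β]

variable [Finite α] {X M N : Subgroup H} {S : Set α} {φ δ : ℕ}

/-- S2(i).  `N0 = L2 X s u`, `Y = pen s M`.  `N0` fixes at most 2 members of `Y`: for `φ = 1` a Sylow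
in `N0` fixes only one.  For `φ ≥ 2`: `u ∈ VV c M`, `c ≠ s` (`mem_St`, `UU_eq_union`), `u ∈ ln M'`,
`M' ∈ pen c M \ {M}`, `K = LL M u = LL M M' ≤ N0` (`LL_pt`); if `K` fixes `M1 ∈ Y \ {M}` then `One.par`
(`oneV` at `c`, `b = M'`, `d = M1`; `M` moves `M1` by `(oneV at s).nf`) gives `LL M M1 = K`; two such
`M1`, `M2` coincide by `(oneV at s).red`.  If `N0` fixes a member of `Y`, `dom` (`Z = LL X s`;
`LL Z y = y` fixes no point of the orbit of `u` since `UU s M` is invariant) contradicts `exc1`. -/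
theorem Cx.s2i (h : Cx p X S) (l : Line p X S M φ δ) {s u : α} (hs : s ∈ ln S M)
    (hu : u ∈ St p X S M) (hU : u ∉ UU p X S s M) (hne : u ≠ s) (hsy : Sy p (L2 p X s u)) :
    NF (L2 p X s u) (pen p X s M) := by
  intro y hy f
  have hS := h.orb.iv
  have hY := l.one s hs
  have hW : SyF.orb (LL p X s) u ⊆ S \ {s} :=
    ((hS.mono (LL_le X s)).diff (LL_fx X s).iv).orb_subset ⟨St_subset M hu, hne⟩
  obtain ⟨Q, hQ⟩ := id hsy
  have hQ' := hQ.trans (LL_le _ u)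
  have h1 := h.exc1 hs.1 hQ' hW (iv_orb _ u)
  refine absurd (dom h.odd h.mm hY ((Set.ncard_le_ncard hW).trans_lt (Set.ncard_sdiff_singleton_lt_of_mem hs.1))
    hsy ⟨y, hy, f⟩ ?_ (fun y hy v hv fv => hU ?_) hQ') (by omega)
  · rcases l.f1.eq_or_lt with e | e
    · refine (Set.ncard_le_ncard (t := ln (pen p X s M) (Q : Subgroup H)) fun a ha => ⟨ha.1, ha.2.mono hQ⟩).trans ?_
      exact (hY.fix Q hQ').le.trans (by omega)
    obtain hu' | ⟨c, hc, hv⟩ := (l.mem_St hS).1 hu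
    · exact absurd ⟨hne, M, self_mem_pen s M, hu'⟩ hU
    obtain ⟨M', m1, m2, m3, m4⟩ := (l.mem_VV hS hc).1 hv
    obtain ⟨l', c'⟩ := l.pen_mem hS hc m1
    have hK : LL p M M' ≤ L2 p X s u := (gn_LL _ _).le_L2.2
      ⟨(LL_le _ _).trans l.le, hs.2.mono (LL_le _ _), l.LL_pt l' hc c' m3 m4 ▸ LL_fx M u⟩
    have h2 : (ln (pen p X s M) (L2 p X s u) \ {M}).ncard ≤ 1 := (Set.ncard_le_one_iff (Set.toFinite _)).2
      fun {a b} ha hb => (l.oneV hs).red (by omega) a ⟨ha.1.1, ha.2⟩ b ⟨hb.1.1, hb.2⟩ (by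
        rw [(l.oneV hc).par (by omega) ⟨m1, m2⟩ (ha.1.2.mono hK) ((l.oneV hs).nf a ⟨ha.1.1, ha.2⟩)]
        exact hb.1.2.mono hK)
    have h3 := Set.ncard_le_ncard_sdiff_add_ncard (ln (pen p X s M) (L2 p X s u)) {M}
    rw [Set.ncard_singleton] at h3
    exact h3.trans (by omega)
  · rw [(orbSub_mem l.gn l.sy (l.le_LL hs) hy).2.2.2] at fv
    have h2 : v ∈ UU p X S s M := ⟨(hW hv).2, y, hy, (hW hv).1, fv⟩
    obtain ⟨g, hg, rfl⟩ := hv
    exact ((iv_UU hS s M).mem_iff hg).1 h2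

/-- S2(ii).  If a Sylow fixes `s, u`: `One.sub` with `s2i`.  Else `N = g0 • M`, `Q ≤ M`,
`g0⁻¹ • u = q • u` by `Cx.zero`, `g = g0 * q`. -/
theorem Cx.s2ii (h : Cx p X S) (l : Line p X S M φ δ) {s u : α} (hs : s ∈ ln S M)
    (hu : u ∈ St p X S M) (hU : u ∉ UU p X S s M) (hne : u ≠ s) (hN : N ∈ pen p X s M) :
    ∃ g ∈ LL p X s, g • M = N ∧ g • u = u := by
  by_cases hsy : Sy p (L2 p X s u)
  · obtain ⟨g, hg, e⟩ := ((l.one s hs).sub (gn_LL _ _) hsy (LL_le _ u) (h.s2i l hs hu hU hne hsy)).orb.tr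
      (self_mem_pen s M) hN
    exact ⟨g, LL_le _ u hg, e, LL_fx _ u g hg⟩
  · obtain ⟨g, hg, rfl⟩ := hN
    obtain ⟨Q, hQ⟩ := l.sy
    obtain ⟨q, hq, e⟩ := (h.zero hs.1 (St_subset M hu) hne.symm hsy (hQ.trans (l.le_LL hs))).ge
      (smul_mem_orb (inv_mem hg) u)
    exact ⟨g * q, mul_mem hg (l.le_LL hs (hQ hq)), by rw [mul_smul, smul_self_sub (hQ hq)],
      by rw [mul_smul, e, smul_inv_smul]⟩

/-- `⊆` by `s2ii`, `smul_St`, `UU_eq`; `⊇` by symmetry (`pen_mem`). -/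
theorem Cx.st_pen (h : Cx p X S) (l : Line p X S M φ δ) {s : α} (hs : s ∈ ln S M)
    (hN : N ∈ pen p X s M) : St p X S N = St p X S M := by
  have hS := h.orb.iv
  have key : ∀ {M N : Subgroup H}, Line p X S M φ δ → s ∈ ln S M → N ∈ pen p X s M →
      St p X S M ⊆ St p X S N := fun {M N} l hs hN u hu => by
    have sN := (l.pen_mem hS hs hN).2
    by_cases e : u = s
    · exact ln_subset_St N (e ▸ sN)
    by_cases hU : u ∈ UU p X S s M
    · exact UU_subset_St sN (UU_eq hN ▸ hU)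
    obtain ⟨g, hg, rfl, e'⟩ := h.s2ii l hs hu hU e hN
    rw [← smul_St hS (LL_le X s hg), ← e']
    exact Set.smul_mem_smul_set hu
  obtain ⟨l', s'⟩ := l.pen_mem hS hs hN
  exact (key l' s' (mem_orb_symm hN)).antisymm (key l hs hN)

theorem Cx.iv_st (h : Cx p X S) (l : Line p X S M φ δ) {c : α} (hc : c ∈ St p X S M) :
    Iv (LL p X c) (St p X S M) := by
  have hS := h.orb.iv
  obtain ⟨s, hs, N, hN, hc⟩ := hc
  rw [← h.st_pen l hs hN, iv_iff_fx]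
  intro g hg
  rw [smul_St hS (LL_le X c hg)]
  exact h.st_pen (l.pen_mem hS hs hN).1 hc (smul_mem_orb hg N)

/-- MP.  Else `LL M1 M2` (contains a Sylow: `oneV`, `One.sy_LL`) lies in `N0 = L2 X s u`, which is
transitive on `Y = pen s M` (`s2i`, `One.sub`).  `parity` for `Q ≤ N0` and
`R a b := a ≠ b ∧ Fx (LL a b) u`: symmetric (`LL_comm`), existence by transitivity of `N0`
(`smul_LL'`), uniqueness: `One.par` in `a` (`oneV`, `d = u`) gives `LL a b = LL a u = LL a c`, then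
`One.red`. -/
theorem Cx.mp (h : Cx p X S) (l : Line p X S M φ δ) (hφ : 2 ≤ φ) {s u : α} (hs : s ∈ ln S M)
    (hu : u ∈ St p X S M) (hU : u ∉ UU p X S s M) (hne : u ≠ s) {M1 M2 : Subgroup H}
    (h1 : M1 ∈ pen p X s M) (h2 : M2 ∈ pen p X s M) (h12 : M1 ≠ M2) : ¬ Fx (LL p M1 M2) u := by
  intro f
  have hS := h.orb.iv
  have one : ∀ a ∈ pen p X s M, One p a (pen p X s M \ {a}) (φ - 1) := fun a ha => by
    obtain ⟨l', s'⟩ := l.pen_mem hS hs ha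
    have := l'.oneV s'
    rwa [pen_eq ha] at this
  obtain ⟨l1, s1⟩ := l.pen_mem hS hs h1
  have hsy : Sy p (L2 p X s u) := ((one M1 h1).sy_LL (by omega) ⟨h2, h12.symm⟩).mono
    ((gn_LL _ _).le_L2.2 ⟨(LL_le _ _).trans l1.le, s1.2.mono (LL_le _ _), f⟩)
  have o := (l.one s hs).sub (gn_LL _ _) hsy (LL_le _ u) (h.s2i l hs hu hU hne hsy)
  obtain ⟨Q, hQ⟩ := hsy
  have inv : ∀ g ∈ L2 p X s u, ∀ a b : Subgroup H, a ≠ b ∧ Fx (LL p a b) u →
      g • a ≠ g • b ∧ Fx (LL p (g • a) (g • b)) u := fun g hg a b r =>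
    ⟨fun e => r.1 (smul_left_cancel g e), by rw [← smul_LL', ← L2_fx2 X s u g hg, fx_smul]; exact r.2⟩
  refine parity h.odd (o.orb.iv.mono hQ) (o.tt_eq hQ).1 (fun a b => a ≠ b ∧ Fx (LL p a b) u)
    (fun a ha b hb r => ⟨r.1.symm, (l.pen_mem hS hs ha).1.LL_comm (l.pen_mem hS hs hb).1 ▸ r.2⟩)
    (fun a _ r => r.1 rfl) (fun a ha => ?_) (fun a ha b hb c hc r1 r2 => ?_) fun g hg a _ b _ => inv g (hQ hg) a b
  · obtain ⟨g, hg, rfl⟩ := o.orb.tr h1 ha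
    exact ⟨g • M2, o.orb.iv g hg M2 h2, inv g hg M1 M2 ⟨h12, f⟩⟩
  · have na : ¬ Fx a u := fun e => hU ⟨hne, a, ha, St_subset M hu, e⟩
    refine (one a ha).red (by omega) b ⟨hb, r1.1.symm⟩ c ⟨hc, r2.1.symm⟩ ?_
    rw [← (one a ha).par (by omega) ⟨hb, r1.1.symm⟩ r1.2 na, (one a ha).par (by omega) ⟨hc, r2.1.symm⟩ r2.2 na]
    exact LL_fx a c

end CfsgLib.SyF
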