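import Cfsg.Agent.Lib.SyF.S2

/-! SYF package S3: no thick line with φ ≥ 2.  Proofs: docstrings / plans/SYF.md. -/

set_option autoImplicit false

namespace CfsgLib.SyF

open MulAction
open scoped Pointwise

variable {H : Type*} [Group H] [Finite H] {p : ℕ} [Fact p.Prime]
variable {α β : Type*} [MulAction H α] [MulAction H β]

variable [Finite α] {X M : Subgroup H} {S : Set α} {φ δ : ℕ}

/-- Let `u ∈ ln M1 ∩ ln M2`, `M1 ∈ pen s M \ {M}`, `M2 ∈ pen c M \ {M}`; `LL M M1 = LL M u = LL M M2`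
(`LL_pt`).  A third point `w` of `M2` (`≠ c, u`) is fixed by `LL M M1`, so by `mp` `w = s` (then
`M2 = M`) or `w ∈ UU s M`, `w ∈ ln M3`, `M3 ∈ pen s M \ {M}` (`w ∉ ln M`), `LL M M1 ≤ L2 X s w = M3`,
so `M3 = M1` by `(oneV).red`; then `M1 = M2` (points `u, w`) contains `s, c`, so equals `M`. -/
theorem Cx.vv_disj (h : Cx p X S) (l : Line p X S M φ δ) (hδ : 2 ≤ δ) (hφ : 2 ≤ φ) {s c : α}
    (hs : s ∈ ln S M) (hc : c ∈ ln S M) (hne : s ≠ c) :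
    Disjoint (VV p X S s M) (VV p X S c M) := by
  have hS := h.orb.iv
  rw [Set.disjoint_left]
  intro u u1 u2
  obtain ⟨M1, a1, a2, a3, a4⟩ := (l.mem_VV hS hs).1 u1
  obtain ⟨M2, b1, b2, b3, b4⟩ := (l.mem_VV hS hc).1 u2
  obtain ⟨l1, s1⟩ := l.pen_mem hS hs a1
  obtain ⟨l2, c2⟩ := l.pen_mem hS hc b1
  obtain ⟨w, hw, wc, wu⟩ := l2.exists_third hδ c u
  have f : Fx (LL p M M1) w := by
    rw [← l.LL_pt l1 hs s1 a3 a4, l.LL_pt l2 hc c2 b3 b4, l.LL_comm l2]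
    exact hw.2.mono (LL_le _ _)
  have ws : w ≠ s := fun e => b2 (l2.eq_of l hne (e ▸ hw) c2 hs hc)
  by_cases hU : w ∈ UU p X S s M
  swap
  · exact h.mp l hφ hs ⟨c, hc, M2, b1, hw⟩ hU ws (self_mem_pen s M) a1 a2.symm f
  obtain ⟨-, M3, d1, d2⟩ := hU
  obtain ⟨l3, s3⟩ := l.pen_mem hS hs d1
  have d3 : M3 ≠ M := fun e => b2 (l2.eq_of l wc hw c2 (e ▸ d2) hc)
  obtain rfl : M1 = M3 := (l.oneV hs).red (by omega) M1 ⟨a1, a2⟩ M3 ⟨d1, d3⟩ (((gn_LL _ _).fx_sub l3.sy).2 (by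
    rw [← l3.two s s3 w d2 ws.symm]
    exact (gn_LL _ _).le_L2.2 ⟨(LL_le _ _).trans l.le, hs.2.mono (LL_le _ _), f⟩))
  obtain rfl := l1.eq_of l2 wu d2 a3 hw b3
  exact a2 (l1.eq_of l hne s1 c2 hs hc)

/-- Independence: else `LL M a ≤ b` fixes a point `x ∈ ln b \ {c} ⊆ VV c M`, against `mp`. -/
theorem Cx.indep_pen (h : Cx p X S) (l : Line p X S M φ δ) (hδ : 2 ≤ δ) (hφ : 2 ≤ φ) {s c : α}
    (hs : s ∈ ln S M) (hc : c ∈ ln S M) (hne : s ≠ c) {a b : Subgroup H}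
    (ha : a ∈ pen p X s M \ {M}) (hb : b ∈ pen p X c M \ {M}) : ¬ Fx (LL p M a) b := by
  intro f
  have hS := h.orb.iv
  obtain ⟨l', c'⟩ := l.pen_mem hS hc hb.1
  obtain ⟨x, hx, xc⟩ := l'.exists_ne c
  have xV : x ∈ VV p X S c M := (l.mem_VV hS hc).2 ⟨b, hb.1, hb.2, hx, xc⟩
  exact h.mp l hφ hs ⟨c, hc, b, hb.1, hx⟩
    (fun e => Set.disjoint_left.1 (h.vv_disj l hδ hφ hs hc hne) ⟨e, xV.2⟩ xV) (fun e => xV.2 (e ▸ hs))
    (self_mem_pen s M) ha.1 (Ne.symm ha.2) (hx.2.mono (((gn_LL _ _).fx_sub l'.sy).1 f))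

/-- `φ = 2`: `exc` for `M` and three sets `VV`: `3 δ (p-2) ≤ 2p - 3 + δ`.
`φ ≥ 3`: `s ≠ c` on `M`, `v ∈ VV c M` on `M2 ∈ B = pen c M \ {M}`, `M1 ∈ A = pen s M \ {M}`.
`v ∈ St M = St M1`: `v ∈ ln N`, `N ∈ pen w M1`, `w ∈ ln M1`; `w ≠ s`, so `w ∈ VV s M`, `w ≠ v`, `N ≠ M1`.
Third point `z` of `N`: `z ∈ VV w M1`, `z ∈ St M`.  `z ∈ ln M` is impossible (`z = s` gives `N = M1`,
else `z ∈ VV s M1`, against `vv_disj` for `M1`).  So `z ∈ ln M3`, `M3 ∈ pen e M \ {M}`, `z ≠ e`.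
`T = L2 M M1 M2` fixes `w, v`, so `T ≤ N` fixes `z`, `T ≤ M3`.  `e = s`: `LL M M2` is reduced on `A`
(`One.sub`, `indep_pen`), so `M3 = M1`, `N = M1`.  `e = c`: `M3 = M2`, `N = M2 ∋ w`, against `vv_disj`.
Else `lat` with `X = M`. -/
theorem Cx.s3 (h : Cx p X S) (l : Line p X S M φ δ) (hδ : 2 ≤ δ) (hφ : 2 ≤ φ) : False := by
  have hS := h.orb.iv
  obtain ⟨s, hs⟩ : (ln S M).Nonempty := (Set.ncard_pos (Set.toFinite _)).1 (by rw [l.card]; omega)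
  obtain ⟨c, hc, cs⟩ := l.exists_ne s
  have dj : ∀ {s c}, s ∈ ln S M → c ∈ ln S M → s ≠ c → Disjoint (VV p X S s M) (VV p X S c M) :=
    fun hs hc ne => h.vv_disj l hδ hφ hs hc ne
  rcases hφ.eq_or_lt with rfl | φ3
  · obtain ⟨e, he, es, ec⟩ := l.exists_third hδ s c
    obtain ⟨Q, hQ⟩ := l.sy
    obtain ⟨a1, a2, a3⟩ := l.iv_VV hS hs
    obtain ⟨b1, b2, b3⟩ := l.iv_VV hS hc
    obtain ⟨c1, c2, c3⟩ := l.iv_VV hS he
    have h1 := h.exc l.gn l.le hQ ⟨s, hs⟩ (Set.union_subset (Set.union_subset a1 b1) c1) ((a2.union b2).union c2)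
      fun y hy => hy.elim (fun hy => hy.elim (a3 y) (b3 y)) (c3 y)
    rw [ex_union (Set.disjoint_union_left.2 ⟨dj hs he es.symm, dj hc he ec.symm⟩) ((a2.union b2).mono hQ)
      (c2.mono hQ), ex_union (dj hs hc cs.symm) (a2.mono hQ) (b2.mono hQ), (l.cntV hS hs hQ).2.2,
      (l.cntV hS hc hQ).2.2, (l.cntV hS he hQ).2.2, l.card] at h1
    have h2 := h.three
    push_cast at h1
    zify at h2 hδ
    nlinarith
  have oA := l.oneV hs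
  have oB := l.oneV hc
  obtain ⟨M1, a⟩ := oA.orb.nonempty
  obtain ⟨M2, b⟩ := oB.orb.nonempty
  obtain ⟨l1, s1⟩ := l.pen_mem hS hs a.1
  obtain ⟨l2, c2⟩ := l.pen_mem hS hc b.1
  obtain ⟨v, hv, vc⟩ := l2.exists_ne c
  have vV : v ∈ VV p X S c M := (l.mem_VV hS hc).2 ⟨M2, b.1, b.2, hv, vc⟩
  have vs : v ≠ s := fun e => vV.2 (e ▸ hs)
  have nv : ∀ x ∈ VV p X S c M, x ∉ VV p X S s M := fun x h1 h2 => Set.disjoint_left.1 (dj hs hc cs.symm) h2 h1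
  have st := h.st_pen l hs a.1
  obtain ⟨w, hw, N, hN, vN⟩ := st.ge ⟨c, hc, M2, b.1, hv⟩
  have ws : w ≠ s := fun e => nv v vV ⟨⟨vs, N, by rwa [e, pen_eq a.1] at hN, vN⟩, vV.2⟩
  have wV : w ∈ VV p X S s M := (l.mem_VV hS hs).2 ⟨M1, a.1, a.2, hw, ws⟩
  have wv : w ≠ v := fun e => nv v vV (e ▸ wV)
  have N1 : N ≠ M1 := fun e => nv v vV ((l.mem_VV hS hs).2 ⟨M1, a.1, a.2, e ▸ vN, vs⟩)
  obtain ⟨lN, wN⟩ := l1.pen_mem hS hw hN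
  obtain ⟨z, hz, zw, zv⟩ := lN.exists_third hδ w v
  obtain zM | ⟨e, he, zV⟩ := (l.mem_St hS).1 (st.le ⟨w, hw, N, hN, hz⟩)
  · have zs : z ≠ s := fun e => N1 (lN.eq_of l1 ws wN (e ▸ hz) hw s1)
    exact Set.disjoint_left.1 (h.vv_disj l1 hδ hφ s1 hw ws.symm)
      ((l1.mem_VV hS s1).2 ⟨M, mem_orb_symm a.1, Ne.symm a.2, zM, zs⟩) ((l1.mem_VV hS hw).2 ⟨N, hN, N1, hz, zw⟩)
  obtain ⟨M3, d1, d2, d3, d4⟩ := (l.mem_VV hS he).1 zV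
  obtain ⟨l3, e3⟩ := l.pen_mem hS he d1
  have dep : Fx (L2 p M M1 M2) M3 := by
    have g : Gn p (L2 p M M1 M2) := gn_LL _ _
    have TX := (L2_le (p := p) M M1 M2).trans l.le
    have TN : L2 p M M1 M2 ≤ N := by
      rw [← lN.two w wN v vN wv]
      exact g.le_L2.2 ⟨TX, hw.2.mono ((g.fx_sub l1.sy).1 (L2_fx1 M M1 M2)),
        hv.2.mono ((g.fx_sub l2.sy).1 (L2_fx2 M M1 M2))⟩
    rw [g.fx_sub l3.sy, ← l3.two e e3 z d3 d4.symm]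
    exact g.le_L2.2 ⟨TX, he.2.mono (L2_le M M1 M2), hz.2.mono TN⟩
  by_cases es : e = s
  · subst es
    obtain rfl := (oA.sub (gn_LL M M2) (oB.sy_LL (by omega) b) (LL_le M M2)
      fun x hx => h.indep_pen l hδ hφ hc hs cs b hx).red (by omega) M1 a M3 ⟨d1, d2⟩ (dep.mono (L2_comm M M2 M1).le)
    exact N1 (lN.eq_of l1 zw hz wN d3 hw)
  by_cases ec : e = c
  · subst ec
    obtain rfl := (oB.sub (gn_LL M M1) (oA.sy_LL (by omega) a) (LL_le M M1)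
      fun x hx => h.indep_pen l hδ hφ hs hc cs.symm a hx).red (by omega) M2 b M3 ⟨d1, d2⟩ dep
    obtain rfl := lN.eq_of l2 zv hz vN d3 hv
    exact nv w ((l.mem_VV hS hc).2 ⟨N, b.1, b.2, wN, fun e => wV.2 (e ▸ hc)⟩) wV
  exact lat oA oB (by omega) (by omega) a b ((l.oneV he).sy_LL (by omega) ⟨d1, d2⟩)
    (fun x hx y hy => h.indep_pen l hδ hφ hs hc cs.symm hx hy) (fun x hx y hy => h.indep_pen l hδ hφ hc hs cs hy hx)
    (fun x hx => h.indep_pen l hδ hφ he hs es ⟨d1, d2⟩ hx) (h.indep_pen l hδ hφ hs he (Ne.symm es) a ⟨d1, d2⟩)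
    (h.indep_pen l hδ hφ hc he (Ne.symm ec) b ⟨d1, d2⟩) dep

end CfsgLib.SyF
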