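import Cfsg.Agent.Lib.SyF.Ln

/-! SYF package S4A: a thick line with φ = 1 spans a linear space.  Proofs: docstrings / plans/SYF.md. -/

set_option autoImplicit false

namespace CfsgLib.SyF

open MulAction
open scoped Pointwise

variable {H : Type*} [Group H] [Finite H] {p : ℕ} [Fact p.Prime]
variable {α β : Type*} [MulAction H α] [MulAction H β]

variable [Finite α] {X M : Subgroup H} {S : Set α} {δ : ℕ}

/-- Else `W = VV s ∪ (VV c \ VV s)` has `ff = 0`, `tt ≥ δ + 1` (`tt_pos`), and `exc` for `M` gives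
`(p-1)(δ+1) ≤ 2p - 3 + δ`. -/
theorem Cx.vv_sub (h : Cx p X S) (l : Line p X S M 1 δ) (hδ : 2 ≤ δ) {s c : α}
    (hs : s ∈ ln S M) (hc : c ∈ ln S M) : VV p X S c M ⊆ VV p X S s M := by
  intro u hu
  by_contra hn
  obtain ⟨Q, hQ⟩ := l.sy
  obtain ⟨s1, s2, s3⟩ := l.iv_VV h.orb.iv hs
  obtain ⟨c1, c2, c3⟩ := l.iv_VV h.orb.iv hc
  have t1 : 1 ≤ tt p (Q : Subgroup H) (VV p X S c M \ VV p X S s M) :=
    tt_pos l.gn hQ (c2.diff s2) (fun y hy => c3 y hy.1) ⟨u, hu, hn⟩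
  have f0 : ff (Q : Subgroup H) (VV p X S c M \ VV p X S s M) = 0 := by
    by_contra f
    obtain ⟨a, ha, fa⟩ := ff_pos_iff.1 (Nat.one_le_iff_ne_zero.2 f)
    have h1 := ff_pos_iff.2 ⟨a, ha.1, fa⟩
    rw [(l.cntV h.orb.iv hc hQ).1] at h1
    simp at h1
  have e := h.exc l.gn l.le hQ ⟨s, hs⟩ (W := VV p X S s M ∪ (VV p X S c M \ VV p X S s M))
    (Set.union_subset s1 (Set.sdiff_subset.trans c1)) (s2.union (c2.diff s2))
    (fun y hy => hy.elim (s3 y) fun hy => c3 y hy.1)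
  rw [ex_union Set.disjoint_sdiff_right (s2.mono hQ) ((c2.diff s2).mono hQ),
    (l.cntV h.orb.iv hs hQ).2.2, l.card, ex, f0] at e
  have h3 : (3 : ℤ) ≤ p := by exact_mod_cast h.three
  have h4 : (2 : ℤ) ≤ δ := by exact_mod_cast hδ
  have h5 : (1 : ℤ) ≤ tt p (Q : Subgroup H) (VV p X S c M \ VV p X S s M) := by exact_mod_cast t1
  push_cast at e
  nlinarith

theorem Cx.st_eq (h : Cx p X S) (l : Line p X S M 1 δ) (hδ : 2 ≤ δ) {s : α} (hs : s ∈ ln S M) :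
    St p X S M = insert s (UU p X S s M) := by
  ext u
  rw [Set.mem_insert_iff]
  refine ⟨fun hu => ?_, fun hu => hu.elim (fun e => e ▸ ln_subset_St M hs) fun e => UU_subset_St hs e⟩
  rw [UU_eq_union, or_iff_not_imp_left]
  intro ne
  rcases (l.mem_St h.orb.iv).1 hu with e | ⟨c, hc, e⟩
  · exact .inl ⟨e, ne⟩
  · exact .inr (h.vv_sub l hδ hs hc e)

/-- `K = St M`.  For `c ∈ K`, `c ∈ ln N`, `N ∈ pen s M`: `St N = insert s (UU s N) = K`, so
`K = insert c (UU c N)`.  Numbers: `exc1` for `UU s M`: `δ (p-2) ≤ 2p - 3`. -/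
theorem Cx.s4a (h : Cx p X S) (l : Line p X S M 1 δ) (hδ : 2 ≤ δ) :
    Pl p X S (St p X S M) δ ∧ (δ = 2 ∨ (p = 3 ∧ δ = 3)) := by
  have hS := h.orb.iv
  obtain ⟨s, hs⟩ : (ln S M).Nonempty := Set.nonempty_of_ncard_ne_zero (by rw [l.card]; omega)
  have key : ∀ c ∈ St p X S M, ∃ N, Line p X S N 1 δ ∧ c ∈ ln S N ∧
      St p X S M = insert c (UU p X S c N) := fun c hc => by
    rw [h.st_eq l hδ hs] at hc
    rcases hc with rfl | ⟨-, N, hN, hc⟩
    · exact ⟨M, l, hs, h.st_eq l hδ hs⟩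
    · obtain ⟨l', hs'⟩ := l.pen_mem hS hs hN
      exact ⟨N, l', hc, by
        rw [← h.st_eq l' hδ hc, h.st_eq l' hδ hs', UU_eq hN, h.st_eq l hδ hs]⟩
  have k2 : ∀ {N c u}, Line p X S N 1 δ → c ∈ ln S N → u ∈ insert c (UU p X S c N) → u ≠ c →
      L2 p X c u ∈ pen p X c N := fun {N c u} l' hc hu ne => by
    obtain ⟨-, N', hN', hu'⟩ := hu.resolve_left ne
    obtain ⟨l'', hc'⟩ := l'.pen_mem hS hc hN'
    rwa [l''.two c hc' u hu' ne.symm]
  obtain ⟨Q, hQ⟩ := l.sy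
  have hQ' := hQ.trans (l.le_LL hs)
  obtain ⟨n1, -, -, n2⟩ := l.cntU hS hs hQ'
  refine ⟨⟨St_subset M, ?_, fun a ha u hu ne => ?_, fun c hc => ?_, fun c hc u hu v hv h1 h2 => ?_⟩,
    ?_⟩
  · rw [h.st_eq l hδ hs, Set.ncard_insert_of_notMem fun e => (UU_subset s M e).2 rfl, n1, add_comm]
  · obtain ⟨N, l', ha', e⟩ := key a ha
    have h1 := k2 l' ha' (e ▸ hu) ne.symm
    refine ⟨(l'.pen_mem hS ha' h1).1, fun v hv => ?_⟩
    rw [e, Set.mem_insert_iff, or_iff_not_imp_left]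
    exact fun ne => ⟨ne, _, h1, hv⟩
  · obtain ⟨N, -, -, e⟩ := key c hc
    rw [e, Set.insert_eq]
    exact (LL_fx X c).iv.union (iv_UU hS c N)
  · obtain ⟨N, l', hc', e⟩ := key c hc
    rw [pen_eq (k2 l' hc' (e ▸ hu) h1)]
    exact k2 l' hc' (e ▸ hv) h2
  · have e := h.exc1 hs.1 hQ' (UU_subset s M) (iv_UU hS s M)
    rw [n2] at e
    have h3 : (3 : ℤ) ≤ p := by exact_mod_cast h.three
    push_cast at e
    by_cases d : δ = 2
    · exact .inl d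
    have h4 : (3 : ℤ) ≤ δ := by omega
    have h5 : (p : ℤ) = 3 := by nlinarith
    rw [h5] at e
    exact .inr ⟨by omega, by omega⟩

variable {K : Set α}

/-- A Sylow in a line fixes exactly the points of the line (`φ = 1`: if it fixed `u ∉ ln`, it would fix
two members `L2 a b ≠ L2 a u` of the pencil at `a`). -/
theorem Pl.ln_eq (k : Pl p X S K δ) {a b : α} (ha : a ∈ K) (hb : b ∈ K) (hne : a ≠ b)
    {Q : Sylow p H} (hQ : (Q : Subgroup H) ≤ L2 p X a b) :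
    ln K (Q : Subgroup H) = ln S (L2 p X a b) := by
  obtain ⟨l, sub⟩ := k.line a ha b hb hne
  refine Set.Subset.antisymm (fun u hu => ?_) fun u hu => ⟨sub hu, hu.2.mono hQ⟩
  by_contra hn
  have ha' : a ∈ ln S (L2 p X a b) := ⟨k.sub ha, L2_fx1 X a b⟩
  have ne : u ≠ a := fun e => hn (e ▸ ha')
  have h1 := (l.one a ha').fix Q (hQ.trans (LL_le _ b))
  have h2 : (Q : Subgroup H) ≤ L2 p X a u :=
    le_L2.2 ⟨hQ.trans (L2_le X a b), (L2_fx1 X a b).mono hQ, hu.2⟩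
  have h3 := two_le_ff_iff.2 ⟨_, k.pn a ha b hb u hu.1 hne.symm ne, _, self_mem_pen a _,
    fun e => hn (e ▸ ⟨k.sub hu.1, L2_fx2 X a u⟩), fun g hg => smul_self_sub (h2 hg),
    fun g hg => smul_self_sub (hQ hg)⟩
  omega

/-- NC: `y` normalises `L2 X a u = L2 X a (y u)`, so lies in it (`mem_of_norm`). -/
theorem Pl.nc (k : Pl p X S K δ) {a u : α} (ha : a ∈ K) (hu : u ∈ K) (hne : a ≠ u)
    {Q : Sylow p H} {y : H} (hy : y ∈ (Q : Subgroup H)) (hyX : y ∈ X) (hya : y • a = a)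
    (hyu : y • u ∈ ln S (L2 p X a u)) : y • u = u := by
  obtain ⟨l, -⟩ := k.line a ha u hu hne
  refine L2_fx2 X a u y (mem_of_norm l.sy hy ?_)
  rw [smul_L2 hyX, hya]
  exact l.two a ⟨k.sub ha, L2_fx1 X a u⟩ _ hyu fun e => hne (smul_left_cancel y (hya.trans e))

/-- `p = δ = 3`: `M = L2 a b`, `Q ≤ M`, `u ∈ K \ ln M`, `y ∈ Q` moves `u`.  `e ↦ L2 u e` injects the 4
points of `ln M` into the 4 members of the pencil at `u`, so `L2 u (y u) = L2 u e`; `nc`. -/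
theorem Pl.not_three (k : Pl p X S K 3) (hp : p = 3) : False := by
  have hK : K.ncard = 13 := by rw [k.card, hp]
  obtain ⟨a, b, ha, hb, hne⟩ := (Set.one_lt_ncard_iff (s := K)).1 (by omega)
  obtain ⟨l, sub⟩ := k.line a ha b hb hne
  obtain ⟨Q, hQ⟩ := l.sy
  obtain ⟨u, hu, hn⟩ := Set.exists_mem_notMem_of_ncard_lt_ncard (s := ln S (L2 p X a b)) (t := K)
    (by rw [l.card]; omega)
  have h1 : ¬ Fx (Q : Subgroup H) u := fun f => hn (k.ln_eq ha hb hne hQ ▸ ⟨hu, f⟩)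
  obtain ⟨y, hy, hyu⟩ : ∃ y ∈ (Q : Subgroup H), y • u ≠ u := by
    by_contra c
    exact h1 fun g hg => by_contra fun e => c ⟨g, hg, e⟩
  have ha' : a ∈ ln S (L2 p X a b) := ⟨k.sub ha, L2_fx1 X a b⟩
  have ne : ∀ e ∈ ln S (L2 p X a b), e ≠ u := fun e he e' => hn (e' ▸ he)
  have yK : y • u ∈ K := k.iv a ha y (LL_le _ b (hQ hy)) u hu
  have im : (fun e => L2 p X u e) '' ln S (L2 p X a b) = pen p X u (L2 p X u a) := by
    refine Set.eq_of_subset_of_ncard_le ?_ ?_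
    · rintro _ ⟨e, he, rfl⟩
      exact k.pn u hu a ha e (sub he) (ne a ha') (ne e he)
    · rw [((k.line u hu a ha (ne a ha').symm).1.one u ⟨k.sub hu, L2_fx1 X u a⟩).card,
        Set.InjOn.ncard_image, l.card, hp]
      intro e he e' he' (h : L2 p X u e = L2 p X u e')
      by_contra c
      refine hn ?_
      rw [l.eq_of (k.line u hu e (sub he) (ne e he).symm).1 c he he' ⟨he.1, L2_fx2 X u e⟩
        ⟨he'.1, h ▸ L2_fx2 X u e'⟩]
      exact ⟨k.sub hu, L2_fx1 X u e⟩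
  obtain ⟨e, he, (h : L2 p X u e = L2 p X u (y • u))⟩ :=
    im.ge (k.pn u hu a ha _ yK (ne a ha') hyu)
  exact hyu (k.nc (sub he) hu (ne e he) hy (L2_le X a b (hQ hy)) (he.2 y (hQ hy))
    ⟨k.sub yK, by rw [L2_comm, h]; exact L2_fx2 X u _⟩)

end CfsgLib.SyF
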